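import Cfsg.Agent.Known.SubG.Data

/-!
Type `B₂` over the field with two elements: the extreme entries are zero or one.
-/

set_option autoImplicit false
set_option linter.unusedSectionVars false

namespace Cfsg.Agent.Known.SubG

open Cfsg.Lie Cfsg.Agent.ChevGrp

variable {D : ChevalleyDatum} {k : Type*} [Field k] {len : ℕ → ℕ}

/-- Commuting root elements from a table with even coefficients. -/
theorem commute_of_even [CharP k 2] (hS : Rules D k) {r s : ℕ} (hr : r < D.nroots) (hs : s < D.nroots)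
    (h1 : s ≠ r) (h2 : s ≠ D.neg r) (h : ∀ e ∈ D.commTerms r s, e.1 < D.nroots ∧ (2 : ℤ) ∣ e.2.1) (t u : k) :
    Commute ((glSys hS).x r t) ((glSys hS).x s u) := by
  have e := (glSys hS).comm r hr s hs h1 h2 t u
  have h0 : ((D.commWord k r s t u).map fun p => (glSys hS).x p.1 p.2).prod = 1 := by
    apply List.prod_eq_one
    intro z hz
    simp only [ChevalleyDatum.commWord, List.mem_map] at hz
    obtain ⟨_, ⟨w, hw, rfl⟩, rfl⟩ := hz
    obtain ⟨hlt, hev⟩ := h w hw
    rw [intCast_even_two hev, zero_mul, zero_mul]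
    exact (glSys hS).x_zero hlt
  rw [h0, mul_one] at e
  exact e.symm

/-- In characteristic two a monomial element moves root elements without signs. -/
theorem nI_conj_two [CharP k 2] (hS : Rules D k) (hR : RootTable D len) (j : Fin D.rank) {s : ℕ}
    (hs : s < D.nroots) (t : k) :
    (glSys hS).nI j * (glSys hS).x s t * ((glSys hS).nI j)⁻¹ = (glSys hS).x (D.reflectRoot j s) t := by
  obtain ⟨a, ha, hc⟩ := conj_sign hS hR [j]
  have := hc s hs t
  rwa [Sys.nW_singleton, act_singleton, intCast_unit_two (ha s hs), one_mul] at this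

/-- Weyl elements in a subgroup containing all `x_r(1)`. -/
theorem nI_mem (hS : Rules D k) (hR : RootTable D len) (M : Subgroup (GL D.Idx k))
    (hLM : ∀ r < D.nroots, (glSys hS).x r 1 ∈ M) (j : Fin D.rank) : (glSys hS).nI j ∈ M := by
  have hp := hR.simple_lt j j.2
  refine mul_mem (mul_mem (hLM _ hp) ?_) (hLM _ hp)
  rw [inv_one]
  show (glSys hS).x (D.neg (D.simple j)) (-1) ∈ M
  rw [← (glSys hS).x_inv (hR.neg_lt _ hp)]
  exact inv_mem (hLM _ (hR.neg_lt _ hp))

/-- A commutator with central tails. -/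
theorem comm_read {G : Type*} [Group G] {A B P Q Z : G} (hsw : A * B = B * A * Z) (hPB : Commute P B)
    (hQA : Commute Q A) (hQP : Commute Q P) (hZ : Commute Z (Q * P)) :
    (B * Q * (A * P))⁻¹ * (A * P * (B * Q)) = Z := by
  have e1 : A * P * (B * Q) = B * A * Z * (Q * P) := by
    rw [← hsw, mul_assoc, ← mul_assoc P, hPB.eq, hQP.eq]
    simp only [mul_assoc]
  have e2 : B * Q * (A * P) = B * A * (Q * P) := by
    rw [mul_assoc, ← mul_assoc Q, hQA.eq]
    simp only [mul_assoc]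
  rw [e1, e2, mul_assoc (B * A) Z, hZ.eq]
  group

section B2

variable [CharP k 2] (hS : Rules chevB2 k)

theorem pos_B2 : ∀ r < chevB2.nroots, chevB2.IsPosRoot r → r = 4 ∨ r = 5 ∨ r = 6 ∨ r = 7 := by decide +kernel

/-- The commuting pairs. -/
theorem b2_comm {r s : ℕ}
    (h : (r, s) = (4, 6) ∨ (r, s) = (4, 7) ∨ (r, s) = (5, 6) ∨ (r, s) = (5, 7) ∨ (r, s) = (6, 7)) (t u : k) :
    Commute ((glSys hS).x r t) ((glSys hS).x s u) := by
  have key : ∀ p ∈ [(4, 6), (4, 7), (5, 6), (5, 7), (6, 7)],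
      p.1 < chevB2.nroots ∧ p.2 < chevB2.nroots ∧ p.2 ≠ p.1 ∧ p.2 ≠ chevB2.neg p.1 ∧
        ∀ e ∈ chevB2.commTerms p.1 p.2, e.1 < chevB2.nroots ∧ (2 : ℤ) ∣ e.2.1 := by decide +kernel
  obtain ⟨h1, h2, h3, h4, h5⟩ := key (r, s) (by simpa using h)
  exact commute_of_even hS h1 h2 h3 h4 h5 t u

theorem b2_swap (s u : k) :
    (glSys hS).x 5 u * (glSys hS).x 4 s =
      (glSys hS).x 4 s * (glSys hS).x 5 u * ((glSys hS).x 6 (s * u) * (glSys hS).x 7 (s * u ^ 2)) := by
  have h : chevB2.commTerms 4 5 = [(6, 1, 1, 1), (7, -1, 1, 2)] := by decide +kernel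
  have e := (glSys hS).comm 4 (by decide) 5 (by decide) (by decide) (by decide +kernel) s u
  rw [ChevalleyDatum.commWord, h] at e
  simpa [CharTwo.neg_eq] using e

/-- Elements commuting with `U`. -/
def cenU : Subgroup (GL chevB2.Idx k) :=
  Subgroup.centralizer {g | ∃ r, (r = 4 ∨ r = 5 ∨ r = 6 ∨ r = 7) ∧ ∃ t, g = (glSys hS).x r t}

theorem commute_cenU {P : GL chevB2.Idx k} (hP : P ∈ cenU hS) {r : ℕ} (hr : r = 4 ∨ r = 5 ∨ r = 6 ∨ r = 7)
    (t : k) : Commute P ((glSys hS).x r t) :=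
  (Subgroup.mem_centralizer_iff.1 hP _ ⟨r, hr, t, rfl⟩).symm

theorem x6_mem_cenU (t : k) : (glSys hS).x 6 t ∈ cenU hS := by
  rw [cenU, Subgroup.mem_centralizer_iff]
  rintro _ ⟨r, rfl | rfl | rfl | rfl, u, rfl⟩
  · exact b2_comm hS (by simp) u t
  · exact b2_comm hS (by simp) u t
  · rw [(glSys hS).x_add 6 (by decide), (glSys hS).x_add 6 (by decide), add_comm]
  · exact (b2_comm hS (by simp) t u).symm

theorem x7_mem_cenU (t : k) : (glSys hS).x 7 t ∈ cenU hS := by
  rw [cenU, Subgroup.mem_centralizer_iff]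
  rintro _ ⟨r, rfl | rfl | rfl | rfl, u, rfl⟩
  · exact b2_comm hS (by simp) u t
  · exact b2_comm hS (by simp) u t
  · exact b2_comm hS (by simp) u t
  · rw [(glSys hS).x_add 7 (by decide), (glSys hS).x_add 7 (by decide), add_comm]

/-- The products `x₆ x₇`. -/
noncomputable def Z67 (s l : k) : GL chevB2.Idx k := (glSys hS).x 6 s * (glSys hS).x 7 l

theorem Z67_mem_cenU (s l : k) : Z67 hS s l ∈ cenU hS := mul_mem (x6_mem_cenU hS s) (x7_mem_cenU hS l)

theorem Z67_comm {P : GL chevB2.Idx k} (hP : P ∈ cenU hS) (s l : k) : Commute P (Z67 hS s l) :=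
  (commute_cenU hS hP (by simp) s).mul_right (commute_cenU hS hP (by simp) l)

theorem Z67_mul (s l s' l' : k) : Z67 hS s l * Z67 hS s' l' = Z67 hS (s + s') (l + l') := by
  simp only [Z67]
  rw [mul_assoc, ← mul_assoc ((glSys hS).x 7 l), (b2_comm hS (r := 6) (s := 7) (by simp) s' l).symm.eq, mul_assoc,
    (glSys hS).x_add 7 (by decide), ← mul_assoc, (glSys hS).x_add 6 (by decide)]

/-- Reading off the commutator of the two fundamental root groups. -/
theorem b2_extract (M : Subgroup (GL chevB2.Idx k)) {a b s l s' l' : k}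
    (hA : (glSys hS).x 5 a * Z67 hS s l ∈ M) (hB : (glSys hS).x 4 b * Z67 hS s' l' ∈ M) :
    Z67 hS (b * a) (b * a ^ 2) ∈ M := by
  have h := mul_mem (inv_mem (mul_mem hB hA)) (mul_mem hA hB)
  rw [comm_read (Z := Z67 hS (b * a) (b * a ^ 2)) (b2_swap hS b a)
    (commute_cenU hS (Z67_mem_cenU hS s l) (by simp) b) (commute_cenU hS (Z67_mem_cenU hS s' l') (by simp) a)
    (Z67_comm hS (Z67_mem_cenU hS s' l') s l)
    ((Z67_comm hS (Z67_mem_cenU hS _ _) s' l').mul_right (Z67_comm hS (Z67_mem_cenU hS _ _) s l))] at h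
  exact h

variable (hR : RootTable chevB2 len) (M : Subgroup (GL chevB2.Idx k))
  (hLM : ∀ r < chevB2.nroots, (glSys hS).x r 1 ∈ M) (hA : ∀ t, (glSys hS).x 7 t ∈ M → t = 0 ∨ t = 1)

include hR hLM hA in
/-- The centre of `U` meets `M` in prime field parameters. -/
theorem b2_centre {s l : k} (h : Z67 hS s l ∈ M) : s = 0 ∨ s = 1 := by
  have hn : ∀ (j : Fin chevB2.rank) {g : GL chevB2.Idx k}, g ∈ M → (glSys hS).nI j * g * ((glSys hS).nI j)⁻¹ ∈ M := fun j g hg =>
    mul_mem (mul_mem (nI_mem hS hR M hLM j) hg) (inv_mem (nI_mem hS hR M hLM j))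
  have conj : ∀ (j : Fin chevB2.rank) (r r' : ℕ), r < chevB2.nroots → r' < chevB2.nroots → ∀ s l : k,
      (glSys hS).x r s * (glSys hS).x r' l ∈ M → (glSys hS).x (chevB2.reflectRoot j r) s * (glSys hS).x (chevB2.reflectRoot j r') l ∈ M := by
    intro j r r' hr hr' s l h
    rw [← nI_conj_two hS hR j hr, ← nI_conj_two hS hR j hr']
    convert hn j h using 1
    group
  have to5 : ∀ s l, Z67 hS s l ∈ M → (glSys hS).x 5 s * Z67 hS 0 l ∈ M := by
    intro s l h
    have := conj ⟨1, by decide⟩ 6 7 (by decide) (by decide) s l h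
    rw [show chevB2.reflectRoot 1 6 = 5 by decide +kernel, show chevB2.reflectRoot 1 7 = 7 by decide +kernel] at this
    simpa [Z67, (glSys hS).x_zero (show 6 < chevB2.nroots by decide)] using this
  have to4 : ∀ s l, Z67 hS s l ∈ M → (glSys hS).x 4 l * Z67 hS s 0 ∈ M := by
    intro s l h
    have := conj ⟨0, by decide⟩ 6 7 (by decide) (by decide) s l h
    rw [show chevB2.reflectRoot 0 6 = 6 by decide +kernel, show chevB2.reflectRoot 0 7 = 4 by decide +kernel] at this
    rw [Z67, (glSys hS).x_zero (show 7 < chevB2.nroots by decide), mul_one, ← (b2_comm hS (r := 4) (s := 6) (by simp) l s).symm.eq]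
    exact this
  have h5 : (glSys hS).x 5 1 * Z67 hS 0 0 ∈ M := by
    simpa [Z67, (glSys hS).x_zero (show 6 < chevB2.nroots by decide), (glSys hS).x_zero (show 7 < chevB2.nroots by decide)]
      using hLM 5 (by decide)
  have h4 : (glSys hS).x 4 1 * Z67 hS 0 0 ∈ M := by
    simpa [Z67, (glSys hS).x_zero (show 6 < chevB2.nroots by decide), (glSys hS).x_zero (show 7 < chevB2.nroots by decide)]
      using hLM 4 (by decide)
  have step1 : ∀ s l, Z67 hS s l ∈ M → Z67 hS s (s ^ 2) ∈ M := by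
    intro s l h
    simpa using b2_extract hS M (to5 s l h) h4
  have step2 : ∀ s l, Z67 hS s l ∈ M → Z67 hS l l ∈ M := by
    intro s l h
    simpa using b2_extract hS M h5 (to4 s l h)
  have hq : Z67 hS (s ^ 2) (s ^ 2) ∈ M := step2 _ _ (step1 s l h)
  generalize hqs : s ^ 2 = q at hq
  have hq2 := step1 q q hq
  have hline : ∀ t, Z67 hS 0 t ∈ M → t = 0 ∨ t = 1 := fun t ht =>
    hA t (by simpa [Z67, (glSys hS).x_zero (show 6 < chevB2.nroots by decide)] using ht)
  have hsq : s ^ 2 = 0 ∨ s ^ 2 = 1 → s = 0 ∨ s = 1 := by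
    rintro (e | e)
    · exact Or.inl (pow_eq_zero_iff two_ne_zero |>.1 e)
    · exact Or.inr (((sq_eq_one_iff).1 e).elim id fun e' => e'.trans (CharTwo.neg_eq 1))
  apply hsq
  rw [hqs]
  rcases hline (q + q ^ 2) (by simpa [Z67_mul, CharTwo.add_self_eq_zero] using mul_mem hq hq2) with e | e
  · have : q * (1 + q) = 0 := by linear_combination e
    rcases mul_eq_zero.1 this with e' | e'
    · exact Or.inl e'
    · exact Or.inr (CharTwo.add_eq_zero.1 e').symm
  · have h2 : (2 : k) = 0 := CharTwo.two_eq_zero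
    have h3 : q ^ 3 = 1 := by linear_combination (q - 1) * e + (q - 1) * h2
    have hm := b2_extract hS M (to5 q (q ^ 2) hq2) (to4 q (q ^ 2) hq2)
    rw [show q ^ 2 * q = 1 by linear_combination h3, show q ^ 2 * q ^ 2 = q by linear_combination q * h3] at hm
    refine hline q ?_
    have h6 : Z67 hS 1 0 ∈ M := by
      simpa [Z67, (glSys hS).x_zero (show 7 < chevB2.nroots by decide)] using hLM 6 (by decide)
    simpa [Z67_mul, CharTwo.add_self_eq_zero] using mul_mem h6 hm

include hR hLM hA in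
/-- The extreme entries over the field with two elements. -/
theorem b2_entry (hMG : M ≤ chevB2.group k) {g : GL chevB2.Idx k} (hg : g ∈ M) :
    (g : Matrix chevB2.Idx chevB2.Idx k) (Sum.inr (topB2.nth okB2 hR)) (Sum.inr (topB2.tth okB2)) = 0 ∨
    (g : Matrix chevB2.Idx chevB2.Idx k) (Sum.inr (topB2.nth okB2 hR)) (Sum.inr (topB2.tth okB2)) = 1 := by
  classical
  generalize hc : (g : Matrix chevB2.Idx chevB2.Idx k) (Sum.inr (topB2.nth okB2 hR)) (Sum.inr (topB2.tth okB2)) = c
  by_cases hc0 : c = 0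
  · exact Or.inl hc0
  obtain ⟨u, hu, hy, -⟩ := Top.cell hS okB2 hR (hMG hg) hc hc0
  rw [show topB2.th = 7 from rfl, show chevB2.neg 7 = 0 by decide +kernel] at hy
  have hy' : u * (glSys hS).x 0 c * u⁻¹ ∈ M := hy ▸ mul_mem (mul_mem hg (hLM 7 (by decide))) (inv_mem hg)
  -- conjugation by `u`
  have hu' : (∀ r, r = 6 ∨ r = 7 → ∀ t, Commute u ((glSys hS).x r t)) ∧
      ∀ f : k, ∃ al be, u * (glSys hS).x 4 f * u⁻¹ = (glSys hS).x 4 f * Z67 hS al be := by
    refine Subgroup.closure_induction ?_ ?_ ?_ ?_ hu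
    · rintro _ ⟨r, hr, t, rfl⟩
      have hr' := pos_B2 r hr.1 hr
      refine ⟨fun r' h' t' => ?_, fun f => ?_⟩
      · rcases h' with rfl | rfl
        · exact (commute_cenU hS (x6_mem_cenU hS t') hr' t).symm
        · exact (commute_cenU hS (x7_mem_cenU hS t') hr' t).symm
      · by_cases e : r = 5
        · subst e
          refine ⟨f * t, f * t ^ 2, ?_⟩
          rw [b2_swap hS f t, mul_assoc ((glSys hS).x 4 f * (glSys hS).x 5 t)]
          show (glSys hS).x 4 f * (glSys hS).x 5 t * (Z67 hS (f * t) (f * t ^ 2) * ((glSys hS).x 5 t)⁻¹) = _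
          rw [(commute_cenU hS (Z67_mem_cenU hS (f * t) (f * t ^ 2)) (r := 5) (by simp) t).inv_right.eq,
            ← mul_assoc, mul_inv_cancel_right]
        · refine ⟨0, 0, ?_⟩
          have hcm : Commute ((glSys hS).x r t) ((glSys hS).x 4 f) := by
            rcases hr' with rfl | rfl | rfl | rfl
            · exact (((glSys hS).x_add 4 (by decide) t f).trans (by rw [add_comm])).trans ((glSys hS).x_add 4 (by decide) f t).symm
            · exact absurd rfl e
            · exact (b2_comm hS (by simp) f t).symm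
            · exact (b2_comm hS (by simp) f t).symm
          rw [hcm.eq, mul_inv_cancel_right, Z67, (glSys hS).x_zero (by decide), (glSys hS).x_zero (by decide), mul_one, mul_one]
    · exact ⟨fun _ _ _ => Commute.one_left _, fun f => ⟨0, 0, by
        simp [Z67, (glSys hS).x_zero (show 6 < chevB2.nroots by decide), (glSys hS).x_zero (show 7 < chevB2.nroots by decide)]⟩⟩
    · rintro x y _ _ ⟨x1, x2⟩ ⟨y1, y2⟩
      refine ⟨fun r h t => (x1 r h t).mul_left (y1 r h t), fun f => ?_⟩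
      obtain ⟨a1, b1, e1⟩ := y2 f
      obtain ⟨a2, b2, e2⟩ := x2 f
      refine ⟨a2 + a1, b2 + b1, ?_⟩
      have hz : Commute x (Z67 hS a1 b1) := (x1 6 (Or.inl rfl) a1).mul_right (x1 7 (Or.inr rfl) b1)
      rw [show x * y * (glSys hS).x 4 f * (x * y)⁻¹ = x * (y * (glSys hS).x 4 f * y⁻¹) * x⁻¹ by group, e1,
        show x * ((glSys hS).x 4 f * Z67 hS a1 b1) * x⁻¹ = x * (glSys hS).x 4 f * x⁻¹ * (x * Z67 hS a1 b1 * x⁻¹) by group, e2,
        hz.eq, mul_inv_cancel_right, mul_assoc, Z67_mul]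
    · rintro x _ ⟨x1, x2⟩
      refine ⟨fun r h t => (x1 r h t).inv_left, fun f => ?_⟩
      obtain ⟨a, b, e⟩ := x2 f
      refine ⟨a, b, ?_⟩
      have hz : Commute x (Z67 hS a b) := (x1 6 (Or.inl rfl) a).mul_right (x1 7 (Or.inr rfl) b)
      have e' : (glSys hS).x 4 f = x * (glSys hS).x 4 f * x⁻¹ * Z67 hS a b := by
        rw [e, mul_assoc, Z67_mul, CharTwo.add_self_eq_zero, CharTwo.add_self_eq_zero, Z67,
          (glSys hS).x_zero (by decide), (glSys hS).x_zero (by decide), mul_one, mul_one]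
      calc x⁻¹ * (glSys hS).x 4 f * x⁻¹⁻¹ = x⁻¹ * (x * (glSys hS).x 4 f * x⁻¹ * Z67 hS a b) * x := by rw [inv_inv, ← e']
        _ = (glSys hS).x 4 f * (x⁻¹ * Z67 hS a b * x) := by group
        _ = _ := by rw [hz.inv_left.eq, inv_mul_cancel_right]
  obtain ⟨hu67, hu4⟩ := hu'
  set M' := conjSub u M
  have h71 : (glSys hS).x 7 1 ∈ M' := by
    rw [mem_conjSub, (hu67 7 (Or.inr rfl) 1).eq, mul_inv_cancel_right]
    exact hLM 7 (by decide)
  have h61 : (glSys hS).x 6 1 ∈ M' := by
    rw [mem_conjSub, (hu67 6 (Or.inl rfl) 1).eq, mul_inv_cancel_right]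
    exact hLM 6 (by decide)
  have hK : (glSys hS).x 2 c * (glSys hS).x 4 c ∈ M' := by
    have h : chevB2.commTerms 0 6 = [(2, -1, 1, 1), (4, 1, 1, 2)] := by decide +kernel
    have e := (glSys hS).comm 0 (by decide) 6 (by decide) (by decide) (by decide +kernel) c 1
    rw [ChevalleyDatum.commWord, h] at e
    simp [CharTwo.neg_eq] at e
    have := mul_mem (inv_mem (mul_mem (show (glSys hS).x 0 c ∈ M' from hy') h61)) (mul_mem h61 (show (glSys hS).x 0 c ∈ M' from hy'))
    rwa [e, inv_mul_cancel_left] at this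
  have hL : (glSys hS).x 6 c * (glSys hS).x 4 (c ^ 2) ∈ M' := by
    have h : chevB2.commTerms 2 7 = [(6, 1, 1, 1), (4, -1, 2, 1)] := by decide +kernel
    have e := (glSys hS).comm 2 (by decide) 7 (by decide) (by decide) (by decide +kernel) c 1
    rw [ChevalleyDatum.commWord, h] at e
    simp [CharTwo.neg_eq] at e
    have h47 := b2_comm hS (r := 4) (s := 7) (by simp) c 1
    have h46 := b2_comm hS (r := 4) (s := 6) (by simp) c c
    have h44 : Commute ((glSys hS).x 4 c) ((glSys hS).x 4 (c ^ 2)) :=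
      (((glSys hS).x_add 4 (by decide) _ _).trans (by rw [add_comm])).trans ((glSys hS).x_add 4 (by decide) _ _).symm
    have := mul_mem (inv_mem (mul_mem hK h71)) (mul_mem h71 hK)
    rw [← mul_assoc ((glSys hS).x 7 1), e, show (glSys hS).x 2 c * (glSys hS).x 4 c * (glSys hS).x 7 1 = (glSys hS).x 2 c * (glSys hS).x 7 1 * (glSys hS).x 4 c by
        rw [mul_assoc, h47.eq, ← mul_assoc],
      mul_assoc ((glSys hS).x 2 c * (glSys hS).x 7 1), show ((glSys hS).x 6 c * (glSys hS).x 4 (c ^ 2)) * (glSys hS).x 4 c = (glSys hS).x 4 c * ((glSys hS).x 6 c * (glSys hS).x 4 (c ^ 2)) from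
        (h46.mul_right h44).symm.eq, ← mul_assoc ((glSys hS).x 2 c * (glSys hS).x 7 1), inv_mul_cancel_left] at this
    exact this
  rw [mem_conjSub] at hL
  obtain ⟨al, be, e4⟩ := hu4 (c ^ 2)
  have hM : (glSys hS).x 4 (c ^ 2) * Z67 hS (c + al) be ∈ M := by
    have e : u * ((glSys hS).x 6 c * (glSys hS).x 4 (c ^ 2)) * u⁻¹ = (glSys hS).x 4 (c ^ 2) * Z67 hS (c + al) be := by
      rw [(b2_comm hS (r := 4) (s := 6) (by simp) (c ^ 2) c).symm.eq,
        show u * ((glSys hS).x 4 (c ^ 2) * (glSys hS).x 6 c) * u⁻¹ = u * (glSys hS).x 4 (c ^ 2) * u⁻¹ * (u * (glSys hS).x 6 c * u⁻¹) by group, e4,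
        (hu67 6 (Or.inl rfl) c).eq, mul_inv_cancel_right, mul_assoc, ← Z67_comm hS (x6_mem_cenU hS c),
        Z67, Z67, ← mul_assoc ((glSys hS).x 6 c), (glSys hS).x_add 6 (by decide)]
    exact e ▸ hL
  have h5 : (glSys hS).x 5 1 * Z67 hS 0 0 ∈ M := by
    simpa [Z67, (glSys hS).x_zero (show 6 < chevB2.nroots by decide), (glSys hS).x_zero (show 7 < chevB2.nroots by decide)]
      using hLM 5 (by decide)
  have hfin := b2_extract hS M h5 hM
  rw [mul_one] at hfin
  rcases b2_centre hS hR M hLM hA hfin with e | e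
  · exact absurd (pow_eq_zero_iff two_ne_zero |>.1 e) hc0
  · exact Or.inr (((sq_eq_one_iff).1 e).elim id fun e' => e'.trans (CharTwo.neg_eq 1))

end B2

end Cfsg.Agent.Known.SubG
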