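import Mathlib

/-!
Finite subgroups of `SL₂` in characteristic two with a non-normal unipotent subgroup of order at least four:
the parameters form a field containing the parameters of the opposite transvections.
-/

set_option autoImplicit false

namespace Cfsg.Agent.Known.SubG

open Matrix

variable {k : Type*} [Field k]

/-- The upper transvection. -/
def upT (t : k) : SpecialLinearGroup (Fin 2) k := ⟨!![1, t; 0, 1], by simp [det_fin_two]⟩

/-- The lower transvection. -/
def loT (t : k) : SpecialLinearGroup (Fin 2) k := ⟨!![1, 0; t, 1], by simp [det_fin_two]⟩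

theorem upT_val (t : k) : (upT t).1 = !![1, t; 0, 1] := rfl

theorem loT_val (t : k) : (loT t).1 = !![1, 0; t, 1] := rfl

theorem upT_mul (s t : k) : upT s * upT t = upT (s + t) := by
  apply Subtype.ext
  show (!![1, s; 0, 1] : Matrix (Fin 2) (Fin 2) k) * !![1, t; 0, 1] = !![1, s + t; 0, 1]
  simp [Matrix.mul_fin_two, add_comm]

theorem upT_zero : upT (0 : k) = 1 := by
  apply Subtype.ext
  ext i j
  fin_cases i <;> fin_cases j <;> simp [upT]

theorem upT_inv (t : k) : (upT t)⁻¹ = upT (-t) := by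
  rw [inv_eq_iff_mul_eq_one, upT_mul, add_neg_cancel, upT_zero]

theorem upT_inj {s t : k} (h : upT s = upT t) : s = t := by
  have := congrArg (fun g : SpecialLinearGroup (Fin 2) k => g.1 0 1) h
  simpa [upT] using this

/-- Squaring maps a finite multiplicatively closed set onto itself in characteristic two. -/
theorem mem_of_sq_mem [CharP k 2] {T : Set k} (hT : T.Finite) (hmul : ∀ s ∈ T, ∀ t ∈ T, s * t ∈ T)
    {a : k} (ha : a ^ 2 ∈ T) : a ∈ T := by
  classical
  have hinj : Function.Injective fun x : k => x ^ 2 := by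
    intro x y h
    have h2 : (x + y) ^ 2 = 0 := by
      have e : x ^ 2 = y ^ 2 := h
      rw [CharTwo.add_sq, e, CharTwo.add_self_eq_zero]
    have h3 := pow_eq_zero_iff (n := 2) (by norm_num) |>.1 h2
    exact CharTwo.add_eq_zero.1 h3
  have himg : (fun x : k => x ^ 2) '' T = T := by
    refine Set.eq_of_subset_of_ncard_le ?_ ?_ hT
    · rintro _ ⟨x, hx, rfl⟩
      simpa [sq] using hmul x hx x hx
    · rw [Set.ncard_image_of_injective _ hinj]
  rw [← himg] at ha
  obtain ⟨x, hx, e⟩ := ha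
  exact hinj e ▸ hx

/-- The counting argument. -/
theorem field_of_subgroup [CharP k 2] (P : Subgroup (SpecialLinearGroup (Fin 2) k)) [Finite P] {a : k}
    (ha : a ≠ 0) (hz : loT a ∈ P) (h1 : upT (1 : k) ∈ P) (h4 : 4 ≤ Set.ncard {t : k | upT t ∈ P}) :
    (∀ s t, upT s ∈ P → upT t ∈ P → upT (s * t) ∈ P) ∧ upT a ∈ P := by
  classical
  have hTfin : Set.Finite {t : k | upT t ∈ P} :=
    Set.Finite.of_finite_image ((Set.toFinite (P : Set (SpecialLinearGroup (Fin 2) k))).subset
      (by rintro _ ⟨t, ht, rfl⟩; exact ht)) (fun s _ t _ h => upT_inj h)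
  let T := hTfin.toFinset
  have hTmem : ∀ t, t ∈ T ↔ upT t ∈ P := fun t => by simp [T]
  have hT0 : (0 : k) ∈ T := by rw [hTmem, upT_zero]; exact one_mem P
  have hT1 : (1 : k) ∈ T := (hTmem 1).2 h1
  have hcardT : 4 ≤ T.card := by rwa [← Set.ncard_eq_toFinset_card _ hTfin]
  let T' := T.erase 0
  have hT' : ∀ t, t ∈ T' ↔ t ≠ 0 ∧ upT t ∈ P := fun t => by simp [T', hTmem]
  let O : Finset k := ((Set.toFinite {g : SpecialLinearGroup (Fin 2) k | g ∈ P ∧ g.1 1 0 ≠ 0}).toFinset).image
    fun g => g.1 0 0 / g.1 1 0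
  have hfinset : Set.Finite {g : SpecialLinearGroup (Fin 2) k | g ∈ P ∧ g.1 1 0 ≠ 0} :=
    (Set.toFinite (P : Set (SpecialLinearGroup (Fin 2) k))).subset fun g hg => hg.1
  have hO : ∀ w, w ∈ O ↔ ∃ g ∈ P, g.1 1 0 ≠ 0 ∧ g.1 0 0 / g.1 1 0 = w := by
    intro w
    simp only [O, Finset.mem_image, Set.Finite.mem_toFinset, Set.mem_setOf_eq]
    constructor
    · rintro ⟨g, ⟨h, h'⟩, e⟩; exact ⟨g, h, h', e⟩
    · rintro ⟨g, h, h', e⟩; exact ⟨g, ⟨h, h'⟩, e⟩
  choose G hGP hG0 hGw using fun w (h : w ∈ O) => (hO w).1 h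
  let cc : k → k := fun w => if h : w ∈ O then (G w h).1 1 0 else 1
  have hcc : ∀ w, cc w ≠ 0 := by
    intro w
    by_cases h : w ∈ O
    · simp only [cc, dif_pos h]; exact hG0 w h
    · simp [cc, h]
  -- the scale of the involution with fixed point `w` and parameter `t`
  let sc : k → k → k := fun w t => t * cc w ^ 2
  -- its matrix
  let J : k → k → Matrix (Fin 2) (Fin 2) k := fun w s => !![1 + s * w, s * w ^ 2; s, 1 + s * w]
  have hdet : ∀ g : SpecialLinearGroup (Fin 2) k, g.1 0 0 * g.1 1 1 - g.1 0 1 * g.1 1 0 = 1 := fun g => by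
    rw [← det_fin_two]; exact g.2
  have hJ : ∀ w ∈ O, ∀ t, upT t ∈ P → ∃ j ∈ P, j.1 = J w (sc w t) := by
    intro w hw t ht
    refine ⟨G w hw * upT t * (G w hw)⁻¹, mul_mem (mul_mem (hGP w hw) ht) (inv_mem (hGP w hw)), ?_⟩
    have hd := hdet (G w hw)
    have e : (G w hw).1 0 0 = w * (G w hw).1 1 0 := by
      have := hGw w hw
      rw [div_eq_iff (hG0 w hw)] at this
      exact this
    simp only [J, sc, cc, dif_pos hw, Matrix.SpecialLinearGroup.coe_mul, Matrix.SpecialLinearGroup.coe_inv,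
      Matrix.adjugate_fin_two, upT_val]
    ext i j
    fin_cases i <;> fin_cases j <;> simp [Matrix.mul_apply, Fin.sum_univ_two]
    · linear_combination hd + (-t * (G w hw).1 1 0) * e +
        (-(t * w * (G w hw).1 1 0 ^ 2)) * (CharTwo.two_eq_zero : (2 : k) = 0)
    · linear_combination (t * ((G w hw).1 0 0 + w * (G w hw).1 1 0)) * e
    · linear_combination (-(t * (G w hw).1 1 0 ^ 2)) * (CharTwo.two_eq_zero : (2 : k) = 0)
    · linear_combination hd + (t * (G w hw).1 1 0) * e
  let tgt : k × k → k := fun p => p.1 + (sc p.1 p.2)⁻¹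
  have hsc : ∀ w, ∀ t ∈ T', sc w t ≠ 0 := fun w t ht =>
    mul_ne_zero ((hT' t).1 ht).1 (pow_ne_zero _ (hcc w))
  have htgt : ∀ p ∈ O ×ˢ T', tgt p ∈ O := by
    rintro ⟨w, t⟩ hp
    rw [Finset.mem_product] at hp
    obtain ⟨j, hj, e⟩ := hJ w hp.1 t ((hT' t).1 hp.2).2
    have hs := hsc w t hp.2
    refine (hO _).2 ⟨j, hj, ?_, ?_⟩
    · rw [e]; simpa [J] using hs
    · rw [e]; simp [J, tgt]; field_simp; ring
  -- the stabilizer element attached to two involutions with the same target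
  have hstab : ∀ p ∈ O ×ˢ T', ∀ p' ∈ O ×ˢ T', tgt p = tgt p' → ∃ x ∈ P,
      x.1 1 0 = 0 ∧ x.1 0 0 = sc p.1 p.2 / sc p'.1 p'.2 ∧
        x.1 0 1 = tgt p * (x.1 1 1 + x.1 0 0) ∧ x.1 0 0 * x.1 1 1 = 1 := by
    rintro ⟨w, t⟩ hp ⟨w', t'⟩ hp' he
    rw [Finset.mem_product] at hp hp'
    obtain ⟨j, hj, e⟩ := hJ w hp.1 t ((hT' t).1 hp.2).2
    obtain ⟨j', hj', e'⟩ := hJ w' hp'.1 t' ((hT' t').1 hp'.2).2
    have hs := hsc w t hp.2
    have hs' := hsc w' t' hp'.2
    obtain ⟨ω, hω⟩ : ∃ ω, tgt (w, t) = ω := ⟨_, rfl⟩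
    have ew : w = ω - (sc w t)⁻¹ := by rw [← hω]; simp [tgt]
    have ew' : w' = ω - (sc w' t')⁻¹ := by rw [← hω, he]; simp [tgt]
    generalize hA : sc w t = A at hs ew e ⊢
    generalize hB : sc w' t' = B at hs' ew' e' ⊢
    have h2 : (2 : k) = 0 := CharTwo.two_eq_zero
    have hx10 : (j' * j).1 1 0 = 0 := by
      rw [Matrix.SpecialLinearGroup.coe_mul, e, e', Matrix.mul_apply, Fin.sum_univ_two]
      simp only [J, ew, ew', Matrix.of_apply, Matrix.cons_val', Matrix.cons_val_zero, Matrix.cons_val_one,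
        Matrix.empty_val', Matrix.cons_val_fin_one]
      field_simp
      linear_combination (A * B * ω) * h2
    have hx00 : (j' * j).1 0 0 = A / B := by
      rw [Matrix.SpecialLinearGroup.coe_mul, e, e', Matrix.mul_apply, Fin.sum_univ_two]
      simp only [J, ew, ew', Matrix.of_apply, Matrix.cons_val', Matrix.cons_val_zero, Matrix.cons_val_one,
        Matrix.empty_val', Matrix.cons_val_fin_one]
      field_simp
      linear_combination ((B * ω) ^ 2 * A - A * (B * ω)) * h2
    refine ⟨j' * j, mul_mem hj' hj, hx10, hx00, ?_, ?_⟩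
    · rw [hω, Matrix.SpecialLinearGroup.coe_mul, e, e']
      simp only [Matrix.mul_apply, Fin.sum_univ_two, J, ew, ew', Matrix.of_apply, Matrix.cons_val',
        Matrix.cons_val_zero, Matrix.cons_val_one, Matrix.empty_val', Matrix.cons_val_fin_one]
      field_simp
      linear_combination (-(B ^ 2 * ω ^ 3 * A ^ 2)) * h2
    · have := hdet (j' * j)
      rw [hx10] at this
      linear_combination this
  -- multipliers of `T`
  have hmult : ∀ x ∈ P, x.1 1 0 = 0 → ∀ t ∈ T, x.1 0 0 ^ 2 * t ∈ T := by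
    intro x hx h0 t ht
    rw [hTmem] at ht ⊢
    have hd := hdet x
    rw [h0] at hd
    have e : x * upT t * x⁻¹ = upT (x.1 0 0 ^ 2 * t) := by
      apply Subtype.ext
      simp only [Matrix.SpecialLinearGroup.coe_mul, Matrix.SpecialLinearGroup.coe_inv,
        Matrix.adjugate_fin_two, upT_val]
      ext i j
      fin_cases i <;> fin_cases j <;> simp [Matrix.mul_apply, Fin.sum_univ_two, h0]
      · linear_combination hd
      · ring
      · linear_combination hd
    exact e ▸ mul_mem (mul_mem hx ht) (inv_mem hx)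
  let R := T'.filter fun μ => ∀ t ∈ T, μ * t ∈ T
  have hle : ∀ ω ∈ O, ((O ×ˢ T').filter fun p => tgt p = ω).card ≤ R.card := by
    intro ω _
    rcases ((O ×ˢ T').filter fun p => tgt p = ω).eq_empty_or_nonempty with h | ⟨p0, hp0⟩
    · simp [h]
    rw [Finset.mem_filter] at hp0
    refine Finset.card_le_card_of_injOn (fun p => (sc p0.1 p0.2 / sc p.1 p.2) ^ 2) ?_ ?_
    · intro p hp
      rw [Finset.mem_coe, Finset.mem_filter] at hp
      obtain ⟨x, hx, h10, h00, -, hxd⟩ := hstab p0 hp0.1 p hp.1 (hp0.2.trans hp.2.symm)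
      have hm := hmult x hx h10
      simp only [Finset.mem_coe, R, Finset.mem_filter, T', Finset.mem_erase]
      rw [← h00]
      refine ⟨⟨pow_ne_zero _ (left_ne_zero_of_mul_eq_one hxd), by simpa using hm 1 hT1⟩, hm⟩
    · intro p hp p' hp' e
      rw [Finset.mem_coe, Finset.mem_filter] at hp hp'
      have h0 := hsc p0.1 p0.2 (Finset.mem_product.1 hp0.1).2
      have e1 : sc p.1 p.2 = sc p'.1 p'.2 := by
        have h3 : sc p0.1 p0.2 / sc p.1 p.2 = sc p0.1 p0.2 / sc p'.1 p'.2 := by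
          have e' : (sc p0.1 p0.2 / sc p.1 p.2) ^ 2 = (sc p0.1 p0.2 / sc p'.1 p'.2) ^ 2 := e
          rw [sq, sq, mul_self_eq_mul_self_iff, CharTwo.neg_eq, or_self] at e'
          exact e'
        field_simp [h0, hsc p.1 p.2 (Finset.mem_product.1 hp.1).2,
          hsc p'.1 p'.2 (Finset.mem_product.1 hp'.1).2] at h3
        exact h3.symm
      have ew : p.1 = p'.1 := by
        have := hp.2.trans hp'.2.symm
        simp only [tgt] at this
        rw [e1] at this
        exact add_right_cancel this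
      refine Prod.ext ew ?_
      have e2 := e1
      simp only [sc] at e2
      rw [ew] at e2
      exact mul_right_cancel₀ (pow_ne_zero _ (hcc p'.1)) e2
  have hO1 : a⁻¹ ∈ O := (hO _).2 ⟨loT a, hz, by simpa [loT_val] using ha, by simp [loT_val]⟩
  have hsum : (O ×ˢ T').card = ∑ ω ∈ O, ((O ×ˢ T').filter fun p => tgt p = ω).card :=
    Finset.card_eq_sum_card_fiberwise (s := O ×ˢ T') (t := O) (f := tgt) (fun p hp => htgt p hp)
  have hR : R = T' := by
    refine Finset.eq_of_subset_of_card_le (Finset.filter_subset _ _) ?_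
    by_contra hlt
    push Not at hlt
    have : ∑ ω ∈ O, ((O ×ˢ T').filter fun p => tgt p = ω).card < O.card * T'.card := by
      calc ∑ ω ∈ O, ((O ×ˢ T').filter fun p => tgt p = ω).card ≤ ∑ _ω ∈ O, R.card := Finset.sum_le_sum hle
        _ = O.card * R.card := by rw [Finset.sum_const, smul_eq_mul]
        _ < _ := Nat.mul_lt_mul_of_pos_left hlt (Finset.card_pos.2 ⟨_, hO1⟩)
    rw [← hsum, Finset.card_product] at this
    exact lt_irrefl _ this
  have hclosed : ∀ s ∈ T, ∀ t ∈ T, s * t ∈ T := by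
    intro s hs t ht
    by_cases h0 : s = 0
    · rw [h0, zero_mul]; exact hT0
    · have : s ∈ R := hR ▸ (Finset.mem_erase.2 ⟨h0, hs⟩)
      exact (Finset.mem_filter.1 this).2 t ht
  have hfull : ∀ ω ∈ O, ((O ×ˢ T').filter fun p => tgt p = ω).card = R.card := by
    intro ω hω
    refine ((Finset.sum_eq_sum_iff_of_le hle).1 ?_) ω hω
    rw [← hsum, Finset.card_product, Finset.sum_const, smul_eq_mul, hR]
  -- full tori at every point
  have htor : ∀ ω ∈ O, ∀ μ ∈ R, ∃ x ∈ P, x.1 1 0 = 0 ∧ x.1 0 0 ^ 2 = μ ∧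
      x.1 0 1 = ω * (x.1 1 1 + x.1 0 0) ∧ x.1 0 0 * x.1 1 1 = 1 := by
    intro ω hω μ hμ
    obtain ⟨p0, hp0⟩ : ((O ×ˢ T').filter fun p => tgt p = ω).Nonempty := by
      rw [← Finset.card_pos, hfull ω hω]
      exact Finset.card_pos.2 ⟨μ, hμ⟩
    rw [Finset.mem_filter] at hp0
    have key : ∀ p ∈ (O ×ˢ T').filter (fun p => tgt p = ω), ∃ x ∈ P, x.1 1 0 = 0 ∧
        x.1 0 0 = sc p0.1 p0.2 / sc p.1 p.2 ∧ x.1 0 1 = ω * (x.1 1 1 + x.1 0 0) ∧
          x.1 0 0 * x.1 1 1 = 1 := by
      intro p hp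
      rw [Finset.mem_filter] at hp
      simpa [hp0.2] using hstab p0 hp0.1 p hp.1 (hp0.2.trans hp.2.symm)
    have himg : ((O ×ˢ T').filter fun p => tgt p = ω).image (fun p => (sc p0.1 p0.2 / sc p.1 p.2) ^ 2) = R := by
      refine Finset.eq_of_subset_of_card_le ?_ ?_
      · intro μ' hμ'
        obtain ⟨p, hp, rfl⟩ := Finset.mem_image.1 hμ'
        obtain ⟨x, hx, h10, h00, -, hxd⟩ := key p hp
        have hm := hmult x hx h10
        simp only [R, Finset.mem_filter, T', Finset.mem_erase]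
        rw [← h00]
        exact ⟨⟨pow_ne_zero _ (left_ne_zero_of_mul_eq_one hxd), by simpa using hm 1 hT1⟩, hm⟩
      · rw [Finset.card_image_of_injOn, hfull ω hω]
        intro p hp p' hp' e
        rw [Finset.mem_coe, Finset.mem_filter] at hp hp'
        have h0 := hsc p0.1 p0.2 (Finset.mem_product.1 hp0.1).2
        have e1 : sc p.1 p.2 = sc p'.1 p'.2 := by
          have e' : (sc p0.1 p0.2 / sc p.1 p.2) ^ 2 = (sc p0.1 p0.2 / sc p'.1 p'.2) ^ 2 := e
          rw [sq, sq, mul_self_eq_mul_self_iff, CharTwo.neg_eq, or_self] at e'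
          field_simp [h0, hsc p.1 p.2 (Finset.mem_product.1 hp.1).2,
            hsc p'.1 p'.2 (Finset.mem_product.1 hp'.1).2] at e'
          exact e'.symm
        have ew : p.1 = p'.1 := by
          have := hp.2.trans hp'.2.symm
          simp only [tgt] at this
          rw [e1] at this
          exact add_right_cancel this
        refine Prod.ext ew ?_
        have e2 := e1
        simp only [sc] at e2
        rw [ew] at e2
        exact mul_right_cancel₀ (pow_ne_zero _ (hcc p'.1)) e2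
    rw [← himg] at hμ
    obtain ⟨p, hp, rfl⟩ := Finset.mem_image.1 hμ
    obtain ⟨x, hx, h10, h00, h01, hxd⟩ := key p hp
    exact ⟨x, hx, h10, by rw [h00], h01, hxd⟩
  -- the orbit is one translate of `T`
  have hdiff : ∀ ω ∈ O, ∀ ω' ∈ O, ω + ω' ∈ T := by
    intro ω hω ω' hω'
    obtain ⟨μ, hμ, hμ1⟩ : ∃ μ ∈ R, μ ≠ 1 := by
      apply Finset.exists_mem_ne
      rw [hR, Finset.card_erase_of_mem hT0]
      omega
    obtain ⟨x, hx, x10, x00, x01, xd⟩ := htor ω hω μ hμ
    obtain ⟨y, hy, y10, y00, y01, yd⟩ := htor ω' hω' μ hμ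
    have hl : y.1 0 0 = x.1 0 0 := by
      have e' : y.1 0 0 * y.1 0 0 = x.1 0 0 * x.1 0 0 := by rw [← sq, ← sq, x00, y00]
      rwa [mul_self_eq_mul_self_iff, CharTwo.neg_eq, or_self] at e'
    have hl0 : x.1 0 0 ≠ 0 := left_ne_zero_of_mul_eq_one xd
    have hlT : x.1 0 0 ∈ T := by
      have h := mem_of_sq_mem (k := k) (T := (T : Set k)) T.finite_toSet hclosed (a := x.1 0 0)
        (by rw [x00]; exact (Finset.mem_erase.1 (hR ▸ hμ : μ ∈ T')).2)
      exact h
    set e := x.1 0 0 * (ω + ω') * (x.1 1 1 + x.1 0 0) with he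
    have heT : upT e ∈ P := by
      have h11 : y.1 1 1 = x.1 1 1 := by
        have : x.1 0 0 * y.1 1 1 = x.1 0 0 * x.1 1 1 := by rw [xd, ← hl, yd]
        exact mul_left_cancel₀ hl0 this
      have h2 : (2 : k) = 0 := CharTwo.two_eq_zero
      have ee : x * y⁻¹ = upT e := by
        apply Subtype.ext
        simp only [Matrix.SpecialLinearGroup.coe_mul, Matrix.SpecialLinearGroup.coe_inv,
          Matrix.adjugate_fin_two, upT_val]
        ext i j
        fin_cases i <;> fin_cases j <;> simp [Matrix.mul_apply, Fin.sum_univ_two, x10, y10]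
        · rw [h11]; exact xd
        · rw [he, y01, x01, h11, hl]
          linear_combination (-(x.1 0 0 * ω' * (x.1 1 1 + x.1 0 0))) * h2
        · rw [hl, mul_comm]; exact xd
      exact ee ▸ mul_mem hx (inv_mem hy)
    -- the factor lies in `T` and is non-zero
    have hμT : μ ∈ T := (Finset.mem_erase.1 (hR ▸ hμ : μ ∈ T')).2
    have hfac : x.1 0 0 * (x.1 1 1 + x.1 0 0) = 1 + μ := by rw [mul_add, xd, ← x00, sq]
    have h1μ : 1 + μ ∈ T := by
      rw [hTmem, ← upT_mul]
      exact mul_mem h1 ((hTmem μ).1 hμT)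
    have hne : 1 + μ ≠ 0 := fun h => hμ1 (CharTwo.add_eq_zero.1 h).symm
    have hbij : (T : Finset k).image (fun t => (1 + μ) * t) = T := by
      refine Finset.eq_of_subset_of_card_le ?_ ?_
      · intro t ht
        obtain ⟨s, hs, rfl⟩ := Finset.mem_image.1 ht
        exact hclosed _ h1μ _ hs
      · rw [Finset.card_image_of_injective _ (mul_right_injective₀ hne)]
    have : e ∈ T.image (fun t => (1 + μ) * t) := hbij.symm ▸ (hTmem e).2 heT
    obtain ⟨s, hs, hse⟩ := Finset.mem_image.1 this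
    have : ω + ω' = s := by
      apply mul_left_cancel₀ hne
      rw [hse, he, ← hfac]; ring
    rw [this]; exact hs
  refine ⟨fun s t hs ht => (hTmem _).1 (hclosed s ((hTmem s).2 hs) t ((hTmem t).2 ht)), ?_⟩
  -- finally the opposite parameter
  have hg : loT a * upT (1 : k) * loT a ∈ P := mul_mem (mul_mem hz h1) hz
  have hw : (a ^ 2)⁻¹ + a⁻¹ ∈ O := by
    have h2 : (2 : k) = 0 := CharTwo.two_eq_zero
    have e10 : (loT a * upT (1 : k) * loT a).1 1 0 = a ^ 2 := by
      simp only [Matrix.SpecialLinearGroup.coe_mul, loT_val, upT_val, Matrix.mul_apply, Fin.sum_univ_two]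
      simp
      linear_combination a * h2
    have e00 : (loT a * upT (1 : k) * loT a).1 0 0 = 1 + a := by
      simp only [Matrix.SpecialLinearGroup.coe_mul, loT_val, upT_val, Matrix.mul_apply, Fin.sum_univ_two]
      simp
    refine (hO _).2 ⟨_, hg, ?_, ?_⟩
    · rw [e10]; exact pow_ne_zero _ ha
    · rw [e00, e10]; field_simp
  have hsq := hdiff _ hw _ hO1
  rw [add_assoc, CharTwo.add_self_eq_zero, add_zero] at hsq
  have hi : a⁻¹ ∈ T := mem_of_sq_mem (k := k) (T := (T : Set k)) T.finite_toSet hclosed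
    (by rw [inv_pow]; exact hsq)
  have hai : a ∈ T := by
    have hb : (T : Finset k).image (fun t => a⁻¹ * t) = T := by
      refine Finset.eq_of_subset_of_card_le ?_ ?_
      · intro t ht
        obtain ⟨s, hs, rfl⟩ := Finset.mem_image.1 ht
        exact hclosed _ hi _ hs
      · rw [Finset.card_image_of_injective _ (mul_right_injective₀ (inv_ne_zero ha))]
    have : (1 : k) ∈ T.image (fun t => a⁻¹ * t) := hb.symm ▸ hT1
    obtain ⟨s, hs, hse⟩ := Finset.mem_image.1 this
    have : s = a := by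
      apply mul_left_cancel₀ (inv_ne_zero ha)
      rw [hse, inv_mul_cancel₀ ha]
    exact this ▸ hs
  exact (hTmem a).1 hai

end Cfsg.Agent.Known.SubG
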