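import Cfsg.Agent.Known.SubG.Main
import Mathlib.FieldTheory.Finite.GaloisField
import Mathlib.FieldTheory.IsAlgClosed.Basic

/-!
Counting fixed points of a power map; root elements with parameters in a finite field.
-/

set_option autoImplicit false
set_option linter.unusedSectionVars false

namespace Cfsg.Agent.Known.SubG

open Cfsg.Lie Cfsg.Agent.ChevGrp

variable {k : Type*} [Field k]

/-- An embedded finite field gives all fixed points. -/
theorem card_fix_of_hom {p a : ℕ} [Fact p.Prime] (ha : a ≠ 0) (f : GaloisField p a →+* k) :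
    Nat.card {t : k // t ^ p ^ a = t} = p ^ a := by
  classical
  haveI := Fintype.ofFinite (GaloisField p a)
  have hc : Nat.card (GaloisField p a) = p ^ a := GaloisField.card p a ha
  obtain ⟨hfin, hle⟩ := finite_fix_pow (k := k) (Nat.one_lt_pow ha (Fact.out : p.Prime).one_lt)
  refine le_antisymm ?_ ?_
  · exact (Nat.card_coe_set_eq {t : k | t ^ p ^ a = t}).trans_le hle
  · haveI : Finite {t : k // t ^ p ^ a = t} := hfin.to_subtype
    refine hc.symm.trans_le (Nat.card_le_card_of_injective
      (fun x => ⟨f x, ?_⟩) fun x y h => ?_)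
    · rw [← map_pow]
      have hx := FiniteField.pow_card (K := GaloisField p a) x
      rw [← Nat.card_eq_fintype_card, hc] at hx
      rw [hx]
    exact f.injective (congrArg Subtype.val h)

theorem card_fix_algClosed {p : ℕ} [Fact p.Prime] [CharP k p] [IsAlgClosed k] {a : ℕ} (ha : a ≠ 0) :
    Nat.card {t : k // t ^ p ^ a = t} = p ^ a := by
  letI := ZMod.algebra k p
  exact card_fix_of_hom ha (IsAlgClosed.lift (R := ZMod p) (S := GaloisField p a) (M := k)).toRingHom

theorem card_fix_finite {p : ℕ} [Fact p.Prime] [CharP k p] [Fintype k] {a r : ℕ} (ha : a ≠ 0)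
    (hk : Fintype.card k = (p ^ a) ^ r) : Nat.card {t : k // t ^ p ^ a = t} = p ^ a := by
  letI := ZMod.algebra k p
  have hd : Module.finrank (ZMod p) (GaloisField p a) ∣ Module.finrank (ZMod p) k := by
    rw [GaloisField.finrank p ha]
    have h := Module.card_eq_pow_finrank (K := ZMod p) (V := k)
    rw [ZMod.card, hk, ← pow_mul] at h
    exact ⟨r, ((Nat.pow_right_injective (Fact.out : p.Prime).two_le) h).symm⟩
  obtain ⟨f⟩ := FiniteField.nonempty_algHom_of_finrank_dvd hd
  exact card_fix_of_hom ha f.toRingHom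

variable {D : ChevalleyDatum} {len : ℕ → ℕ}

/-- An entry of `x_a(t)` linear in `t`. -/
theorem entry_lin {T : Top D} (hR : RootTable D len) (hT : T.ok) (t : k) :
    D.x k T.a t (Sum.inr (T.nga hT hR)) (Sum.inr (T.nth hT hR)) = (T.M1 : k) * t := by
  obtain ⟨-, ⟨n1, n2, n3, -, -, -, -, n8⟩, -, -, -, -, ⟨hco, -⟩, -⟩ := id hT
  have ha := Top.a_lt hT hR
  have h1 : (T.nth hT hR : ℕ) ≠ T.a := Top.neg_not_pos hT hR (Top.a_pos hT hR) hT.1.2.2.2.2.1
  have h2 : (T.nth hT hR : ℕ) ≠ D.negIdx.getD T.a 0 := by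
    intro e
    exact n3 (by rw [← hR.neg_neg_root ha, ← hR.neg_neg_root hT.1.1]; exact congrArg D.neg e.symm)
  rw [ChevalleyDatum.x, dif_pos ha]
  simp only [Top.nth, Top.nga] at h1 h2
  simp [ChevalleyDatum.xMat, Top.nth, Top.nga, -Array.getD_eq_getD_getElem?, Fin.ext_iff, h1, h2, hco, n8]

/-- Root elements with fixed parameters have fixed entries. -/
theorem x_entry_fixed {p a : ℕ} [Fact p.Prime] [CharP k p] {s : ℕ} {t : k} (ht : t ^ p ^ a = t)
    (i j : D.Idx) : (D.x k s t i j) ^ p ^ a = D.x k s t i j := by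
  have h := congrFun (congrFun (x_map D (iterateFrobenius k p a) s t) i) j
  rw [iterateFrobenius_def, ht] at h
  simpa [iterateFrobenius_def] using h

end Cfsg.Agent.Known.SubG
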