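import Cfsg.Agent.Known.SubG.B2two

/-!
Type `G₂` over the field with two elements: the extreme entries are zero or one.
-/

set_option autoImplicit false
set_option synthInstance.maxSize 4000
set_option synthInstance.maxHeartbeats 400000
set_option linter.unusedSectionVars false

namespace Cfsg.Agent.Known.SubG

open Cfsg.Lie Cfsg.Agent.ChevGrp

variable {k : Type*} [Field k] {len : ℕ → ℕ}

/-- A non-trivial element of the field with four elements is a cube root of unity. -/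
theorem isCubeRoot_of_pow [CharP k 2] {x : k} (h : x ^ 4 = x) (h0 : x ≠ 0) (h1 : x ≠ 1) : IsCubeRoot x := by
  have h2 : (2 : k) = 0 := CharTwo.two_eq_zero
  have h' : x * ((x - 1) * (x ^ 2 + x + 1)) = 0 := by linear_combination h
  have := ((mul_eq_zero.1 ((mul_eq_zero.1 h').resolve_left h0)).resolve_left (sub_ne_zero.2 h1))
  unfold IsCubeRoot
  linear_combination this - (x + 1) * h2

section G2

variable [CharP k 2] {Cc : Chev.Cert} (hV : Cc.Valid chevG2) (hS : Rules chevG2 k) (hR : RootTable chevG2 len)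

theorem pos_G2 : ∀ r < chevG2.nroots, chevG2.IsPosRoot r → r = 6 ∨ r = 7 ∨ r = 8 ∨ r = 9 ∨ r = 10 ∨ r = 11 := by
  decide +kernel

/-- The positive roots other than the short fundamental one. -/
def T0G2 : Set ℕ := posSet chevG2 \ {7}

theorem partner_G2 {rho pr : ℕ} {C : ℤ} (h : (rho, pr, C) = (8, 9, -3) ∨ (rho, pr, C) = (6, 10, -1)) :
    Partner chevG2 11 T0G2 rho pr C 1 := by
  have key : ∀ d ∈ [((8 : ℕ), (9 : ℕ), (-3 : ℤ)), (6, 10, -1)],
      chevG2.IsPosRoot d.1 ∧ chevG2.IsPosRoot d.2.1 ∧ chevG2.IsPosRoot 11 ∧ d.2.1 ≠ d.1 ∧ d.2.1 ≠ 11 ∧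
      (∀ r < chevG2.nroots, chevG2.IsPosRoot r → r ≠ 7 → r ≠ d.2.1 → r ≠ d.1 → chevG2.commTerms r d.1 = []) ∧
      chevG2.commTerms d.2.1 d.1 = [(11, d.2.2, 1, 1)] ∧
      (∀ r < chevG2.nroots, chevG2.IsPosRoot r → r ≠ 7 → ∀ e ∈ (chevG2.chain.getD r #[]).toList, ∀ q ∈ e.2.toList,
        q.1 = chevG2.neg d.1 → r = d.2.1 ∧ e.1 = chevG2.neg 11) ∧
      chevG2.chainCoeff d.2.1 (chevG2.neg 11) (chevG2.neg d.1) = [(1, 1)] := by decide +kernel
  obtain ⟨a1, a2, a3, a4, a5, a6, a7, a8, a9⟩ := key (rho, pr, C) (by simpa using h)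
  exact { rho_pos := a1, pr_pos := a2, th_pos := a3, sub := fun r hr => hr.1, ne_rho := a4, ne_th := a5,
          comm := fun r hr => a6 r hr.1.1 hr.1 hr.2, terms := a7, row := fun r hr => a8 r hr.1.1 hr.1 hr.2,
          coef := a9, M_sq := Or.inl rfl }

variable (M : Subgroup (GL chevG2.Idx k)) [Finite M] (hMG : M ≤ chevG2.group k)
  (hLM : ∀ r < chevG2.nroots, (glSys hS).x r 1 ∈ M) (hA : ∀ t, (glSys hS).x 11 t ∈ M → t = 0 ∨ t = 1)

/-- The entries in the extreme column. -/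
def col11 (g : GL chevG2.Idx k) (z : Fin chevG2.nroots) : k :=
  (g : Matrix chevG2.Idx chevG2.Idx k) (Sum.inr z) (Sum.inr ⟨11, by decide⟩)

theorem nth_G2 : topG2.nth okG2 hR = ⟨0, by decide⟩ :=
  Fin.ext (show chevG2.neg 11 = 0 by decide +kernel)

theorem nga_G2 : topG2.nga okG2 hR = ⟨1, by decide⟩ :=
  Fin.ext (show chevG2.neg 10 = 1 by decide +kernel)

theorem tth_G2 : topG2.tth okG2 = ⟨11, by decide⟩ := rfl

include hV hR hMG hLM hA in
theorem g2_long {g : GL chevG2.Idx k} (hg : g ∈ M) (h0 : col11 g ⟨0, by decide⟩ ≠ 0)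
    (h1 : col11 g ⟨0, by decide⟩ ≠ 1) :
    col11 g ⟨0, by decide⟩ ^ 4 = col11 g ⟨0, by decide⟩ ∧
      IsCubeRoot (col11 g ⟨1, by decide⟩ / col11 g ⟨0, by decide⟩) := by
  have := long_entry hV hS hR okG2 longG2 M hMG hLM hA hg (c := col11 g ⟨0, by decide⟩)
    (by rw [nth_G2, tth_G2]; rfl) h0 h1
  rwa [nga_G2, tth_G2] at this

include hV hR hMG hLM hA in
theorem g2_fixed {g : GL chevG2.Idx k} (hg : g ∈ M) (i j : chevG2.Idx) :
    (g : Matrix chevG2.Idx chevG2.Idx k) i j ^ 4 = (g : Matrix chevG2.Idx chevG2.Idx k) i j := by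
  have h := fixed_of_entries hS hR okG2 (iterateFrobenius k 2 2) M hMG hLM (fun g' hg' => by
    rw [nth_G2, tth_G2, iterateFrobenius_def]
    by_cases e0 : col11 g' ⟨0, by decide⟩ = 0
    · rw [col11] at e0; rw [e0]; norm_num
    by_cases e1 : col11 g' ⟨0, by decide⟩ = 1
    · rw [col11] at e1; rw [e1]; norm_num
    exact (g2_long hV hS hR M hMG hLM hA hg' e0 e1).1) hg
  have := congrArg (fun A : GL chevG2.Idx k => (A : Matrix chevG2.Idx chevG2.Idx k) i j) h
  simpa [iterateFrobenius_def] using this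

include hV hR hMG hLM hA in
/-- The ratio at the short root. -/
theorem g2_short {g : GL chevG2.Idx k} (hg : g ∈ M) (h0 : col11 g ⟨0, by decide⟩ ≠ 0)
    (h1 : col11 g ⟨0, by decide⟩ ≠ 1) :
    IsCubeRoot (col11 g ⟨3, by decide⟩ / col11 g ⟨0, by decide⟩) := by
  classical
  generalize hc : col11 g ⟨0, by decide⟩ = c at h0 h1 ⊢
  generalize hs : col11 g ⟨3, by decide⟩ / c = s
  have hs4 : s ^ 4 = s := by
    rw [← hs, ← hc, col11, col11, div_pow, g2_fixed hV hS hR M hMG hLM hA hg, g2_fixed hV hS hR M hMG hLM hA hg]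
  by_contra hcon
  have hs01 : s = 0 ∨ s = 1 := by
    by_contra h
    push Not at h
    exact hcon (isCubeRoot_of_pow hs4 h.1 h.2)
  obtain ⟨u, hu, hy, hcol⟩ := Top.cell hS okG2 hR (hMG hg) (c := c) (by rw [nth_G2, tth_G2]; exact hc) h0
  rw [show topG2.th = 11 from rfl, show chevG2.neg 11 = 0 by decide +kernel] at hy
  obtain ⟨v, hv', t, rfl⟩ := (glSys hS).x_simple_split hR ⟨0, by decide⟩ hu
  rw [show chevG2.simple 0 = 7 by decide +kernel] at hy hcol hv'
  have hvU : v ∈ (glSys hS).Ubar := (glSys hS).US_mono (fun r h => h.1) hv'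
  have h07 : Commute ((glSys hS).x 7 t) ((glSys hS).x 0 c) := by
    refine commute_of_even hS (by decide) (by decide) (by decide) (by decide +kernel) ?_ t c
    rw [show chevG2.commTerms 7 0 = [] by decide +kernel]; simp
  have hy' : v * (glSys hS).x 0 c * v⁻¹ ∈ M := by
    have e : v * (glSys hS).x 7 t * (glSys hS).x 0 c * (v * (glSys hS).x 7 t)⁻¹ = v * (glSys hS).x 0 c * v⁻¹ := by
      rw [mul_assoc v, h07.eq]; group
    rw [← e, ← hy]
    exact mul_mem (mul_mem hg (hLM 11 (by decide))) (inv_mem hg)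
  have hv0 : ∀ z, (g : Matrix chevG2.Idx chevG2.Idx k) z (Sum.inr ⟨11, by decide⟩) =
      c * (v : Matrix chevG2.Idx chevG2.Idx k) z (Sum.inr (topG2.nth okG2 hR)) := by
    intro z
    have hfix : (glSys hS).x 7 t ∈ colFix (Sum.inr (topG2.nth okG2 hR)) := by
      intro row
      rw [← glSys_mat hS, (glSys hS).mat_x (by decide), nth_G2]
      refine x_col (by decide) t _ (by decide +kernel) (fun u => chainCoeff_eq_nil fun e he q hq hqu hes => ?_) row
      have key : ∀ e ∈ (chevG2.chain.getD 7 #[]).toList, e.1 ≠ 0 := by decide +kernel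
      exact key e he hes
    have := hcol z
    rw [tth_G2, mul_colFix _ hfix] at this
    exact this
  set M' := conjSub v M
  have hy0 : (glSys hS).x 0 c ∈ M' := hy'
  have h11 : (glSys hS).x 11 1 ∈ M' := (x_th_mem_conjSub hS hR okG2 hvU).2 (hLM 11 (by decide))
  obtain ⟨e, herow, -, hconj⟩ := (partner_G2 (Or.inl rfl)).conj hS hR okG2 hv'
  have he : e = s := by
    have h3 := herow (Sum.inr (topG2.nth okG2 hR))
    rw [Matrix.one_apply_ne (by rw [nth_G2]; simp [Fin.ext_iff]; decide +kernel), if_pos rfl, zero_add] at h3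
    rw [← h3, ← hs, show (⟨chevG2.neg 8, _⟩ : Fin chevG2.nroots) = ⟨3, by decide⟩ from Fin.ext (show chevG2.neg 8 = 3 by decide +kernel),
      col11, hv0, mul_div_cancel_left₀ _ h0]
  have h81 : (glSys hS).x 8 1 ∈ M' := by
    have hm : v⁻¹ * (glSys hS).x 8 1 * v ∈ M' := by
      rw [mem_conjSub, show v * (v⁻¹ * (glSys hS).x 8 1 * v) * v⁻¹ = (glSys hS).x 8 1 by group]
      exact hLM 8 (by decide)
    rw [hconj 1, show topG2.th = 11 from rfl] at hm
    have hfix : (glSys hS).x 11 (-(((-3 * 1 : ℤ)) : k) * e * 1) ∈ M' := by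
      rcases hs01 with h | h
      · rw [he, h, mul_zero, zero_mul, (glSys hS).x_zero (by decide)]; exact one_mem _
      · have h3 : (3 : k) = 1 := by linear_combination (CharTwo.two_eq_zero : (2 : k) = 0)
        rw [he, h]; simpa [h3, CharTwo.neg_eq] using h11
    exact (mul_mem_cancel_right hfix).1 hm
  have hK : (glSys hS).x 2 c * (glSys hS).x 4 c * (glSys hS).x 6 c ∈ M' := by
    have h : chevG2.commTerms 0 8 = [(2, 1, 1, 1), (4, 1, 1, 2), (6, -1, 1, 3), (1, -2, 2, 3)] := by decide +kernel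
    have e := (glSys hS).comm 0 (by decide) 8 (by decide) (by decide) (by decide +kernel) c 1
    rw [ChevalleyDatum.commWord, h] at e
    simp [CharTwo.neg_eq, CharTwo.two_eq_zero, (glSys hS).x_zero (show 1 < chevG2.nroots by decide)] at e
    have := mul_mem (inv_mem (mul_mem hy0 h81)) (mul_mem h81 hy0)
    rwa [e, inv_mul_cancel_left, ← mul_assoc] at this
  have cm : ∀ {r s : ℕ}, (r, s) ∈ [(2, 6), (4, 6), (1, 4), (1, 2), (1, 6)] → ∀ t u : k,
      Commute ((glSys hS).x r t) ((glSys hS).x s u) := by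
    intro r s h t u
    have key : ∀ p ∈ [(2, 6), (4, 6), (1, 4), (1, 2), (1, 6)],
        p.1 < chevG2.nroots ∧ p.2 < chevG2.nroots ∧ p.2 ≠ p.1 ∧ p.2 ≠ chevG2.neg p.1 ∧
          chevG2.commTerms p.1 p.2 = [] := by decide +kernel
    obtain ⟨a1, a2, a3, a4, a5⟩ := key (r, s) h
    exact commute_of_even hS a1 a2 a3 a4 (by rw [a5]; simp) t u
  have h1c : (glSys hS).x 1 (c ^ 2) ∈ M' := by
    have h : chevG2.commTerms 2 4 = [(1, 3, 1, 1)] := by decide +kernel
    have e := (glSys hS).comm 2 (by decide) 4 (by decide) (by decide) (by decide +kernel) c c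
    rw [ChevalleyDatum.commWord, h] at e
    have h3 : (3 : k) = 1 := by linear_combination (CharTwo.two_eq_zero : (2 : k) = 0)
    simp [CharTwo.neg_eq, h3, ← sq] at e
    have z : ∀ {r : ℕ}, r < chevG2.nroots → ∀ w : k, (glSys hS).x r w * (glSys hS).x r w = 1 := fun hr w => by
      rw [(glSys hS).x_add _ hr, CharTwo.add_self_eq_zero, (glSys hS).x_zero hr]
    have c6 : Commute ((glSys hS).x 6 c) ((glSys hS).x 2 c * (glSys hS).x 4 c) :=
      ((cm (by simp) c c).mul_left (cm (by simp) c c)).symm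
    have := mul_mem hK hK
    rw [mul_assoc ((glSys hS).x 2 c * (glSys hS).x 4 c), ← mul_assoc ((glSys hS).x 6 c), c6.eq,
      mul_assoc ((glSys hS).x 2 c * (glSys hS).x 4 c) ((glSys hS).x 6 c), z (by decide) c, mul_one,
      ← mul_assoc, mul_assoc ((glSys hS).x 2 c) ((glSys hS).x 4 c), e, ← mul_assoc, ← mul_assoc, z (by decide) c,
      one_mul, mul_assoc, (cm (r := 1) (s := 4) (by simp) (c ^ 2) c).eq, ← mul_assoc, z (by decide) c, one_mul] at this
    exact this
  have h6c : (glSys hS).x 6 (c ^ 2) ∈ M' := by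
    have h : chevG2.commTerms 1 11 = [(6, -1, 1, 1)] := by decide +kernel
    have e := (glSys hS).comm 1 (by decide) 11 (by decide) (by decide) (by decide +kernel) (c ^ 2) 1
    rw [ChevalleyDatum.commWord, h] at e
    simp [CharTwo.neg_eq] at e
    have := mul_mem (inv_mem (mul_mem h1c h11)) (mul_mem h11 h1c)
    rwa [e, inv_mul_cancel_left] at this
  obtain ⟨e', -, -, hconj'⟩ := (partner_G2 (Or.inr rfl)).conj hS hR okG2 hv'
  rw [mem_conjSub] at h6c
  have hY : ∃ w, v * (glSys hS).x 6 (c ^ 2) * v⁻¹ = (glSys hS).x 6 (c ^ 2) * (glSys hS).x 11 w := by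
    refine ⟨-(-(((-1 * 1 : ℤ)) : k) * e' * c ^ 2), ?_⟩
    have hc' := ((Top.Ubar_props hS okG2 hR hvU).2.2 (-(((-1 * 1 : ℤ)) : k) * e' * c ^ 2)).eq
    rw [show topG2.th = 11 from rfl] at hc'
    have h := hconj' (c ^ 2)
    rw [show topG2.th = 11 from rfl] at h
    rw [← (glSys hS).x_inv (show 11 < chevG2.nroots by decide)]
    calc v * (glSys hS).x 6 (c ^ 2) * v⁻¹
        = v * ((v⁻¹ * (glSys hS).x 6 (c ^ 2) * v) * ((glSys hS).x 11 (-(((-1 * 1 : ℤ)) : k) * e' * c ^ 2))⁻¹) *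
            v⁻¹ := by rw [h, mul_inv_cancel_right]
      _ = (glSys hS).x 6 (c ^ 2) * (v * ((glSys hS).x 11 (-(((-1 * 1 : ℤ)) : k) * e' * c ^ 2))⁻¹ * v⁻¹) := by group
      _ = _ := by rw [(Commute.inv_right hc').eq, mul_inv_cancel_right]
  obtain ⟨w, hY⟩ := hY
  rw [hY] at h6c
  have hfin : (glSys hS).x 11 (c ^ 2) ∈ M := by
    have h : chevG2.commTerms 10 6 = [(11, -1, 1, 1)] := by decide +kernel
    have e := (glSys hS).comm 10 (by decide) 6 (by decide) (by decide) (by decide +kernel) 1 (c ^ 2)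
    rw [ChevalleyDatum.commWord, h] at e
    simp [CharTwo.neg_eq] at e
    have hw : Commute ((glSys hS).x 10 1) ((glSys hS).x 11 w) := by
      refine commute_of_even hS (by decide) (by decide) (by decide) (by decide +kernel) ?_ 1 w
      rw [show chevG2.commTerms 10 11 = [] by decide +kernel]; simp
    have hw' : Commute ((glSys hS).x 11 w) ((glSys hS).x 11 (c ^ 2)) :=
      ((glSys hS).x_add 11 (by decide) _ _).trans
        ((congrArg ((glSys hS).x 11) (add_comm w (c ^ 2))).trans ((glSys hS).x_add 11 (by decide) _ _).symm)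
    have h101 := hLM 10 (by decide)
    have := mul_mem (inv_mem (mul_mem h101 h6c)) (mul_mem h6c h101)
    rw [mul_assoc ((glSys hS).x 6 (c ^ 2)), ← hw.eq, ← mul_assoc ((glSys hS).x 6 (c ^ 2)), e,
      mul_assoc ((glSys hS).x 10 1 * (glSys hS).x 6 (c ^ 2)), hw'.symm.eq, ← mul_assoc,
      ← mul_assoc ((glSys hS).x 10 1)] at this
    simpa [mul_assoc, mul_inv_rev] using this
  rcases hA _ hfin with e | e
  · exact h0 (pow_eq_zero_iff two_ne_zero |>.1 e)
  · exact h1 (((sq_eq_one_iff).1 e).elim id fun e' => e'.trans (CharTwo.neg_eq 1))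

include hV hR hMG hLM hA in
/-- The extreme entries over the field with two elements. -/
theorem g2_entry {g : GL chevG2.Idx k} (hg : g ∈ M) :
    col11 g ⟨0, by decide⟩ = 0 ∨ col11 g ⟨0, by decide⟩ = 1 := by
  by_contra hne
  push Not at hne
  have hN := nI_mem hS hR M hLM ⟨0, by decide⟩
  have hrow : ∀ (z z' : Fin chevG2.nroots), chevG2.reflectRoot 0 z' = z →
      col11 ((glSys hS).nI ⟨0, by decide⟩ * g) z = col11 g z' := fun z z' h =>
    nI_mul_row hS hR ⟨0, by decide⟩ g z z' h _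
  have hn0 := hrow ⟨0, by decide⟩ ⟨0, by decide⟩ (by decide +kernel)
  have hn1 := hrow ⟨1, by decide⟩ ⟨5, by decide⟩ (by decide +kernel)
  have hn3 := hrow ⟨3, by decide⟩ ⟨2, by decide⟩ (by decide +kernel)
  have r1 := (g2_long hV hS hR M hMG hLM hA hg hne.1 hne.2).2
  have r3 := g2_short hV hS hR M hMG hLM hA hg hne.1 hne.2
  have r5 := (g2_long hV hS hR M hMG hLM hA (mul_mem hN hg) (hn0 ▸ hne.1) (hn0 ▸ hne.2)).2
  have r2 := g2_short hV hS hR M hMG hLM hA (mul_mem hN hg) (hn0 ▸ hne.1) (hn0 ▸ hne.2)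
  rw [hn0, hn1] at r5
  rw [hn0, hn3] at r2
  have hx : ∀ z : Fin chevG2.nroots, ∀ c : chevG2.Idx, ((glSys hS).x 4 1 : GL chevG2.Idx k).val (Sum.inr z) c =
      (chevG2.x k 4 1) (Sum.inr z) c := fun z c => by rw [← glSys_mat hS, (glSys hS).mat_x (by decide)]
  have hf0 : col11 ((glSys hS).x 4 1 * g) ⟨0, by decide⟩ = col11 g ⟨0, by decide⟩ := by
    refine rowFix_mul (fun c => ?_) g _
    rw [hx]
    refine x_row (by decide) 1 _ (by decide) (fun _ => chainCoeff_eq_nil fun e he q hq hqz hes => ?_) c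
    have key : ∀ e ∈ (chevG2.chain.getD 4 #[]).toList, ∀ q ∈ e.2.toList, q.1 ≠ 0 := by decide +kernel
    exact key e he q hq hqz
  have hf1 : col11 ((glSys hS).x 4 1 * g) ⟨1, by decide⟩ = col11 g ⟨1, by decide⟩ + col11 g ⟨2, by decide⟩ +
      col11 g ⟨3, by decide⟩ + col11 g ⟨5, by decide⟩ := by
    have hinl : ∀ i : Fin chevG2.rank, chevG2.x k 4 1 (Sum.inr ⟨1, by decide⟩) (Sum.inl i) = 0 := fun i => by
      rw [ChevalleyDatum.x, dif_pos (show 4 < chevG2.nroots by decide)]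
      simp [ChevalleyDatum.xMat, Fin.ext_iff]
    have hinr : ∀ s : Fin chevG2.nroots, chevG2.x k 4 1 (Sum.inr ⟨1, by decide⟩) (Sum.inr s) =
        if (s : ℕ) = 1 ∨ (s : ℕ) = 2 ∨ (s : ℕ) = 3 ∨ (s : ℕ) = 5 then 1 else 0 := by
      have hneg : chevG2.negIdx.getD 4 0 = 7 := by decide +kernel
      have key : ∀ s < chevG2.nroots, chevG2.chainCoeff 4 s 1 =
          if s = 2 then [(1, -3)] else if s = 3 then [(2, -3)] else if s = 5 then [(3, -1)] else [] := by
        decide +kernel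
      intro s
      rw [ChevalleyDatum.x, dif_pos (show 4 < chevG2.nroots by decide)]
      have h3 : (3 : k) = 1 := by linear_combination (CharTwo.two_eq_zero : (2 : k) = 0)
      simp [ChevalleyDatum.xMat, Fin.ext_iff, -Array.getD_eq_getD_getElem?, hneg, key s s.2]
      split_ifs <;> simp_all [CharTwo.neg_eq]
    rw [col11, Units.val_mul, Matrix.mul_apply, Fintype.sum_sum_type]
    simp only [hx, hinl, hinr, zero_mul, Finset.sum_const_zero, zero_add, ite_mul, one_mul]
    rw [← Finset.sum_filter,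
      show (Finset.univ.filter fun s : Fin chevG2.nroots => (s : ℕ) = 1 ∨ (s : ℕ) = 2 ∨ (s : ℕ) = 3 ∨ (s : ℕ) = 5) =
        {⟨1, by decide⟩, ⟨2, by decide⟩, ⟨3, by decide⟩, ⟨5, by decide⟩} by
          ext s; simp [Fin.ext_iff]]
    rw [Finset.sum_insert (by decide), Finset.sum_insert (by decide), Finset.sum_insert (by decide),
      Finset.sum_singleton, col11, col11, col11, col11]
    simp only [add_assoc]
  have r4 := (g2_long hV hS hR M hMG hLM hA (mul_mem (hLM 4 (by decide)) hg) (hf0 ▸ hne.1) (hf0 ▸ hne.2)).2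
  rw [hf0, hf1, add_div, add_div, add_div] at r4
  unfold IsCubeRoot at r1 r2 r3 r4 r5
  rw [CharTwo.add_sq, CharTwo.add_sq, CharTwo.add_sq, r1, r2, r3, r5] at r4
  have h2 : (2 : k) = 0 := CharTwo.two_eq_zero
  exact one_ne_zero (α := k) (by linear_combination r4 - h2)

end G2

end Cfsg.Agent.Known.SubG
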