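import Cfsg.Agent.Known.SubG.Frame

/-!
Spanning by the translates of the extreme column, rationality from extreme entries, and root parameters.
-/

set_option autoImplicit false
set_option linter.unusedSectionVars false

namespace Cfsg.Agent.Known.SubG

open Cfsg.Lie Cfsg.Agent.ChevGrp
open scoped MatrixGroups

variable {D : ChevalleyDatum} {k : Type*} [Field k] {len : ℕ → ℕ} {T : Top D}
  (hS : Rules D k) (hR : RootTable D len) (hT : T.ok)

include hT in
theorem Top.chain_induction {P : Fin D.rank → Prop} (h0 : P ⟨T.i0, hT.1.2.2.2.1⟩)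
    (hstep : ∀ i j : Fin D.rank, D.cartan j (D.simple i) = -1 → P j → P i) : ∀ i, P i := by
  obtain ⟨-, -, hcov, hch⟩ := hT.2.2.2.2.2.2.2.2.2.2.2
  have key : ∀ n, ∀ (e : ℕ × ℕ), e ∈ T.chain.take n → ∀ h : e.1 < D.rank, P ⟨e.1, h⟩ := by
    intro n
    induction n with
    | zero => simp
    | succ n ih =>
      intro e he h
      rw [List.take_succ, List.mem_append] at he
      rcases he with he | he
      · exact ih e he h
      · have he' : e ∈ T.chain[n]? := by simpa using he
        have hn : n < T.chain.length := by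
          by_contra hc
          rw [List.getElem?_eq_none (by omega)] at he'
          simp at he'
        obtain ⟨_, h2, hc, hor⟩ := hch n hn e he'
        refine hstep ⟨e.1, h⟩ ⟨e.2, h2⟩ hc ?_
        rcases hor with hor | hor
        · convert h0
        · obtain ⟨e', he'', e2⟩ := List.mem_map.1 hor
          have := ih e' he'' (e2 ▸ h2)
          convert this using 1
          exact Fin.ext e2.symm
  intro i
  rcases hcov i i.2 with h | h
  · convert h0
  · obtain ⟨e, he, e2⟩ := List.mem_map.1 h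
    have := key T.chain.length e (by rw [List.take_length]; exact he) (e2 ▸ i.2)
    convert this using 1
    exact Fin.ext e2.symm

include hT in
theorem Top.exists_w0 : ∃ w : List (Fin D.rank), act D w T.th = D.simple T.i0 := by
  obtain ⟨hw, hlt, -, -⟩ := hT.2.2.2.2.2.2.2.2.2.2.2
  have key : ∀ l : List ℕ, (∀ i ∈ l, i < D.rank) → ∃ w : List (Fin D.rank),
      act D w T.th = l.foldr (fun i s => D.reflectRoot i s) T.th := by
    intro l
    induction l with
    | nil => exact fun _ => ⟨[], rfl⟩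
    | cons i l ih =>
      intro h
      obtain ⟨w, e⟩ := ih fun j hj => h j (List.mem_cons_of_mem _ hj)
      exact ⟨⟨i, h i List.mem_cons_self⟩ :: w, by rw [act_cons, e, List.foldr_cons]⟩
  exact hw ▸ key T.w0 hlt

/-- The basis vector. -/
def eb (i : D.Idx) : D.Idx → k := fun j => if j = i then 1 else 0

theorem mulVec_eb (A : Matrix D.Idx D.Idx k) (i : D.Idx) : Matrix.mulVec A (eb i) = fun j => A j i := by
  funext j
  simp [Matrix.mulVec, dotProduct, eb]

include hR in
theorem coroot_simple (i j : Fin D.rank) :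
    (D.coroot.getD (D.simple i) #[]).getD j.val 0 = if j = i then 1 else 0 := by
  have h := congrFun (hR.vec_simple i) j
  simp only [vec, Pi.single_apply] at h
  have hl := hR.len_pos (hR.simple_lt i i.2)
  split_ifs at h ⊢ with e
  · exact mul_left_cancel₀ (by exact_mod_cast hl.ne' : (len (D.simple i) : ℤ) ≠ 0) (h.trans (mul_one _).symm)
  · exact (mul_eq_zero.1 h).resolve_left (by exact_mod_cast hl.ne')

include hS hR hT in
/-- The translates of the extreme column span everything. -/
theorem span_translates (L : Subgroup (GL D.Idx k)) (hL : ∀ r < D.nroots, (glSys hS).x r 1 ∈ L) :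
    Submodule.span k {v : D.Idx → k | ∃ l ∈ L, v = fun i => (l : Matrix D.Idx D.Idx k) i (Sum.inr (T.tth hT))} = ⊤ := by
  set V := Submodule.span k {v : D.Idx → k | ∃ l ∈ L, v = fun i => (l : Matrix D.Idx D.Idx k) i (Sum.inr (T.tth hT))}
  have hinv : ∀ l ∈ L, ∀ v ∈ V, Matrix.mulVec (l : Matrix D.Idx D.Idx k) v ∈ V := by
    intro l hl v hv
    have hle : V ≤ V.comap (Matrix.mulVecLin (l : Matrix D.Idx D.Idx k)) := by
      rw [Submodule.span_le]
      rintro _ ⟨l', hl', rfl⟩
      refine Submodule.subset_span ⟨l * l', mul_mem hl hl', ?_⟩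
      funext i
      rw [Units.val_mul, Matrix.mul_apply]
      rfl
    exact hle hv
  have hnW : ∀ w, (glSys hS).nW w ∈ L := by
    intro w
    refine list_prod_mem fun z hz => ?_
    obtain ⟨i, -, rfl⟩ := List.mem_map.1 hz
    have hp := hR.simple_lt i i.2
    have hm : (glSys hS).x (D.neg (D.simple i)) (-1) ∈ L := by
      rw [← (glSys hS).x_inv (hR.neg_lt _ hp)]
      exact inv_mem (hL _ (hR.neg_lt _ hp))
    exact mul_mem (mul_mem (hL _ hp) (by rw [inv_one]; exact hm)) (hL _ hp)
  have hmove : ∀ (w : List (Fin D.rank)) (s : Fin D.nroots), eb (Sum.inr s) ∈ V →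
      eb (Sum.inr ⟨act D w s, hR.act_lt w s.2⟩) ∈ V := by
    intro w s hs
    obtain ⟨a, hlt, ha, -, hm, -⟩ := mon_nW hS hR w
    have h := hinv _ (hnW w) _ hs
    rw [mulVec_eb] at h
    have e : (fun j => ((glSys hS).nW w : Matrix D.Idx D.Idx k) j (Sum.inr s)) =
        a s • (eb (Sum.inr ⟨act D w s, hR.act_lt w s.2⟩) : D.Idx → k) := by
      funext j
      rw [hm]
      simp [eb]
    rw [e] at h
    have := V.smul_mem (a s)⁻¹ h
    rwa [smul_smul, inv_mul_cancel₀ (right_ne_zero_of_mul_eq_one (ha s s.2)), one_smul] at this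
  have h0 : eb (Sum.inr (T.tth hT)) ∈ V := Submodule.subset_span ⟨1, one_mem _, by
    funext i; simp [eb, Matrix.one_apply]⟩
  let e : Fin D.rank → D.Idx → k := fun i => eb (Sum.inr ⟨D.simple i, hR.simple_lt i i.2⟩)
  have hcor : ∀ i : Fin D.rank, e i ∈ V → eb (Sum.inl i) ∈ V := by
    intro i hi
    have hp := hR.simple_lt i i.2
    have hn : eb (Sum.inr ⟨D.neg (D.simple i), hR.neg_lt _ hp⟩) ∈ V := by
      have := hmove [i] ⟨_, hp⟩ hi
      simp only [act_singleton, hR.reflect_simple i.2] at this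
      exact this
    have h := hinv _ (hL _ hp) _ hn
    rw [mulVec_eb] at h
    have hne : D.negIdx.getD (D.simple i) 0 ≠ D.simple i := hR.neg_ne hp
    have e1 : (fun j => ((glSys hS).x (D.simple i) 1 : Matrix D.Idx D.Idx k) j
        (Sum.inr ⟨D.neg (D.simple i), hR.neg_lt _ hp⟩)) =
        eb (Sum.inl i) + eb (Sum.inr ⟨D.neg (D.simple i), hR.neg_lt _ hp⟩) - e i := by
      funext j
      rw [← glSys_mat hS, (glSys hS).mat_x hp, ChevalleyDatum.x, dif_pos hp]
      rcases j with j | u
      · have := coroot_simple hR i j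
        simp [ChevalleyDatum.xMat, ChevalleyDatum.neg, eb, e, Fin.ext_iff, -Array.getD_eq_getD_getElem?, hne, this]
      · simp [ChevalleyDatum.xMat, ChevalleyDatum.neg, eb, e, Fin.ext_iff, -Array.getD_eq_getD_getElem?, hne]
        by_cases h1 : (u : ℕ) = D.negIdx.getD (D.simple i) 0
        · simp [h1, hne, -Array.getD_eq_getD_getElem?]
        · simp [h1, -Array.getD_eq_getD_getElem?]
          split_ifs <;> simp
    rw [e1] at h
    convert V.add_mem (V.sub_mem h hn) hi using 1
    abel
  have hsimple : ∀ i, e i ∈ V := by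
    refine Top.chain_induction hT ?_ ?_
    · obtain ⟨w, hw⟩ := Top.exists_w0 hT
      have := hmove w (T.tth hT) h0
      convert this using 3
      exact Fin.ext hw.symm
    · intro i j hij hj
      have hp := hR.simple_lt i i.2
      have h := hinv _ (hL _ hp) _ (hcor j hj)
      rw [mulVec_eb] at h
      have e1 : (fun z => ((glSys hS).x (D.simple i) 1 : Matrix D.Idx D.Idx k) z (Sum.inl j)) =
          eb (Sum.inl j) + e i := by
        have hc : (D.cartanSR.getD j.val #[]).getD (D.simple i) 0 = -1 := hij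
        funext z
        rw [← glSys_mat hS, (glSys hS).mat_x hp, ChevalleyDatum.x, dif_pos hp]
        rcases z with z | u
        · simp [ChevalleyDatum.xMat, eb, e]
        · simp [ChevalleyDatum.xMat, eb, e, Fin.ext_iff, -Array.getD_eq_getD_getElem?, hc]
      rw [e1] at h
      simpa using V.sub_mem h (hcor j hj)
  rw [eq_top_iff]
  rintro v -
  have hv : v = ∑ i, v i • (eb i : D.Idx → k) := by
    funext j
    simp [eb]
  rw [hv]
  refine Submodule.sum_mem _ fun i _ => V.smul_mem _ ?_
  rcases i with i | s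
  · exact hcor i (hsimple i)
  · obtain ⟨w, i, hw⟩ := hR.exists_act_simple s.2
    have := hmove w _ (hsimple i)
    convert this using 3
    exact Fin.ext hw.symm

include hS hR hT in
/-- An element all of whose translates have extreme entry fixed by `σ` is fixed by `σ`. -/
theorem fixed_of_entries (σ : k →+* k) (M : Subgroup (GL D.Idx k)) (hMG : M ≤ D.group k)
    (hLM : ∀ r < D.nroots, (glSys hS).x r 1 ∈ M)
    (hσ : ∀ g ∈ M, σ ((g : Matrix D.Idx D.Idx k) (Sum.inr (T.nth hT hR)) (Sum.inr (T.tth hT))) =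
      (g : Matrix D.Idx D.Idx k) (Sum.inr (T.nth hT hR)) (Sum.inr (T.tth hT)))
    {g : GL D.Idx k} (hg : g ∈ M) : Matrix.GeneralLinearGroup.map σ g = g := by
  set φ := Matrix.GeneralLinearGroup.map (n := D.Idx) σ
  let L : Subgroup (GL D.Idx k) := M ⊓ MonoidHom.eqLocus φ (MonoidHom.id _)
  have hL : ∀ r < D.nroots, (glSys hS).x r 1 ∈ L := fun r hr => ⟨hLM r hr, by
    refine Units.ext ?_
    show ((xGL D k r 1 : GL D.Idx k) : Matrix D.Idx D.Idx k).map σ = (xGL D k r 1 : Matrix D.Idx D.Idx k)
    rw [val_xGL hS, x_map, map_one]⟩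
  set zr : D.Idx := Sum.inr (T.nth hT hR)
  set zc : D.Idx := Sum.inr (T.tth hT)
  have hspan := span_translates hS hR hT L hL
  -- the extreme rows agree
  have hrow : ∀ l ∈ L, ∀ c, ((l * φ g : GL D.Idx k) : Matrix D.Idx D.Idx k) zr c =
      ((l * g : GL D.Idx k) : Matrix D.Idx D.Idx k) zr c := by
    intro l hl
    have hfix : φ l = l := hl.2
    have key : ∀ v : D.Idx → k, (Matrix.mulVec ((l * φ g : GL D.Idx k) : Matrix D.Idx D.Idx k) v) zr =
        (Matrix.mulVec ((l * g : GL D.Idx k) : Matrix D.Idx D.Idx k) v) zr := by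
      intro v
      have hv : v ∈ (⊤ : Submodule k (D.Idx → k)) := trivial
      rw [← hspan] at hv
      induction hv using Submodule.span_induction with
      | mem v hv =>
        obtain ⟨l', hl', rfl⟩ := hv
        have hfix' : φ l' = l' := hl'.2
        show (Matrix.mulVec _ (fun i => (l' : Matrix D.Idx D.Idx k) i zc)) zr = (Matrix.mulVec _ (fun i => (l' : Matrix D.Idx D.Idx k) i zc)) zr
        have e : ∀ A : GL D.Idx k, (Matrix.mulVec (A : Matrix D.Idx D.Idx k) (fun i => (l' : Matrix D.Idx D.Idx k) i zc)) zr =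
            ((A * l' : GL D.Idx k) : Matrix D.Idx D.Idx k) zr zc := fun A => by
          rw [Units.val_mul, Matrix.mul_apply]; rfl
        rw [e, e]
        have h1 : φ (l * g * l') = l * φ g * l' := by rw [map_mul, map_mul, hfix, hfix']
        rw [← h1]
        exact hσ _ (mul_mem (mul_mem hl.1 hg) hl'.1)
      | zero => simp
      | add x y _ _ hx hy =>
        rw [Matrix.mulVec_add, Matrix.mulVec_add, Pi.add_apply, Pi.add_apply, hx, hy]
      | smul a x _ hx =>
        rw [Matrix.mulVec_smul, Matrix.mulVec_smul, Pi.smul_apply, Pi.smul_apply, hx]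
    intro c
    have := key (eb c)
    simpa [mulVec_eb] using this
  set z := φ g * g⁻¹
  have hzG : ∀ l ∈ L, l * z * l⁻¹ ∈ D.group k := fun l hl => by
    have hgσ : φ g ∈ D.group k := map_group_le D σ ⟨g, hMG hg, rfl⟩
    exact mul_mem (mul_mem (hMG hl.1) (mul_mem hgσ (inv_mem (hMG hg)))) (inv_mem (hMG hl.1))
  have hzrow : ∀ l ∈ L, l * z * l⁻¹ ∈ rowFix zr := by
    intro l hl c
    have h1 : ∀ j, ((l * φ g : GL D.Idx k) : Matrix D.Idx D.Idx k) zr j = ((l * g : GL D.Idx k) : Matrix D.Idx D.Idx k) zr j := hrow l hl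
    have h2 : ((l * z * l⁻¹ : GL D.Idx k) : Matrix D.Idx D.Idx k) zr c =
        ((l * g * (g⁻¹ * l⁻¹) : GL D.Idx k) : Matrix D.Idx D.Idx k) zr c := by
      have e : l * z * l⁻¹ = l * φ g * (g⁻¹ * l⁻¹) := by simp only [z]; group
      rw [e, Units.val_mul, Units.val_mul (l * g), Matrix.mul_apply, Matrix.mul_apply]
      exact Finset.sum_congr rfl fun j _ => by rw [h1 j]
    rw [h2, show l * g * (g⁻¹ * l⁻¹) = 1 by group, Units.val_one]
  have hz : ∀ v : D.Idx → k, Matrix.mulVec (z : Matrix D.Idx D.Idx k) v = v := by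
    intro v
    have hv : v ∈ (⊤ : Submodule k (D.Idx → k)) := trivial
    rw [← hspan] at hv
    induction hv using Submodule.span_induction with
    | mem v hv =>
      obtain ⟨l, hl, rfl⟩ := hv
      have hc := Top.col_of_row hS hT hR (hzG _ (inv_mem hl)) (hzrow _ (inv_mem hl))
      funext i
      have e : z * l = l * (l⁻¹ * z * l⁻¹⁻¹) := by group
      have e2 : Matrix.mulVec (z : Matrix D.Idx D.Idx k) (fun i => (l : Matrix D.Idx D.Idx k) i zc) i =
          ((z * l : GL D.Idx k) : Matrix D.Idx D.Idx k) i zc := rfl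
      show Matrix.mulVec (z : Matrix D.Idx D.Idx k) (fun i => (l : Matrix D.Idx D.Idx k) i zc) i = _
      rw [e2, e, mul_colFix _ hc]
    | zero => simp
    | add x y _ _ hx hy => rw [Matrix.mulVec_add, hx, hy]
    | smul a x _ hx => rw [Matrix.mulVec_smul, hx]
  have hz1 : z = 1 := Units.ext (Matrix.ext fun i j => by
    have h := congrFun (hz (eb j)) i
    rw [mulVec_eb] at h
    exact h.trans (by rw [Units.val_one, Matrix.one_apply]; rfl))
  exact mul_inv_eq_one.1 hz1

/-! ### Root parameters -/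

include hS hR in
theorem conj_sign (w : List (Fin D.rank)) : ∃ a : ℕ → ℤ, (∀ s < D.nroots, a s = 1 ∨ a s = -1) ∧
    ∀ s < D.nroots, ∀ t : k, (glSys hS).nW w * (glSys hS).x s t * ((glSys hS).nW w)⁻¹ =
      (glSys hS).x (act D w s) ((a s : k) * t) := by
  induction w with
  | nil => exact ⟨fun _ => 1, by simp, by simp [act_nil, Sys.nW_nil]⟩
  | cons i w ih =>
    obtain ⟨a, ha, hc⟩ := ih
    refine ⟨fun s => hS.eta i (act D w s) * a s, fun s hs => ?_, fun s hs t => ?_⟩
    · rcases hS.eta_sq i (hR.act_lt w hs) with e | e <;> rcases ha s hs with e' | e' <;> simp [e, e']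
    · have h := (glSys hS).conj_all hS hR i ((glSys hS).nEl_mem_rankOne i 1) (Or.inr rfl) _
        (fun s hs t => (glSys hS).θ_nI_conj hS hR i hs t) (act D w s) (hR.act_lt w hs) ((a s : k) * t)
      rw [Sys.nW_cons, mul_inv_rev, Int.cast_mul, mul_assoc (hS.eta i (act D w s) : k), act_cons, ← act_singleton,
        ← h, ← hc s hs]
      simp only [Sys.nI, mul_assoc]

include hS hR hT in
/-- Parameters in a subfield for the highest root give all parameters in it. -/
theorem full_params (A : Subfield k) (M : Subgroup (GL D.Idx k))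
    (hLM : ∀ r < D.nroots, (glSys hS).x r 1 ∈ M) (hA : ∀ t ∈ A, (glSys hS).x T.th t ∈ M) :
    ∀ r < D.nroots, ∀ t ∈ A, (glSys hS).x r t ∈ M := by
  set S := glSys hS
  have hnW : ∀ w, S.nW w ∈ M := by
    intro w
    refine list_prod_mem fun z hz => ?_
    obtain ⟨i, -, rfl⟩ := List.mem_map.1 hz
    have hp := hR.simple_lt i i.2
    have hm : S.x (D.neg (D.simple i)) (-1) ∈ M := by
      rw [← S.x_inv (hR.neg_lt _ hp)]
      exact inv_mem (hLM _ (hR.neg_lt _ hp))
    exact mul_mem (mul_mem (hLM _ hp) (by rw [inv_one]; exact hm)) (hLM _ hp)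
  have hmove : ∀ (w : List (Fin D.rank)) (s : ℕ), s < D.nroots → (∀ t ∈ A, S.x s t ∈ M) →
      ∀ t ∈ A, S.x (act D w s) t ∈ M := by
    intro w s hs h t ht
    obtain ⟨a, ha, hc⟩ := conj_sign hS hR w
    have e : (a s : k) * ((a s : k) * t) = t := by
      rcases ha s hs with e | e <;> simp [e]
    have h2 := hc s hs ((a s : k) * t)
    rw [e] at h2
    exact h2 ▸ mul_mem (mul_mem (hnW w) (h _ (A.mul_mem (intCast_mem A _) ht))) (inv_mem (hnW w))
  have hsimple : ∀ i : Fin D.rank, ∀ t ∈ A, S.x (D.simple i) t ∈ M := by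
    refine Top.chain_induction hT ?_ ?_
    · obtain ⟨w, hw⟩ := Top.exists_w0 hT
      intro t ht
      show S.x (D.simple T.i0) t ∈ M
      rw [← hw]
      exact hmove w _ hT.1.1 hA t ht
    · intro i j hij hj t ht
      by_cases h0 : t = 0
      · rw [h0, S.x_zero (hR.simple_lt i i.2)]; exact one_mem _
      have hp := hR.simple_lt j j.2
      have hn : ∀ u ∈ A, S.x (D.neg (D.simple j)) u ∈ M := by
        intro u hu
        rw [← hR.reflect_simple j.2, ← act_singleton]
        exact hmove [j] _ hp hj u hu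
      have hnel : ∀ u ∈ A, S.nEl (D.simple j) u ∈ M := fun u hu =>
        mul_mem (mul_mem (hj u hu) (hn _ (A.neg_mem (A.inv_mem hu)))) (hj u hu)
      have hh : S.hEl (D.simple j) t⁻¹ ∈ M :=
        mul_mem (hnel _ (A.inv_mem ht)) (hnel _ (A.neg_mem A.one_mem))
      have e := S.conjP_hI hS hR j (inv_ne_zero h0) (D.simple i) (hR.simple_lt i i.2) 1
      rw [hij, zpow_neg_one, inv_inv, mul_one] at e
      rw [← e]
      exact mul_mem (mul_mem hh (hLM _ (hR.simple_lt i i.2))) (inv_mem hh)
  intro r hr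
  obtain ⟨w, i, rfl⟩ := hR.exists_act_simple hr
  exact hmove w _ (hR.simple_lt i i.2) (hsimple i)

/-- A finite subset closed under sums and products and containing `1` is a subfield. -/
theorem exists_subfield {A : Set k} (hfin : A.Finite) (h1 : (1 : k) ∈ A)
    (hsub : ∀ s ∈ A, ∀ t ∈ A, s - t ∈ A) (hmul : ∀ s ∈ A, ∀ t ∈ A, s * t ∈ A) :
    ∃ K : Subfield k, (K : Set k) = A := by
  classical
  have h0 : (0 : k) ∈ A := sub_self (1 : k) ▸ hsub 1 h1 1 h1
  have hneg : ∀ s ∈ A, -s ∈ A := fun s hs => zero_sub s ▸ hsub 0 h0 s hs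
  refine ⟨{ carrier := A, mul_mem' := fun {a b} ha hb => hmul a ha b hb, one_mem' := h1,
            add_mem' := fun {a b} ha hb => sub_neg_eq_add a b ▸ hsub a ha (-b) (hneg b hb),
            zero_mem' := h0, neg_mem' := fun {a} ha => hneg a ha, inv_mem' := fun a ha => ?_ }, rfl⟩
  by_cases e : a = 0
  · subst e; rw [inv_zero]; exact h0
  · have himg : (fun t => a * t) '' A = A := by
      refine Set.eq_of_subset_of_ncard_le ?_ ?_ hfin
      · rintro _ ⟨t, ht, rfl⟩; exact hmul a ha t ht
      · rw [Set.ncard_image_of_injective _ (mul_right_injective₀ e)]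
    obtain ⟨t, ht, h⟩ : (1 : k) ∈ (fun t => a * t) '' A := himg.symm ▸ h1
    rwa [show a⁻¹ = t from inv_eq_of_mul_eq_one_right h]

end Cfsg.Agent.Known.SubG
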