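import Cfsg.Agent.Known.SubG.Odd
import Cfsg.Agent.Known.SubG.G2two
import Mathlib.FieldTheory.Finite.Basic

/-!
Finite subgroups containing the Chevalley group over a finite field lie between two groups over one larger
finite field.
-/

set_option autoImplicit false
set_option linter.unusedSectionVars false

namespace Cfsg.Agent.Known.SubG

open Cfsg.Lie Cfsg.Agent.ChevGrp

variable {D : ChevalleyDatum} {k : Type*} [Field k] {len : ℕ → ℕ} {T : Top D} {Cc : Chev.Cert}

/-- At most `n` roots of `X ^ n = X`. -/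
theorem finite_fix_pow {n : ℕ} (hn : 1 < n) :
    {t : k | t ^ n = t}.Finite ∧ Set.ncard {t : k | t ^ n = t} ≤ n := by
  classical
  set f : Polynomial k := Polynomial.X ^ n - Polynomial.X
  have hd : f.natDegree = n := FiniteField.X_pow_card_sub_X_natDegree_eq k hn
  have h0 : f ≠ 0 := FiniteField.X_pow_card_sub_X_ne_zero k hn
  have hsub : {t : k | t ^ n = t} ⊆ (f.roots.toFinset : Set k) := fun t ht => by
    simp only [Finset.mem_coe, Multiset.mem_toFinset, Polynomial.mem_roots h0, Polynomial.IsRoot.def, f,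
      Polynomial.eval_sub, Polynomial.eval_pow, Polynomial.eval_X]
    exact sub_eq_zero.2 ht
  refine ⟨(Finset.finite_toSet _).subset hsub, (Set.ncard_le_ncard hsub (Finset.finite_toSet _)).trans ?_⟩
  rw [Set.ncard_coe_finset]
  exact (Multiset.toFinset_card_le _).trans ((Polynomial.card_roots' f).trans hd.le)

/-- A finite subfield is the set of fixed points of its cardinality's power. -/
theorem subfield_eq_fix (K : Subfield k) [Finite K] (t : k) : t ∈ K ↔ t ^ Nat.card K = t := by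
  classical
  have := Fintype.ofFinite K
  have hsub : ∀ s ∈ K, s ^ Nat.card K = s := fun s hs => by
    rw [Nat.card_eq_fintype_card]
    exact congrArg Subtype.val (FiniteField.pow_card (⟨s, hs⟩ : K))
  refine ⟨hsub t, fun ht => ?_⟩
  obtain ⟨hfin, hle⟩ := finite_fix_pow (k := k) (Finite.one_lt_card (α := K))
  have he : (K : Set k) = {t : k | t ^ Nat.card K = t} := by
    refine Set.eq_of_subset_of_ncard_le (fun s hs => hsub s hs) (hle.trans_eq ?_) hfin
    rw [← Nat.card_coe_set_eq]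
    rfl
  exact (he.symm ▸ ht : t ∈ (K : Set k))

variable (hV : Cc.Valid D) (hS : Rules D k) (hR : RootTable D len) (hT : T.ok)

include hV hR hT in
/-- The general statement, given the facts over the field with two elements. -/
theorem overgroups_core (p : ℕ) [Fact p.Prime] [CharP k p] {a : ℕ} (ha : 1 ≤ a)
    (hq : Nat.card {t : k // t ^ p ^ a = t} = p ^ a) (M : Subgroup (GL D.Idx k)) [Finite M]
    (hMG : M ≤ D.group k) (hLM : ∀ s < D.nroots, ∀ t : k, t ^ p ^ a = t → (glSys hS).x s t ∈ M)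
    (hsmall : p = 2 → (∀ t, (glSys hS).x T.th t ∈ M → t = 0 ∨ t = 1) → ∀ g ∈ M,
      (g : Matrix D.Idx D.Idx k) (Sum.inr (T.nth hT hR)) (Sum.inr (T.tth hT)) = 0 ∨
      (g : Matrix D.Idx D.Idx k) (Sum.inr (T.nth hT hR)) (Sum.inr (T.tth hT)) = 1) :
    ∃ r : ℕ, 1 ≤ r ∧ (∀ s < D.nroots, ∀ t : k, t ^ (p ^ a) ^ r = t → (glSys hS).x s t ∈ M) ∧
      ∀ g ∈ M, ∀ i j : D.Idx,
        ((g : Matrix D.Idx D.Idx k) i j) ^ (p ^ a) ^ r = (g : Matrix D.Idx D.Idx k) i j := by
  classical
  have hp : p.Prime := Fact.out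
  have hth : T.th < D.nroots := Top.th_lt hT
  have hone : ∀ s < D.nroots, (glSys hS).x s 1 ∈ M := fun s hs => hLM s hs 1 (one_pow _)
  set A : Set k := {t | (glSys hS).x T.th t ∈ M}
  have h1A : (1 : k) ∈ A := hone _ hth
  have hAfin : A.Finite := param_finite hV hS M hth
  have hsub : ∀ s ∈ A, ∀ t ∈ A, s - t ∈ A := fun s hs t ht => by
    show (glSys hS).x T.th (s - t) ∈ M
    rw [sub_eq_add_neg, ← (glSys hS).x_add _ hth, ← (glSys hS).x_inv hth]
    exact mul_mem hs (inv_mem ht)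
  -- products and entries
  have main : (∀ s ∈ A, ∀ t ∈ A, s * t ∈ A) ∧ ∀ g ∈ M, ∀ c : k,
      (g : Matrix D.Idx D.Idx k) (Sum.inr (T.nth hT hR)) (Sum.inr (T.tth hT)) = c → c ∈ A := by
    have h0A : (0 : k) ∈ A := sub_self (1 : k) ▸ hsub 1 h1A 1 h1A
    have hcell : ∀ g ∈ M, ∀ c : k, c ≠ 0 →
        (g : Matrix D.Idx D.Idx k) (Sum.inr (T.nth hT hR)) (Sum.inr (T.tth hT)) = c →
        ∃ u ∈ (glSys hS).Ubar, u * (glSys hS).x (D.neg T.th) c * u⁻¹ ∈ M := by
      intro g hg c hc0 hc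
      obtain ⟨u, hu, hy, -⟩ := Top.cell hS hT hR (hMG hg) hc hc0
      exact ⟨u, hu, hy ▸ mul_mem (mul_mem hg (hone _ hth)) (inv_mem hg)⟩
    by_cases hp2 : p = 2
    · subst hp2
      by_cases h4 : 4 ≤ A.ncard
      · refine ⟨fun s hs t ht => ?_, fun g hg c hc => ?_⟩
        · exact (two_big hV hS hR hT M hone h4 (one_mem _) one_ne_zero
            (by simpa using hone _ (hR.neg_lt _ hth))).1 s t hs ht
        · by_cases hc0 : c = 0
          · exact hc0 ▸ h0A
          · obtain ⟨u, hu, hy⟩ := hcell g hg c hc0 hc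
            exact (two_big hV hS hR hT M hone h4 hu hc0 hy).2
      · have h01 : ∀ t, (glSys hS).x T.th t ∈ M → t = 0 ∨ t = 1 := fun t ht =>
          two_small hV hS M hth (hone _ hth) h4 ht
        refine ⟨fun s hs t ht => ?_, fun g hg c hc => ?_⟩
        · rcases h01 s hs with rfl | rfl
          · rw [zero_mul]; exact h0A
          · rw [one_mul]; exact ht
        · rcases hsmall rfl h01 g hg with h | h
          · rw [← hc, h]; exact h0A
          · rw [← hc, h]; exact h1A
    · refine ⟨fun s hs t ht => odd_mul hV hS hR hT hp2 M hone hs ht, fun g hg c hc => ?_⟩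
      by_cases hc0 : c = 0
      · exact hc0 ▸ h0A
      · obtain ⟨u, hu, hy⟩ := hcell g hg c hc0 hc
        exact odd_entry hV hS hR hT hp2 M hone hu hc0 hy
  obtain ⟨hmul, hentry⟩ := main
  obtain ⟨K, hK⟩ := exists_subfield hAfin h1A hsub hmul
  have hmemK : ∀ t, t ∈ K ↔ (glSys hS).x T.th t ∈ M := fun t =>
    ⟨fun h => (hK ▸ h : t ∈ A), fun h => (hK.symm ▸ h : t ∈ (K : Set k))⟩
  haveI : Finite K := (hK.symm ▸ hAfin : (K : Set k).Finite).to_subtype
  -- the small field
  have hqpos : 0 < p ^ a := pow_pos hp.pos a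
  set F : Set k := {t | t ^ p ^ a = t}
  have hFfin : F.Finite := by
    rw [← Set.finite_coe_iff]
    exact Nat.finite_of_card_ne_zero (hq.trans_ne hqpos.ne')
  obtain ⟨F', hF'⟩ := exists_subfield hFfin (one_pow _)
    (fun s hs t ht => show (s - t) ^ p ^ a = s - t by rw [sub_pow_char_pow, hs, ht])
    (fun s hs t ht => show (s * t) ^ p ^ a = s * t by rw [mul_pow, hs, ht])
  have hle : F' ≤ K := fun t ht => (hmemK t).2 (hLM _ hth t (hF' ▸ ht : t ∈ F))
  obtain ⟨r, hr, hcard⟩ : ∃ r, 1 ≤ r ∧ Nat.card K = (p ^ a) ^ r := by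
    letI := (Subfield.inclusion hle).toAlgebra
    refine ⟨Module.finrank F' K, Module.finrank_pos, ?_⟩
    rw [Module.natCard_eq_pow_finrank (K := F')]
    congr 1
    rw [← hq]
    exact Nat.card_congr (Equiv.setCongr hF')
  refine ⟨r, hr, fun s hs t ht => ?_, fun g hg i j => ?_⟩
  · exact full_params hS hR hT K M hone (fun t ht => (hmemK t).1 ht) s hs t
      ((subfield_eq_fix K t).2 (by rw [hcard]; exact ht))
  · have h := fixed_of_entries hS hR hT (iterateFrobenius k p (a * r)) M hMG hone (fun g' hg' => by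
      rw [iterateFrobenius_def, pow_mul, ← hcard]
      exact (subfield_eq_fix K _).1 ((hmemK _).2 (hentry g' hg' _ rfl))) hg
    have := congrArg (fun A : GL D.Idx k => (A : Matrix D.Idx D.Idx k) i j) h
    simpa [iterateFrobenius_def, pow_mul] using this

/-- Overgroups of a subfield subgroup, for the seven types. -/
theorem overgroups (p : ℕ) [Fact p.Prime] [CharP k p] (D : ChevalleyDatum)
    (hD : D ∈ [chevG2, chevB2, chevD4, chevF4, chevE6, chevE7, chevE8]) {a : ℕ} (ha : 1 ≤ a)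
    (hq : Nat.card {t : k // t ^ p ^ a = t} = p ^ a) (M : Subgroup (GL D.Idx k)) [Finite M]
    (hMG : M ≤ D.group k) (hLM : ∀ s < D.nroots, ∀ t : k, t ^ p ^ a = t → xGL D k s t ∈ M) :
    ∃ r : ℕ, 1 ≤ r ∧ (∀ s < D.nroots, ∀ t : k, t ^ (p ^ a) ^ r = t → xGL D k s t ∈ M) ∧
      ∀ g ∈ M, ∀ i j : D.Idx,
        ((g : Matrix D.Idx D.Idx k) i j) ^ (p ^ a) ^ r = (g : Matrix D.Idx D.Idx k) i j := by
  obtain ⟨Cc, hV⟩ := Chev.exists_valid hD
  have hS := Chev.rules_of_mem k hD
  obtain ⟨len, hR⟩ := hS.root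
  have hone : ∀ s < D.nroots, (glSys hS).x s 1 ∈ M := fun s hs => hLM s hs 1 (one_pow _)
  have lb : ∀ (T : Top D) (hT : T.ok), T.long → ∀ {jb r2 : ℕ}, T.beta jb r2 →
      ∃ r : ℕ, 1 ≤ r ∧ (∀ s < D.nroots, ∀ t : k, t ^ (p ^ a) ^ r = t → xGL D k s t ∈ M) ∧
        ∀ g ∈ M, ∀ i j : D.Idx,
          ((g : Matrix D.Idx D.Idx k) i j) ^ (p ^ a) ^ r = (g : Matrix D.Idx D.Idx k) i j := by
    intro T hT hL jb r2 hb
    refine overgroups_core hV hS hR hT p ha hq M hMG hLM fun hp2 hA g hg => ?_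
    subst hp2
    exact long_beta hV hS hR hT hL hb M hMG hone hA hg
  simp only [List.mem_cons, List.not_mem_nil, or_false] at hD
  rcases hD with rfl | rfl | rfl | rfl | rfl | rfl | rfl
  · refine overgroups_core hV hS hR okG2 p ha hq M hMG hLM fun hp2 hA g hg => ?_
    subst hp2
    rw [nth_G2, tth_G2]
    exact g2_entry hV hS hR M hMG hone hA hg
  · refine overgroups_core hV hS hR okB2 p ha hq M hMG hLM fun hp2 hA g hg => ?_
    subst hp2
    exact b2_entry hS hR M hone hA hMG hg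
  · exact lb _ okD4 longD4 betaD4
  · exact lb _ okF4 longF4 betaF4
  · exact lb _ okE6 longE6 betaE6
  · exact lb _ okE7 longE7 betaE7
  · exact lb _ okE8 longE8 betaE8

end Cfsg.Agent.Known.SubG
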