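import Cfsg.Agent.Known.SubG.Rank
import Cfsg.Agent.Stability.SL2Lite

/-!
Odd characteristic: the parameters of the highest root form a field containing all extreme entries.
-/

set_option autoImplicit false
set_option linter.unusedSectionVars false

namespace Cfsg.Agent.Known.SubG

open Cfsg.Lie Cfsg.Agent.ChevGrp
open scoped MatrixGroups

variable {D : ChevalleyDatum} {k : Type*} [Field k] {len : ℕ → ℕ} {T : Top D} {Cc : Chev.Cert}

/-- Cancelling an integer multiplier in a group of parameters. -/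
theorem mem_of_int_mul {p : ℕ} [Fact p.Prime] [CharP k p] {A : AddSubgroup k} {n : ℤ} (hn : (n : k) ≠ 0)
    {x : k} (hx : (n : k) * x ∈ A) : x ∈ A := by
  have hcop : IsCoprime (p : ℤ) n := by
    rw [(Nat.prime_iff_prime_int.1 Fact.out).coprime_iff_not_dvd]
    exact fun h => hn ((CharP.intCast_eq_zero_iff k p n).2 h)
  obtain ⟨a, b, hab⟩ := hcop
  have e : x = b • ((n : k) * x) := by
    have : ((a : k) * (p : k) + (b : k) * (n : k)) = 1 := by exact_mod_cast congrArg (Int.cast (R := k)) hab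
    rw [CharP.cast_eq_zero, mul_zero, zero_add] at this
    rw [zsmul_eq_mul, ← mul_assoc, this, one_mul]
  rw [e]
  exact A.zsmul_mem hx b

theorem upT_pow (t : k) (n : ℕ) : upT t ^ n = upT ((n : k) * t) := by
  induction n with
  | zero => rw [pow_zero, Nat.cast_zero, zero_mul, upT_zero]
  | succ n ih => rw [pow_succ, ih, upT_mul]; push_cast; ring_nf

theorem loT_mul (s t : k) : loT s * loT t = loT (s + t) := by
  apply Subtype.ext
  show (!![1, 0; s, 1] : Matrix (Fin 2) (Fin 2) k) * !![1, 0; t, 1] = !![1, 0; s + t, 1]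
  simp [Matrix.mul_fin_two]

theorem loT_pow (t : k) (n : ℕ) : loT t ^ n = loT ((n : k) * t) := by
  induction n with
  | zero =>
    rw [pow_zero, Nat.cast_zero, zero_mul]
    apply Subtype.ext; ext i j
    fin_cases i <;> fin_cases j <;> simp [loT]
  | succ n ih => rw [pow_succ, ih, loT_mul]; push_cast; ring_nf

theorem wey_upT (s : k) : wey * upT s * wey⁻¹ = loT (-s) := by
  apply Subtype.ext
  simp only [Matrix.SpecialLinearGroup.coe_mul, Matrix.SpecialLinearGroup.coe_inv, Matrix.adjugate_fin_two,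
    upT_val, loT_val, wey_val]
  ext i j
  fin_cases i <;> fin_cases j <;> simp [Matrix.mul_apply, Fin.sum_univ_two]

theorem wey_eq : (wey : Matrix.SpecialLinearGroup (Fin 2) k) = upT 1 * loT (-1) * upT 1 := by
  apply Subtype.ext
  simp only [Matrix.SpecialLinearGroup.coe_mul, upT_val, loT_val, wey_val]
  ext i j
  fin_cases i <;> fin_cases j <;> simp [Matrix.mul_apply, Fin.sum_univ_two]

variable (hV : Cc.Valid D) (hS : Rules D k) (hR : RootTable D len) (hT : T.ok)

include hR hS in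
/-- Two opposite non-trivial transvections give the central involution. -/
theorem negOne_mem {p : ℕ} [Fact p.Prime] [CharP k p] (hp : p ≠ 2) (M : Subgroup (GL D.Idx k)) [Finite M]
    {c : k} (hc : c ≠ 0) (h1 : (glSys hS).x T.th 1 ∈ M) (hy : (glSys hS).x (D.neg T.th) c ∈ M) :
    hom2 hV (Top.th_lt hT) (-1) ∈ M := by
  have := finite_comap hV hS hR hT M
  have h2 : (2 : k) ≠ 0 := by
    intro h
    have := (CharP.cast_eq_zero_iff k p 2).1 (by exact_mod_cast h)
    exact hp ((Nat.prime_dvd_prime_iff_eq Fact.out Nat.prime_two).1 this)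
  obtain ⟨φ, hφ, hle⟩ := Stability.SL2.hasSL2_of_not_commute (p := p) hp (M.comap (hom2 hV (Top.th_lt hT)))
    (x := upT 1) (y := loT c) (by rw [Subgroup.mem_comap, hom2_upT hV hS]; exact h1)
    (by rw [Subgroup.mem_comap, hom2_loT hV hS]; exact hy)
    (by rw [upT_pow, CharP.cast_eq_zero, zero_mul, upT_zero])
    (by
      rw [loT_pow, CharP.cast_eq_zero, zero_mul]
      apply Subtype.ext; ext i j; fin_cases i <;> fin_cases j <;> simp [loT])
    (fun e => hc (by
      have := congrArg (fun g : Matrix.SpecialLinearGroup (Fin 2) k => g.1 0 0) e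
      simp [Matrix.mul_apply, Fin.sum_univ_two, upT_val, loT_val] at this
      exact this))
  set g := φ (-1) with hg
  have hsq : g * g = 1 := by rw [hg, ← map_mul, neg_mul_neg, one_mul, map_one]
  have hne : g ≠ 1 := fun e => by
    have h := hφ (e.trans (map_one φ).symm)
    have h' := congrArg (fun m : Matrix.SpecialLinearGroup (Fin 2) (ZMod p) => m.1 0 0) h
    simp at h'
    have h3 : ((2 : ℕ) : ZMod p) = 0 := by push_cast; linear_combination -h'
    exact hp ((Nat.prime_dvd_prime_iff_eq Fact.out Nat.prime_two).1 ((CharP.cast_eq_zero_iff (ZMod p) p 2).1 h3))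
  have hinv : g = g⁻¹ := eq_inv_of_mul_eq_one_left hsq
  have e := congrArg Subtype.val hinv
  rw [Matrix.SpecialLinearGroup.coe_inv, Matrix.adjugate_fin_two] at e
  have e01 : g.1 0 1 = 0 := by
    have := congrFun (congrFun e 0) 1
    simp at this
    exact (mul_eq_zero.1 (show (2 : k) * g.1 0 1 = 0 by linear_combination this)).resolve_left h2
  have e10 : g.1 1 0 = 0 := by
    have := congrFun (congrFun e 1) 0
    simp at this
    exact (mul_eq_zero.1 (show (2 : k) * g.1 1 0 = 0 by linear_combination this)).resolve_left h2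
  have e00 : g.1 0 0 ^ 2 = 1 := by
    have := congrFun (congrFun (congrArg Subtype.val hsq) 0) 0
    simp [Matrix.mul_apply, Fin.sum_univ_two, e01] at this
    rw [sq]; exact this
  rcases sl_eq_scalar e10 e01 e00 with h | h
  · exact absurd h hne
  · have hm : g ∈ M.comap (hom2 hV (Top.th_lt hT)) := hle ⟨-1, rfl⟩
    rwa [h] at hm

/-- Removing the part fixed by `h`. -/
theorem split_mem {G : Type*} [Group G] {M : Subgroup G} {h X R X2 : G} (hh : h ∈ M) (hm : X * R ∈ M)
    (hX : h * X * h⁻¹ = X⁻¹) (hR : h * R * h⁻¹ = R) (h2 : X * X = X2) : X2 ∈ M := by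
  have : X * R * (h * (X * R) * h⁻¹)⁻¹ ∈ M := mul_mem hm (inv_mem (mul_mem (mul_mem hh hm) (inv_mem hh)))
  have e : h * (X * R) * h⁻¹ = X⁻¹ * R := by
    rw [show h * (X * R) * h⁻¹ = h * X * h⁻¹ * (h * R * h⁻¹) by group, hX, hR]
  rw [e, mul_inv_rev, inv_inv, show X * R * (R⁻¹ * X) = X * X by group, h2] at this
  exact this

include hR in
/-- A pure root element from a commutator. -/
theorem comm_pure (M : Subgroup (GL D.Idx k)) (hh : hom2 hV (Top.th_lt hT) (-1) ∈ M) {r s s' : ℕ}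
    (hr : r < D.nroots) (hs : s < D.nroots) (hs' : s' < D.nroots) (h1 : s ≠ r) (h2 : s ≠ D.neg r) {E : ℤ}
    {R : List (ℕ × ℤ × ℕ × ℕ)} (hterms : D.commTerms r s = (s', E, 1, 1) :: R)
    (hs1 : Chev.torusExp D T.th s' = 1 ∨ Chev.torusExp D T.th s' = -1)
    (hR0 : ∀ c ∈ R, c.1 < D.nroots ∧ Chev.torusExp D T.th c.1 = 0) {t u : k}
    (hmr : (glSys hS).x r t ∈ M) (hms : (glSys hS).x s u ∈ M) :
    (glSys hS).x s' (2 * ((E : k) * -t * u)) ∈ M := by
  set S := glSys hS
  have e := S.comm r hr s hs h1 h2 t u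
  rw [ChevalleyDatum.commWord, hterms] at e
  simp only [List.map_cons, List.prod_cons, pow_one] at e
  have hm : S.x s' ((E : k) * -t * u) *
      ((R.map fun c => (c.1, (c.2.1 : k) * (-t) ^ c.2.2.1 * u ^ c.2.2.2)).map fun p => S.x p.1 p.2).prod ∈ M := by
    have : (S.x r t * S.x s u)⁻¹ * (S.x s u * S.x r t) ∈ M :=
      mul_mem (inv_mem (mul_mem hmr hms)) (mul_mem hms hmr)
    rwa [e, inv_mul_cancel_left] at this
  refine split_mem hh hm ?_ ?_ (by rw [S.x_add s' hs', two_mul])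
  · rw [hom2_negOne_conj hV hS _ hs', S.x_inv hs']
    congr 1
    rcases hs1 with e | e <;> simp [e]
  · set h := hom2 hV (Top.th_lt hT) (-1 : Matrix.SpecialLinearGroup (Fin 2) k)
    clear hterms hm e
    induction R with
    | nil => simp
    | cons c R ih =>
      obtain ⟨hlt, h0⟩ := hR0 c List.mem_cons_self
      simp only [List.map_cons, List.prod_cons]
      rw [show ∀ (X Y : GL D.Idx k), h * (X * Y) * h⁻¹ = h * X * h⁻¹ * (h * Y * h⁻¹) from fun X Y => by group,
        ih (fun d hd => hR0 d (List.mem_cons_of_mem _ hd)), hom2_negOne_conj hV hS _ hlt, h0]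
      simp [S]

include hV hR hT in
/-- The odd characteristic step. -/
theorem odd_entry {p : ℕ} [Fact p.Prime] [CharP k p] (hp : p ≠ 2) (M : Subgroup (GL D.Idx k)) [Finite M]
    (hLM : ∀ r < D.nroots, (glSys hS).x r 1 ∈ M) {u : GL D.Idx k} (hu : u ∈ (glSys hS).Ubar) {c : k}
    (hc : c ≠ 0) (hy : u * (glSys hS).x (D.neg T.th) c * u⁻¹ ∈ M) :
    (glSys hS).x T.th c ∈ M := by
  set S := glSys hS
  have h2 : (2 : k) ≠ 0 := by
    intro h
    have := (CharP.cast_eq_zero_iff k p 2).1 (by exact_mod_cast h)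
    exact hp ((Nat.prime_dvd_prime_iff_eq Fact.out Nat.prime_two).1 this)
  have h1 : S.x T.th 1 ∈ conjSub u M := (x_th_mem_conjSub hS hR hT hu).2 (hLM _ hT.1.1)
  have hy' : S.x (D.neg T.th) c ∈ conjSub u M := hy
  have hh := negOne_mem hV hS hR hT hp (conjSub u M) hc h1 hy'
  obtain ⟨-, hne, -, -, -, -, -, hterm, hK1, hK2, hte, -⟩ := id hT
  obtain ⟨n1, n2, n3, n4, n5, n6, n7, n8⟩ := hne
  have hga : T.ga < D.nroots := hT.1.2.1
  have hth : T.th < D.nroots := hT.1.1
  have ha : T.a < D.nroots := Top.a_lt hT hR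
  have hna : D.neg T.a < D.nroots := hR.neg_lt _ ha
  obtain ⟨e, -, -, hconj⟩ := (Top.partner hR hT).conj hS hR hT hu
  -- `x_ga(2)`
  have hg2 : S.x T.ga 2 ∈ conjSub u M := by
    refine split_mem hh (X := S.x T.ga 1) (R := S.x T.th (-((T.C * T.M1 : ℤ) : k) * e * 1)) ?_ ?_ ?_ ?_
    · rw [mem_conjSub, ← hconj 1]
      simpa [mul_assoc] using hLM _ hga
    · rw [hom2_negOne_conj hV hS _ hga, hte.1, zpow_one, neg_one_mul, S.x_inv hga]
    · rw [hom2_negOne_conj hV hS _ hth, hV.torusExp_self hth]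
      norm_num [S]
    · rw [S.x_add _ hga, one_add_one_eq_two]
  have hR1 : ∀ d ∈ T.R1, d.1 < D.nroots ∧ Chev.torusExp D T.th d.1 = 0 :=
    fun d hd => hte.2.2 d (List.mem_append_left _ hd)
  have hR2 : ∀ d ∈ T.R2, d.1 < D.nroots ∧ Chev.torusExp D T.th d.1 = 0 :=
    fun d hd => hte.2.2 d (List.mem_append_right _ hd)
  have hna1 := comm_pure hV hS hR hT (conjSub u M) hh (hR.neg_lt _ hth) hga hna n5
    (by rw [hR.neg_neg_root hth]; exact n1.symm) hK1.1 (Or.inr hte.2.1) hR1 hy' hg2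
  have hga1 := comm_pure hV hS hR hT (conjSub u M) hh hth hna hga n6
    (fun e => n7 e) hK2.1 (Or.inl hte.1) hR2 h1 hna1
  set f : k := 2 * ((T.E2 : k) * -1 * (2 * ((T.E1 : k) * -c * 2)))
  rw [mem_conjSub] at hga1
  have hY : u * S.x T.ga f * u⁻¹ = S.x T.ga f * S.x T.th (((T.C * T.M1 : ℤ) : k) * e * f) := by
    have h := hconj f
    have hc' := ((Top.Ubar_props hS hT hR hu).2.2 (-((T.C * T.M1 : ℤ) : k) * e * f)).eq
    calc u * S.x T.ga f * u⁻¹
        = u * ((u⁻¹ * S.x T.ga f * u) * (S.x T.th (-((T.C * T.M1 : ℤ) : k) * e * f))⁻¹) * u⁻¹ := by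
          rw [h, mul_inv_cancel_right]
      _ = S.x T.ga f * (u * (S.x T.th (-((T.C * T.M1 : ℤ) : k) * e * f))⁻¹ * u⁻¹) := by group
      _ = _ := by
        rw [S.x_inv hth, ((Top.Ubar_props hS hT hR hu).2.2 _).eq, mul_inv_cancel_right]
        congr 2; ring
  rw [hY] at hga1
  have hcomm := S.comm T.a ha T.ga hga n2 n4 1 f
  rw [ChevalleyDatum.commWord, hterm.1] at hcomm
  simp only [List.map_cons, List.map_nil, List.prod_cons, List.prod_nil, mul_one, pow_one] at hcomm
  set w : k := ((T.C * T.M1 : ℤ) : k) * e * f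
  have hcw : Commute (S.x T.a 1) (S.x T.th w) := Top.commute_th hS hT hR (Top.a_pos hT hR) 1 w
  have hmem : (S.x T.a 1 * (S.x T.ga f * S.x T.th w))⁻¹ * (S.x T.ga f * S.x T.th w * S.x T.a 1) ∈ M :=
    mul_mem (inv_mem (mul_mem (hLM _ ha) hga1)) (mul_mem hga1 (hLM _ ha))
  rw [mul_assoc (S.x T.ga f) (S.x T.th w), ← hcw.eq, ← mul_assoc (S.x T.ga f), hcomm,
    mul_assoc (S.x T.a 1 * S.x T.ga f), S.x_add _ hth, add_comm, ← S.x_add _ hth,
    show ∀ (X Y Z V : GL D.Idx k), (X * (Y * Z))⁻¹ * (X * Y * (Z * V)) = V from fun X Y Z V => by group] at hmem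
  let A : AddSubgroup k :=
    { carrier := {t | S.x T.th t ∈ M}
      zero_mem' := by show S.x T.th 0 ∈ M; rw [S.x_zero hth]; exact one_mem _
      add_mem' := fun {a b} h h' => by show S.x T.th (a + b) ∈ M; rw [← S.x_add _ hth]; exact mul_mem h h'
      neg_mem' := fun {a} h => by show S.x T.th (-a) ∈ M; rw [← S.x_inv hth]; exact inv_mem h }
  refine mem_of_int_mul (p := p) (A := A) (n := -(T.C * T.E1 * T.E2) * 8) ?_ ?_
  · push_cast
    rcases hterm.2 with h | h | h | h <;> rcases hK1.2 with h' | h' <;> rcases hK2.2 with h'' | h'' <;>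
      simp [h, h', h'', show (8 : k) = 2 ^ 3 by norm_num, h2]
  · show S.x T.th _ ∈ M
    convert hmem using 2
    simp only [f]
    push_cast
    ring

include hV hR hT in
/-- The parameters are closed under products. -/
theorem odd_mul {p : ℕ} [Fact p.Prime] [CharP k p] (hp : p ≠ 2) (M : Subgroup (GL D.Idx k)) [Finite M]
    (hLM : ∀ r < D.nroots, (glSys hS).x r 1 ∈ M) {s t : k} (hs : (glSys hS).x T.th s ∈ M)
    (ht : (glSys hS).x T.th t ∈ M) : (glSys hS).x T.th (s * t) ∈ M := by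
  set S := glSys hS
  have hth : T.th < D.nroots := hT.1.1
  have hga : T.ga < D.nroots := hT.1.2.1
  have ha : T.a < D.nroots := Top.a_lt hT hR
  have hna : D.neg T.a < D.nroots := hR.neg_lt _ ha
  have hh := negOne_mem hV hS hR hT hp M (one_ne_zero (α := k)) (hLM _ hth) (hLM _ (hR.neg_lt _ hth))
  have h2 : (2 : k) ≠ 0 := by
    intro h
    have := (CharP.cast_eq_zero_iff k p 2).1 (by exact_mod_cast h)
    exact hp ((Nat.prime_dvd_prime_iff_eq Fact.out Nat.prime_two).1 this)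
  obtain ⟨-, ⟨n1, n2, -, n4, n5, n6, n7, -⟩, -, -, -, -, -, hterm, hK1, hK2, hte, -⟩ := id hT
  have hR1 : ∀ d ∈ T.R1, d.1 < D.nroots ∧ Chev.torusExp D T.th d.1 = 0 :=
    fun d hd => hte.2.2 d (List.mem_append_left _ hd)
  have hR2 : ∀ d ∈ T.R2, d.1 < D.nroots ∧ Chev.torusExp D T.th d.1 = 0 :=
    fun d hd => hte.2.2 d (List.mem_append_right _ hd)
  have hneg : ∀ v : k, S.x T.th v ∈ M → S.x (D.neg T.th) (-v) ∈ M := by
    intro v hv
    have hw : hom2 hV hth wey ∈ M := by
      rw [wey_eq, map_mul, map_mul, hom2_upT hV hS, hom2_loT hV hS, ← S.x_inv (hR.neg_lt _ hth)]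
      exact mul_mem (mul_mem (hLM _ hth) (inv_mem (hLM _ (hR.neg_lt _ hth)))) (hLM _ hth)
    have e := congrArg (hom2 hV hth) (wey_upT v)
    rw [map_mul, map_mul, map_inv, hom2_upT hV hS, hom2_loT hV hS] at e
    exact e ▸ mul_mem (mul_mem hw hv) (inv_mem hw)
  have hnav : ∀ v : k, S.x T.th v ∈ M → S.x (D.neg T.a) (2 * ((T.E1 : k) * v)) ∈ M := by
    intro v hv
    have := comm_pure hV hS hR hT M hh (hR.neg_lt _ hth) hga hna n5
      (by rw [hR.neg_neg_root hth]; exact n1.symm) hK1.1 (Or.inr hte.2.1) hR1 (hneg v hv) (hLM _ hga)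
    simpa using this
  have hgas := comm_pure hV hS hR hT M hh hth hna hga n6 (fun e => n7 e) hK2.1 (Or.inl hte.1) hR2
    (hLM _ hth) (hnav s hs)
  obtain ⟨σ, hσ, hac⟩ := conj_sign hS hR [(⟨T.ja, hT.1.2.2.1⟩ : Fin D.rank)]
  have hrefl : act D [(⟨T.ja, hT.1.2.2.1⟩ : Fin D.rank)] (D.neg T.a) = T.a := by
    rw [act_singleton]
    show D.reflectRoot T.ja (D.neg (D.simple T.ja)) = D.simple T.ja
    have ha' : D.simple T.ja < D.nroots := ha
    rw [hR.reflect_neg hT.1.2.2.1 ha', hR.reflect_simple hT.1.2.2.1, hR.neg_neg_root ha']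
  have hat : S.x T.a ((σ (D.neg T.a) : k) * (2 * ((T.E1 : k) * t))) ∈ M := by
    have e := hac _ hna (2 * ((T.E1 : k) * t))
    rw [hrefl, Sys.nW_singleton] at e
    rw [show S.x T.a _ = _ from e.symm]
    have hn : S.nI ⟨T.ja, hT.1.2.2.1⟩ ∈ M := by
      refine mul_mem (mul_mem (hLM _ ha) ?_) (hLM _ ha)
      rw [inv_one]
      show S.x (D.neg T.a) (-1) ∈ M
      rw [← S.x_inv hna]
      exact inv_mem (hLM _ hna)
    exact mul_mem (mul_mem hn (hnav t ht)) (inv_mem hn)
  set f : k := 2 * ((T.E2 : k) * -1 * (2 * ((T.E1 : k) * s)))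
  set g : k := (σ (D.neg T.a) : k) * (2 * ((T.E1 : k) * t))
  have hcomm := S.comm T.a ha T.ga hga n2 n4 g f
  rw [ChevalleyDatum.commWord, hterm.1] at hcomm
  simp only [List.map_cons, List.map_nil, List.prod_cons, List.prod_nil, mul_one, pow_one] at hcomm
  have hmem : (S.x T.a g * S.x T.ga f)⁻¹ * (S.x T.ga f * S.x T.a g) ∈ M :=
    mul_mem (inv_mem (mul_mem hat hgas)) (mul_mem hgas hat)
  rw [hcomm, inv_mul_cancel_left] at hmem
  let A : AddSubgroup k :=
    { carrier := {t | S.x T.th t ∈ M}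
      zero_mem' := by show S.x T.th 0 ∈ M; rw [S.x_zero hth]; exact one_mem _
      add_mem' := fun {a b} h h' => by show S.x T.th (a + b) ∈ M; rw [← S.x_add _ hth]; exact mul_mem h h'
      neg_mem' := fun {a} h => by show S.x T.th (-a) ∈ M; rw [← S.x_inv hth]; exact inv_mem h }
  refine mem_of_int_mul (p := p) (A := A) (n := T.C * T.E1 * T.E1 * T.E2 * σ (D.neg T.a) * 8) ?_ ?_
  · push_cast
    rcases hterm.2 with h | h | h | h <;> rcases hK1.2 with h' | h' <;> rcases hK2.2 with h'' | h'' <;>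
      rcases hσ _ hna with h3 | h3 <;> simp [h, h', h'', h3, show (8 : k) = 2 ^ 3 by norm_num, h2]
  · show S.x T.th _ ∈ M
    convert hmem using 2
    simp only [f, g]
    push_cast
    ring

end Cfsg.Agent.Known.SubG
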