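import Cfsg.Agent.Known.SubG.Gen
import Cfsg.Agent.Known.SubG.Count

/-!
The rank-one subgroup of the highest root and conjugation of root elements by `U`.
-/

set_option autoImplicit false
set_option linter.unusedSectionVars false

namespace Cfsg.Agent.Known.SubG

open Cfsg.Lie Cfsg.Agent.ChevGrp
open scoped MatrixGroups

variable {D : ChevalleyDatum} {k : Type*} [Field k] {len : ℕ → ℕ} {T : Top D} {Cc : Chev.Cert}

section Param

variable (hV : Cc.Valid D) (hS : Rules D k)

include hV in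
theorem xS_inj {r : ℕ} (hr : r < D.nroots) {s t : k} (h : (glSys hS).x r s = (glSys hS).x r t) : s = t := by
  have e : (glSys hS).x r (s - t) = 1 := by
    rw [sub_eq_add_neg, ← (glSys hS).x_add r hr, h, (glSys hS).x_add r hr, add_neg_cancel, (glSys hS).x_zero hr]
  have e2 := congrArg (fun g : GL D.Idx k => (g : Matrix D.Idx D.Idx k)) e
  simp only [← glSys_mat hS, (glSys hS).mat_x hr, (glSys hS).mat_one] at e2
  exact sub_eq_zero.1 ((hV.x_eq_one_iff hr).1 e2)

include hV in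
theorem param_finite (M : Subgroup (GL D.Idx k)) [Finite M] {r : ℕ} (hr : r < D.nroots) :
    Set.Finite {t : k | (glSys hS).x r t ∈ M} :=
  Set.Finite.of_finite_image ((Set.toFinite (M : Set (GL D.Idx k))).subset (by rintro _ ⟨t, ht, rfl⟩; exact ht))
    fun _ _ _ _ h => xS_inj hV hS hr h

/-- The homomorphism from `SL₂`. -/
noncomputable def hom2 {r : ℕ} (hr : r < D.nroots) : Matrix.SpecialLinearGroup (Fin 2) k →* GL D.Idx k :=
  (hV.rankOne (F := k) hr).hom

theorem hom2_upT {r : ℕ} (hr : r < D.nroots) (t : k) : hom2 hV hr (upT t) = (glSys hS).x r t := by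
  rw [hom2, (hV.rankOne hr).hom_upper (upT_val t)]
  exact Units.ext (val_xGL hS r t).symm

theorem hom2_loT {r : ℕ} (hr : r < D.nroots) (t : k) : hom2 hV hr (loT t) = (glSys hS).x (D.neg r) t := by
  rw [hom2, (hV.rankOne hr).hom_lower (loT_val t)]
  exact Units.ext (val_xGL hS (D.neg r) t).symm

theorem hom2_negOne_conj {r : ℕ} (hr : r < D.nroots) {s : ℕ} (hs : s < D.nroots) (t : k) :
    hom2 hV hr (-1) * (glSys hS).x s t * (hom2 hV hr (-1))⁻¹ =
      (glSys hS).x s ((-1) ^ Chev.torusExp D r s * t) := by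
  have R := hV.rankOne (F := k) hr
  have e : hom2 hV hr (-1) = Chev.RankOne.h (hV.xU (F := k) hr) (hV.xU (hV.neg_lt hr)) (-1) := by
    show Chev.RankOne.val (hV.xU (F := k) hr) (hV.xU (hV.neg_lt hr))
      ((-1 : Matrix.SpecialLinearGroup (Fin 2) k).1) = _
    rw [Chev.RankOne.val, Chev.RankOne.valE_zero (by simp), show
      ((-1 : Matrix.SpecialLinearGroup (Fin 2) k).1) 0 1 = 0 by simp, zero_div, R.x_zero, mul_one]
    congr 1
  have hm : ((hom2 (k := k) hV hr (-1) : GL D.Idx k) : Matrix D.Idx D.Idx k) = Chev.hDiag D r (-1) := by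
    rw [e, ← hV.hMat_eq hr (neg_ne_zero.2 one_ne_zero)]
    simp [Chev.RankOne.h, Chev.RankOne.w, ChevalleyDatum.hMat, ChevalleyDatum.hWord, ChevalleyDatum.nWord,
      ChevalleyDatum.wordMat, Chev.Cert.Valid.xU, mul_assoc]
  rw [mul_inv_eq_iff_eq_mul]
  refine Units.ext ?_
  rw [Units.val_mul, Units.val_mul, hm, ← glSys_mat hS, ← glSys_mat hS, (glSys hS).mat_x hs, (glSys hS).mat_x hs]
  exact hV.hDiag_mul_x hs (neg_ne_zero.2 one_ne_zero) t

end Param

variable (hV : Cc.Valid D) (hS : Rules D k) (hR : RootTable D len) (hT : T.ok)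

include hS in
theorem hom2_extreme (g : Matrix.SpecialLinearGroup (Fin 2) k) (h : g.1 1 0 ≠ 0) :
    (hom2 hV (Top.th_lt hT) g : Matrix D.Idx D.Idx k) (Sum.inr (T.nth hT hR)) (Sum.inr (T.tth hT)) =
      -(g.1 1 0) ^ 2 := by
  have hd : g.1 0 0 * g.1 1 1 - g.1 0 1 * g.1 1 0 = 1 := by rw [← Matrix.det_fin_two]; exact g.2
  have e : g = upT ((g.1 0 0 - 1) / g.1 1 0) * loT (g.1 1 0) * upT ((g.1 1 1 - 1) / g.1 1 0) := by
    apply Subtype.ext
    simp only [Matrix.SpecialLinearGroup.coe_mul, upT_val, loT_val]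
    ext i j
    fin_cases i <;> fin_cases j <;> simp [Matrix.mul_apply, Fin.sum_univ_two] <;> field_simp <;>
      first | ring1 | linear_combination hd | linear_combination -hd
  conv_lhs => rw [e]
  rw [map_mul, map_mul, hom2_upT hV hS, hom2_loT hV hS, hom2_upT hV hS]
  have hth : T.th ∈ posSet D := hT.1.2.2.2.2.1
  obtain ⟨-, hc, -⟩ := Top.Ubar_props hS hT hR ((glSys hS).x_mem_US hth ((g.1 1 1 - 1) / g.1 1 0))
  obtain ⟨hr, -, -⟩ := Top.Ubar_props hS hT hR ((glSys hS).x_mem_US hth ((g.1 0 0 - 1) / g.1 1 0))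
  rw [mul_colFix _ hc, rowFix_mul hr, ← glSys_mat hS, (glSys hS).mat_x (hR.neg_lt _ hT.1.1),
    ChevalleyDatum.x, dif_pos (hR.neg_lt _ hT.1.1)]
  have hn : D.negIdx.getD (D.neg T.th) 0 = T.th := hR.neg_neg_root hT.1.1
  have hne : T.th ≠ D.neg T.th := (hR.neg_ne hT.1.1).symm
  simp [ChevalleyDatum.xMat, Top.nth, Top.tth, -Array.getD_eq_getD_getElem?, Fin.ext_iff, hn, hne, hne.symm]

/-- Kernel elements are scalars. -/
theorem sl_eq_scalar {g : Matrix.SpecialLinearGroup (Fin 2) k} (h10 : g.1 1 0 = 0) (h01 : g.1 0 1 = 0)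
    (h : g.1 0 0 ^ 2 = 1) : g = 1 ∨ g = -1 := by
  have hd : g.1 0 0 * g.1 1 1 - g.1 0 1 * g.1 1 0 = 1 := by rw [← Matrix.det_fin_two]; exact g.2
  rw [h10, mul_zero, sub_zero] at hd
  have h11 : g.1 1 1 = g.1 0 0 := by linear_combination g.1 0 0 * hd - g.1 1 1 * h
  rcases sq_eq_one_iff.1 h with e | e
  · left
    apply Subtype.ext; ext i j
    fin_cases i <;> fin_cases j <;> simp [h10, h01, e, h11]
  · right
    apply Subtype.ext; ext i j
    fin_cases i <;> fin_cases j <;> simp [h10, h01, e, h11]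

/-- The Weyl element of `SL₂`. -/
def wey : Matrix.SpecialLinearGroup (Fin 2) k := ⟨!![0, 1; -1, 0], by simp [Matrix.det_fin_two]⟩

theorem wey_val : (wey : Matrix.SpecialLinearGroup (Fin 2) k).1 = !![0, 1; -1, 0] := rfl

theorem wey_conj_entry (g : Matrix.SpecialLinearGroup (Fin 2) k) :
    (wey * g * wey⁻¹).1 1 0 = -g.1 0 1 := by
  simp [Matrix.SpecialLinearGroup.coe_inv, Matrix.adjugate_fin_two, wey_val, Matrix.mul_apply, Fin.sum_univ_two, Matrix.vecMul, dotProduct]

theorem conj_upT (g : Matrix.SpecialLinearGroup (Fin 2) k) (h10 : g.1 1 0 = 0) :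
    g * upT 1 * g⁻¹ = upT (g.1 0 0 ^ 2) := by
  have hd : g.1 0 0 * g.1 1 1 - g.1 0 1 * g.1 1 0 = 1 := by rw [← Matrix.det_fin_two]; exact g.2
  rw [h10, mul_zero, sub_zero] at hd
  apply Subtype.ext
  simp only [Matrix.SpecialLinearGroup.coe_mul, Matrix.SpecialLinearGroup.coe_inv, Matrix.adjugate_fin_two, upT_val]
  ext i j
  fin_cases i <;> fin_cases j <;> simp [Matrix.mul_apply, Fin.sum_univ_two, h10] <;>
    first | linear_combination hd | ring1

include hS hR in
theorem hom2_ker {g : Matrix.SpecialLinearGroup (Fin 2) k} (hg : hom2 hV (Top.th_lt hT) g = 1) :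
    g = 1 ∨ g = -1 := by
  have key : ∀ g : Matrix.SpecialLinearGroup (Fin 2) k, hom2 hV (Top.th_lt hT) g = 1 → g.1 1 0 = 0 := by
    intro g hg
    by_contra h
    have e := hom2_extreme hV hS hR hT g h
    rw [hg, Units.val_one, Matrix.one_apply_ne (by
      intro e'
      exact hR.neg_ne hT.1.1 (congrArg Fin.val (Sum.inr.inj e')))] at e
    exact pow_ne_zero 2 h (neg_eq_zero.1 e.symm)
  have h10 := key g hg
  have h01 : g.1 0 1 = 0 := by
    have := key (wey * g * wey⁻¹) (by rw [map_mul, map_mul, hg, map_inv, mul_one, mul_inv_cancel])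
    rwa [wey_conj_entry, neg_eq_zero] at this
  refine sl_eq_scalar h10 h01 ?_
  have e := congrArg (hom2 hV (Top.th_lt hT)) (conj_upT g h10)
  rw [map_mul, map_mul, map_inv, hg, one_mul, inv_one, mul_one, hom2_upT hV hS, hom2_upT hV hS] at e
  exact (xS_inj hV hS hT.1.1 e).symm

include hS hR in
/-- Preimages of finite subgroups are finite. -/
theorem finite_comap (M : Subgroup (GL D.Idx k)) [Finite M] :
    Finite (M.comap (hom2 hV (Top.th_lt hT))) := by
  have h : Set.Finite ((hom2 hV (Top.th_lt hT)) ⁻¹' (M : Set (GL D.Idx k))) := by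
    refine (Set.toFinite (M : Set (GL D.Idx k))).preimage' fun m _ => ?_
    rcases Set.eq_empty_or_nonempty ((hom2 hV (Top.th_lt hT)) ⁻¹' {m}) with e | ⟨g0, hg0⟩
    · rw [e]; exact Set.finite_empty
    · refine (Set.toFinite ({g0, g0 * -1} : Set (Matrix.SpecialLinearGroup (Fin 2) k))).subset fun g hg => ?_
      have hk : hom2 hV (Top.th_lt hT) (g0⁻¹ * g) = 1 := by
        rw [map_mul, map_inv, show hom2 hV (Top.th_lt hT) g = m from hg, show hom2 hV (Top.th_lt hT) g0 = m from hg0,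
          inv_mul_cancel]
      rcases hom2_ker hV hS hR hT hk with e | e
      · exact Or.inl (inv_mul_eq_one.1 e).symm
      · exact Or.inr (inv_mul_eq_iff_eq_mul.1 e)
  exact h.to_subtype

/-! ### Conjugating a root element by unipotent elements -/

/-- All roots of `T0` except `pr` commute with `rho` and leave the row of `-rho` alone. -/
structure Partner (D : ChevalleyDatum) (th : ℕ) (T0 : Set ℕ) (rho pr : ℕ) (C M : ℤ) : Prop where
  rho_pos : D.IsPosRoot rho
  pr_pos : D.IsPosRoot pr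
  th_pos : D.IsPosRoot th
  sub : ∀ r ∈ T0, D.IsPosRoot r
  ne_rho : pr ≠ rho
  ne_th : pr ≠ th
  comm : ∀ r ∈ T0, r ≠ pr → r ≠ rho → D.commTerms r rho = []
  terms : D.commTerms pr rho = [(th, C, 1, 1)]
  row : ∀ r ∈ T0, ∀ e ∈ (D.chain.getD r #[]).toList, ∀ q ∈ e.2.toList,
    q.1 = D.neg rho → r = pr ∧ e.1 = D.neg th
  coef : D.chainCoeff pr (D.neg th) (D.neg rho) = [(1, M)]
  M_sq : M = 1 ∨ M = -1

include hS hR hT in
theorem Partner.conj {T0 : Set ℕ} {rho pr : ℕ} {C M : ℤ} (hP : Partner D T.th T0 rho pr C M)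
    {u : GL D.Idx k} (hu : u ∈ (glSys hS).US T0) :
    ∃ e : k, (∀ c : D.Idx, (u : Matrix D.Idx D.Idx k) (Sum.inr ⟨D.neg rho, hR.neg_lt _ hP.rho_pos.1⟩) c =
        (1 : Matrix D.Idx D.Idx k) (Sum.inr ⟨D.neg rho, hR.neg_lt _ hP.rho_pos.1⟩) c +
          if c = Sum.inr (T.nth hT hR) then e else 0) ∧
      u ∈ (glSys hS).Ubar ∧
      ∀ t : k, u⁻¹ * (glSys hS).x rho t * u =
        (glSys hS).x rho t * (glSys hS).x T.th (-((C * M : ℤ) : k) * e * t) := by
  classical
  set S := glSys hS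
  set z : D.Idx := Sum.inr ⟨D.neg rho, hR.neg_lt _ hP.rho_pos.1⟩
  set zn : D.Idx := Sum.inr (T.nth hT hR)
  have hmul : ∀ (A B : GL D.Idx k) (e1 e2 : k),
      (∀ c, (A : Matrix D.Idx D.Idx k) z c = (1 : Matrix D.Idx D.Idx k) z c + if c = zn then e1 else 0) →
      (∀ c, (B : Matrix D.Idx D.Idx k) z c = (1 : Matrix D.Idx D.Idx k) z c + if c = zn then e2 else 0) →
      B ∈ rowFix zn →
      ∀ c, ((A * B : GL D.Idx k) : Matrix D.Idx D.Idx k) z c =
        (1 : Matrix D.Idx D.Idx k) z c + if c = zn then e1 + e2 else 0 := by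
    intro A B e1 e2 hA hB hBn c
    rw [Units.val_mul, Matrix.mul_apply]
    simp only [hA, add_mul, Finset.sum_add_distrib, Matrix.one_apply, ite_mul, one_mul, zero_mul,
      Finset.sum_ite_eq, Finset.sum_ite_eq', Finset.mem_univ, if_true]
    rw [hB, show (B : Matrix D.Idx D.Idx k) zn c = (1 : Matrix D.Idx D.Idx k) zn c from hBn c, Matrix.one_apply,
      Matrix.one_apply]
    by_cases h : c = zn
    · subst h; simp [add_comm, add_assoc]
    · simp [h, Ne.symm h]
  refine Subgroup.closure_induction ?_ ?_ ?_ ?_ hu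
  · rintro _ ⟨r, hr, s, rfl⟩
    have hrp := hP.sub r hr
    have hz : (⟨D.neg rho, hR.neg_lt _ hP.rho_pos.1⟩ : Fin D.nroots).val ≠ r :=
      Top.neg_not_pos hT hR hrp hP.rho_pos
    by_cases h : r = pr
    · subst h
      refine ⟨(M : k) * s, fun c => ?_, S.x_mem_US hrp s, fun t => ?_⟩
      · rw [← glSys_mat hS, S.mat_x hrp.1,
          x_row_one hrp.1 s _ (T.nth hT hR) hz (Top.neg_not_pos hT hR hrp hP.th_pos)
            (fun e => hP.ne_th (by rw [← hR.neg_neg_root hrp.1, ← e]; exact hR.neg_neg_root hT.1.1))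
            (fun s' hs' => chainCoeff_eq_nil fun e he q hq hq' hes => hs' (Fin.ext (by
              rw [← hes]; exact (hP.row _ hr e he q hq hq').2)))]
        simp [Top.nth, hP.coef, z, zn]
        by_cases hc : c = Sum.inr ⟨D.neg T.th, hR.neg_lt _ hT.1.1⟩ <;> simp [hc]
      · have e := S.comm r hrp.1 rho hP.rho_pos.1 hP.ne_rho.symm
          (fun e => Top.neg_not_pos hT hR hP.rho_pos hrp e.symm) s t
        rw [ChevalleyDatum.commWord, hP.terms] at e
        simp only [List.map_cons, List.map_nil, List.prod_cons, List.prod_nil, mul_one, pow_one] at e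
        rw [mul_assoc, e, mul_assoc (S.x r s), inv_mul_cancel_left]
        congr 2
        rcases hP.M_sq with rfl | rfl <;> push_cast <;> ring
    · refine ⟨0, fun c => ?_, S.x_mem_US hrp s, fun t => ?_⟩
      · rw [← glSys_mat hS, S.mat_x hrp.1, x_row hrp.1 s _ hz
          (fun _ => chainCoeff_eq_nil fun e he q hq hq' _ => h (hP.row _ hr e he q hq hq').1)]
        simp [z]
      · rw [mul_zero, zero_mul, S.x_zero hT.1.1, mul_one, mul_assoc]
        by_cases h2 : r = rho
        · subst h2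
          rw [S.x_add r hrp.1, S.x_inv hrp.1, S.x_add r hrp.1]
          congr 1; ring
        · have e := S.comm r hrp.1 rho hP.rho_pos.1 (Ne.symm h2)
            (fun e => Top.neg_not_pos hT hR hP.rho_pos hrp e.symm) s t
          rw [ChevalleyDatum.commWord, hP.comm r hr h h2] at e
          simp only [List.map_nil, List.prod_nil, mul_one] at e
          rw [e, inv_mul_cancel_left]
  · exact ⟨0, fun c => by simp, one_mem _, fun t => by simp [S.x_zero hT.1.1]⟩
  · rintro A B _ _ ⟨e1, hA, hAU, cA⟩ ⟨e2, hB, hBU, cB⟩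
    obtain ⟨hBn, -, hBc⟩ := Top.Ubar_props hS hT hR hBU
    refine ⟨e1 + e2, hmul A B e1 e2 hA hB hBn, mul_mem hAU hBU, fun t => ?_⟩
    calc (A * B)⁻¹ * S.x rho t * (A * B) = B⁻¹ * (A⁻¹ * S.x rho t * A) * B := by group
      _ = (B⁻¹ * S.x rho t * B) * (B⁻¹ * S.x T.th (-((C * M : ℤ) : k) * e1 * t) * B) := by rw [cA]; group
      _ = _ := by
        rw [cB, mul_assoc B⁻¹, ← (hBc _).eq, inv_mul_cancel_left, mul_assoc, S.x_add _ hT.1.1]
        congr 2; ring
  · rintro A _ ⟨e1, hA, hAU, cA⟩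
    obtain ⟨hAn, -, hAc⟩ := Top.Ubar_props hS hT hR hAU
    refine ⟨-e1, fun c => ?_, inv_mem hAU, fun t => ?_⟩
    · have h1 : ∀ c, ((A * A⁻¹ : GL D.Idx k) : Matrix D.Idx D.Idx k) z c =
          (A⁻¹ : GL D.Idx k).val z c + e1 * (1 : Matrix D.Idx D.Idx k) zn c := by
        intro c
        rw [Units.val_mul, Matrix.mul_apply]
        simp only [hA, add_mul, Finset.sum_add_distrib, Matrix.one_apply, ite_mul, one_mul, zero_mul,
          Finset.sum_ite_eq, Finset.sum_ite_eq', Finset.mem_univ, if_true]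
        rw [show (A⁻¹ : GL D.Idx k).val zn c = (1 : Matrix D.Idx D.Idx k) zn c from inv_mem hAn c, Matrix.one_apply]
      have h2 := h1 c
      rw [mul_inv_cancel, Units.val_one] at h2
      rw [h2, Matrix.one_apply (i := zn)]
      by_cases h : c = zn
      · subst h; simp
      · simp [h, Ne.symm h]
    · have e := congrArg (fun g => A * g * A⁻¹) (cA t)
      simp only [mul_assoc, mul_inv_cancel_left, mul_inv_cancel, mul_one] at e
      rw [inv_inv]
      have e2 : S.x rho t = A * S.x rho t * A⁻¹ * S.x T.th (-((C * M : ℤ) : k) * e1 * t) := by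
        have hc := ((hAc (-((C * M : ℤ) : k) * e1 * t)).inv_left).eq
        calc S.x rho t = _ := e
          _ = _ := by simp only [mul_assoc] at hc ⊢; rw [hc]
      calc A * S.x rho t * A⁻¹ = S.x rho t * (S.x T.th (-((C * M : ℤ) : k) * e1 * t))⁻¹ := by
            conv_rhs => rw [e2]
            rw [mul_inv_cancel_right]
        _ = _ := by rw [S.x_inv hT.1.1]; congr 2; ring

include hT hR in
/-- The partner facts for `ga`. -/
theorem Top.partner : Partner D T.th (posSet D) T.ga T.a T.C T.M1 where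
  rho_pos := hT.1.2.2.2.2.2
  pr_pos := Top.a_pos hT hR
  th_pos := hT.1.2.2.2.2.1
  sub := fun _ h => h
  ne_rho := hT.2.1.2.1.symm
  ne_th := hT.2.1.2.2.1
  comm := fun r hr h1 h2 => hT.2.2.2.1 r hr.1 hr h1 h2
  terms := hT.2.2.2.2.2.2.2.1.1
  row := fun r hr e he q hq => (hT.2.2.2.2.2.1 r hr.1 hr e he q hq).2
  coef := hT.2.2.2.2.2.2.1.1
  M_sq := hT.2.2.2.2.2.2.1.2

/-- `u⁻¹ M u`. -/
def conjSub (u : GL D.Idx k) (M : Subgroup (GL D.Idx k)) : Subgroup (GL D.Idx k) :=
  M.comap (MulAut.conj u).toMonoidHom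

theorem mem_conjSub {u g : GL D.Idx k} {M : Subgroup (GL D.Idx k)} :
    g ∈ conjSub u M ↔ u * g * u⁻¹ ∈ M := Iff.rfl

instance (u : GL D.Idx k) (M : Subgroup (GL D.Idx k)) [Finite M] : Finite (conjSub u M) :=
  Finite.of_injective (fun g : conjSub u M => (⟨u * g.1 * u⁻¹, g.2⟩ : M)) fun g h e => by
    have := congrArg Subtype.val e
    exact Subtype.ext (mul_left_cancel (mul_right_cancel this))

include hS hR hT in
theorem x_th_mem_conjSub {u : GL D.Idx k} (hu : u ∈ (glSys hS).Ubar) {M : Subgroup (GL D.Idx k)} {t : k} :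
    (glSys hS).x T.th t ∈ conjSub u M ↔ (glSys hS).x T.th t ∈ M := by
  rw [mem_conjSub, ((Top.Ubar_props hS hT hR hu).2.2 t).eq, mul_inv_cancel_right]

end Cfsg.Agent.Known.SubG
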