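import Cfsg.Agent.Known.SubG.Rank

/-!
Characteristic two: the parameters form a field; over the prime field the extreme entries lie in the field with
four elements, and a second long root adjacent to the highest one excludes this.
-/

set_option autoImplicit false
set_option linter.unusedSectionVars false

namespace Cfsg.Agent.Known.SubG

open Cfsg.Lie Cfsg.Agent.ChevGrp
open scoped MatrixGroups

variable {D : ChevalleyDatum} {k : Type*} [Field k] {len : ℕ → ℕ} {T : Top D} {Cc : Chev.Cert}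

theorem intCast_unit_two [CharP k 2] {n : ℤ} (h : n = 1 ∨ n = -1) : (n : k) = 1 := by
  rcases h with rfl | rfl <;> simp [CharTwo.neg_eq]

theorem intCast_even_two [CharP k 2] {n : ℤ} (h : (2 : ℤ) ∣ n) : (n : k) = 0 :=
  (CharP.intCast_eq_zero_iff k 2 n).2 h

variable (hV : Cc.Valid D) (hS : Rules D k) (hR : RootTable D len) (hT : T.ok)

include hV hR hT in
/-- With at least four parameters everything is rational. -/
theorem two_big [CharP k 2] (M : Subgroup (GL D.Idx k)) [Finite M]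
    (hLM : ∀ r < D.nroots, (glSys hS).x r 1 ∈ M) (h4 : 4 ≤ Set.ncard {t : k | (glSys hS).x T.th t ∈ M})
    {u : GL D.Idx k} (hu : u ∈ (glSys hS).Ubar) {c : k} (hc : c ≠ 0)
    (hy : u * (glSys hS).x (D.neg T.th) c * u⁻¹ ∈ M) :
    (∀ s t, (glSys hS).x T.th s ∈ M → (glSys hS).x T.th t ∈ M → (glSys hS).x T.th (s * t) ∈ M) ∧
      (glSys hS).x T.th c ∈ M := by
  have := finite_comap hV hS hR hT (conjSub u M)
  have hmem : ∀ t, upT t ∈ (conjSub u M).comap (hom2 hV (Top.th_lt hT)) ↔ (glSys hS).x T.th t ∈ M := fun t => by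
    rw [Subgroup.mem_comap, hom2_upT hV hS, x_th_mem_conjSub hS hR hT hu]
  obtain ⟨h1, h2⟩ := field_of_subgroup ((conjSub u M).comap (hom2 hV (Top.th_lt hT))) hc
    (by rw [Subgroup.mem_comap, hom2_loT hV hS, mem_conjSub]; exact hy) ((hmem 1).2 (hLM _ hT.1.1))
    (by simpa only [hmem] using h4)
  exact ⟨fun s t hs ht => (hmem _).1 (h1 s t ((hmem s).2 hs) ((hmem t).2 ht)), (hmem c).1 h2⟩

include hV in
/-- Fewer than four parameters: only `0` and `1`. -/
theorem two_small [CharP k 2] (M : Subgroup (GL D.Idx k)) [Finite M] {r : ℕ} (hr : r < D.nroots)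
    (h1 : (glSys hS).x r 1 ∈ M) (h4 : ¬ 4 ≤ Set.ncard {t : k | (glSys hS).x r t ∈ M}) {t : k}
    (ht : (glSys hS).x r t ∈ M) : t = 0 ∨ t = 1 := by
  by_contra hne
  push Not at hne
  refine h4 ?_
  have hsub : ({0, 1, t, t + 1} : Set k) ⊆ {t : k | (glSys hS).x r t ∈ M} := by
    intro s hs
    simp only [Set.mem_insert_iff, Set.mem_singleton_iff] at hs
    show (glSys hS).x r s ∈ M
    rcases hs with rfl | rfl | rfl | rfl
    · rw [(glSys hS).x_zero hr]; exact one_mem _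
    · exact h1
    · exact ht
    · rw [← (glSys hS).x_add r hr]; exact mul_mem ht h1
  have hcard : Set.ncard ({0, 1, t, t + 1} : Set k) = 4 := by
    rw [Set.ncard_insert_of_notMem, Set.ncard_insert_of_notMem, Set.ncard_pair]
    · intro h; exact one_ne_zero (left_eq_add.1 h)
    · simp only [Set.mem_insert_iff, Set.mem_singleton_iff, not_or]
      exact ⟨hne.2.symm, fun h => hne.1 (add_eq_right.1 h.symm)⟩
    · simp only [Set.mem_insert_iff, Set.mem_singleton_iff, not_or]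
      exact ⟨zero_ne_one, hne.1.symm, fun h => hne.2 (CharTwo.add_eq_zero.1 h.symm)⟩
  exact hcard ▸ Set.ncard_le_ncard hsub (param_finite hV hS M hr)

/-- The extra facts when `th`, `ga`, `a` are long roots of an `A₂`. -/
def Top.long (T : Top D) : Prop :=
  T.R1 = [] ∧ T.R2 = [] ∧ (T.C = 1 ∨ T.C = -1) ∧ D.commTerms T.ga (D.neg T.a) = [] ∧
    D.commTerms (D.neg T.th) (D.neg T.a) = [] ∧ D.chainCoeff (D.neg T.a) T.th (D.neg T.th) = [] ∧
    D.commTerms (D.neg T.a) T.ga = []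

variable (hL : T.long)

/-- Elements `x_{-a}(r) x_ga(s)`. -/
noncomputable def vW (r s : k) : GL D.Idx k := (glSys hS).x (D.neg T.a) r * (glSys hS).x T.ga s

include hR hT hL in
theorem ga_na_comm (r s : k) :
    Commute ((glSys hS).x (D.neg T.a) r) ((glSys hS).x T.ga s) := by
  obtain ⟨-, ⟨-, n2, -, n4, -⟩, -⟩ := id hT
  have e := (glSys hS).comm (D.neg T.a) (hR.neg_lt _ (Top.a_lt hT hR)) T.ga hT.1.2.1 n4
    (by rw [hR.neg_neg_root (Top.a_lt hT hR)]; exact n2) r s
  rw [ChevalleyDatum.commWord, hL.2.2.2.2.2.2] at e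
  simpa [Commute, SemiconjBy] using e.symm

include hR hT hL in
theorem vW_mul (r s r' s' : k) : vW hS (T := T) r s * vW hS (T := T) r' s' = vW hS (T := T) (r + r') (s + s') := by
  simp only [vW]
  rw [mul_assoc, ← mul_assoc ((glSys hS).x T.ga s), ← (ga_na_comm hS hR hT hL r' s).eq, mul_assoc,
    (glSys hS).x_add _ hT.1.2.1, ← mul_assoc, (glSys hS).x_add _ (hR.neg_lt _ (Top.a_lt hT hR))]

/-- The abelian group of the `vW r s`. -/
noncomputable def Wgrp : Subgroup (GL D.Idx k) where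
  carrier := {v | ∃ r s, v = vW hS (T := T) r s}
  one_mem' := ⟨0, 0, by
    simp [vW, (glSys hS).x_zero (hR.neg_lt _ (Top.a_lt hT hR)), (glSys hS).x_zero (Top.ga_lt hT)]⟩
  mul_mem' := by
    rintro _ _ ⟨r, s, rfl⟩ ⟨r', s', rfl⟩
    exact ⟨_, _, vW_mul hS hR hT hL r s r' s'⟩
  inv_mem' := by
    rintro _ ⟨r, s, rfl⟩
    refine ⟨-r, -s, inv_eq_of_mul_eq_one_right ?_⟩
    rw [vW_mul hS hR hT hL, add_neg_cancel, add_neg_cancel, vW, (glSys hS).x_zero (hR.neg_lt _ (Top.a_lt hT hR)),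
      (glSys hS).x_zero (Top.ga_lt hT), one_mul]

include hR hT hL in
theorem hom2_normalizes (g : Matrix.SpecialLinearGroup (Fin 2) k) :
    ∀ v ∈ Wgrp hS hR hT hL, hom2 hV (Top.th_lt hT) g * v * (hom2 hV (Top.th_lt hT) g)⁻¹ ∈ Wgrp hS hR hT hL := by
  set S := glSys hS
  set W := Wgrp hS hR hT hL
  set φ := hom2 (k := k) hV (Top.th_lt hT)
  obtain ⟨-, ⟨n1, n2, n3, n4, n5, n6, n7, n8⟩, -, -, -, -, -, -, hK1, hK2, -, -⟩ := id hT
  have hth := Top.th_lt hT
  have hga := Top.ga_lt hT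
  have hna : D.neg T.a < D.nroots := hR.neg_lt _ (Top.a_lt hT hR)
  let ok : Matrix.SpecialLinearGroup (Fin 2) k → Prop := fun g => ∀ v ∈ W, φ g * v * (φ g)⁻¹ ∈ W
  have hmul : ∀ g h, ok g → ok h → ok (g * h) := fun g h hg hh v hv => by
    rw [map_mul, show φ g * φ h * v * (φ g * φ h)⁻¹ = φ g * (φ h * v * (φ h)⁻¹) * (φ g)⁻¹ by group]
    exact hg _ (hh v hv)
  have hup : ∀ t, ok (upT t) := by
    rintro t _ ⟨r, s, rfl⟩
    have hc := Top.commute_th hS hT hR hT.1.2.2.2.2.2 s t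
    have e := S.comm T.th hth (D.neg T.a) hna n6 n7 (-t) r
    rw [ChevalleyDatum.commWord, hK2.1, hL.2.1] at e
    simp only [List.map_cons, List.map_nil, List.prod_cons, List.prod_nil, mul_one, pow_one] at e
    refine ⟨r, (T.E2 : k) * - -t * r + s, ?_⟩
    rw [show φ (upT t) = S.x T.th t from hom2_upT hV hS hth t, vW, vW, ← S.x_add _ hga]
    calc S.x T.th t * (S.x (D.neg T.a) r * S.x T.ga s) * (S.x T.th t)⁻¹
        = S.x T.th t * S.x (D.neg T.a) r * (S.x T.ga s * (S.x T.th t)⁻¹) := by group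
      _ = S.x T.th t * (S.x (D.neg T.a) r * S.x T.th (-t)) * S.x T.ga s := by
        rw [hc.inv_right.eq, S.x_inv hth]; simp only [mul_assoc, S]
      _ = _ := by
        rw [e, ← mul_assoc, ← mul_assoc, S.x_add _ hth, add_neg_cancel, S.x_zero hth, one_mul, mul_assoc]
  have hlo : ∀ t, ok (loT t) := by
    rintro t _ ⟨r, s, rfl⟩
    have e := S.comm (D.neg T.th) (hR.neg_lt _ hth) T.ga hga n5 (by rw [hR.neg_neg_root hth]; exact n1.symm) (-t) s
    rw [ChevalleyDatum.commWord, hK1.1, hL.1] at e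
    simp only [List.map_cons, List.map_nil, List.prod_cons, List.prod_nil, mul_one, pow_one] at e
    have e' := S.comm (D.neg T.th) (hR.neg_lt _ hth) (D.neg T.a) hna n7
      (by rw [hR.neg_neg_root hth]; exact n6) (-t) r
    rw [ChevalleyDatum.commWord, hL.2.2.2.2.1] at e'
    simp only [List.map_nil, List.prod_nil, mul_one] at e'
    refine ⟨r + (T.E1 : k) * - -t * s, s, ?_⟩
    rw [show φ (loT t) = S.x (D.neg T.th) t from hom2_loT hV hS hth t, vW, vW,
      ← S.x_add _ hna, mul_assoc (S.x (D.neg T.a) r)]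
    conv_rhs => rw [(ga_na_comm hS hR hT hL _ _).eq]
    calc S.x (D.neg T.th) t * (S.x (D.neg T.a) r * S.x T.ga s) * (S.x (D.neg T.th) t)⁻¹
        = S.x (D.neg T.th) t * (S.x (D.neg T.a) r * (S.x T.ga s * S.x (D.neg T.th) (-t))) := by
          rw [S.x_inv (hR.neg_lt _ hth)]; simp only [mul_assoc]
      _ = S.x (D.neg T.th) t * (S.x (D.neg T.a) r * S.x (D.neg T.th) (-t)) *
            (S.x T.ga s * S.x (D.neg T.a) ((T.E1 : k) * - -t * s)) := by
          rw [e]; simp only [mul_assoc]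
      _ = _ := by
        rw [e', ← mul_assoc (S.x (D.neg T.th) t), S.x_add _ (hR.neg_lt _ hth), add_neg_cancel,
          S.x_zero (hR.neg_lt _ hth), one_mul, mul_assoc]
  have hne : ∀ g : Matrix.SpecialLinearGroup (Fin 2) k, g.1 1 0 ≠ 0 → ok g := by
    intro g h
    have hd : g.1 0 0 * g.1 1 1 - g.1 0 1 * g.1 1 0 = 1 := by rw [← Matrix.det_fin_two]; exact g.2
    have e : g = upT ((g.1 0 0 - 1) / g.1 1 0) * loT (g.1 1 0) * upT ((g.1 1 1 - 1) / g.1 1 0) := by
      apply Subtype.ext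
      simp only [Matrix.SpecialLinearGroup.coe_mul, upT_val, loT_val]
      ext i j
      fin_cases i <;> fin_cases j <;> simp [Matrix.mul_apply, Fin.sum_univ_two] <;> field_simp <;>
        first | ring1 | linear_combination hd | linear_combination -hd
    rw [e]
    exact hmul _ _ (hmul _ _ (hup _) (hlo _)) (hup _)
  show ok g
  by_cases h : g.1 1 0 = 0
  · have hd : g.1 0 0 * g.1 1 1 - g.1 0 1 * g.1 1 0 = 1 := by rw [← Matrix.det_fin_two]; exact g.2
    rw [h, mul_zero, sub_zero] at hd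
    rw [show g = wey⁻¹ * (wey * g) by rw [inv_mul_cancel_left]]
    refine hmul _ _ (hne _ ?_) (hne _ ?_)
    · simp [Matrix.SpecialLinearGroup.coe_inv, Matrix.adjugate_fin_two, wey_val]
    · simp [Matrix.SpecialLinearGroup.coe_mul, wey_val, Matrix.mul_apply, Fin.sum_univ_two, Matrix.vecMul,
        dotProduct, left_ne_zero_of_mul_eq_one hd]
  · exact hne g h

include hV hR hT hL in
theorem hom2_mem_W [CharP k 2] {g : Matrix.SpecialLinearGroup (Fin 2) k}
    (hg : hom2 hV (Top.th_lt hT) g ∈ Wgrp hS hR hT hL) : g = 1 := by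
  set φ := hom2 (k := k) hV (Top.th_lt hT)
  have key : ∀ g, φ g ∈ Wgrp hS hR hT hL → g.1 1 0 = 0 := by
    rintro g ⟨r, s, hg⟩
    by_contra h
    have e := hom2_extreme hV hS hR hT g h
    rw [hg] at e
    have hcol : (glSys hS).x T.ga s ∈ colFix (Sum.inr (T.tth hT)) :=
      (Top.Ubar_props hS hT hR ((glSys hS).x_mem_US hT.1.2.2.2.2.2 s)).2.1
    have hna : D.neg T.a < D.nroots := hR.neg_lt _ (Top.a_lt hT hR)
    rw [vW, mul_colFix _ hcol, ← glSys_mat hS, (glSys hS).mat_x hna, ChevalleyDatum.x, dif_pos hna] at e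
    obtain ⟨-, ⟨-, -, n3, -, -, n6, n7, -⟩, -⟩ := id hT
    have hn : D.negIdx.getD (D.neg T.a) 0 = T.a := hR.neg_neg_root (Top.a_lt hT hR)
    have hne : D.neg T.th ≠ T.th := hR.neg_ne hT.1.1
    simp [ChevalleyDatum.xMat, Top.nth, Top.tth, -Array.getD_eq_getD_getElem?, Fin.ext_iff, hn, n3.symm, n6.symm,
      hne, hL.2.2.2.2.2.1] at e
    exact h e
  have hb : ∀ g, φ g ∈ Wgrp hS hR hT hL → g.1 0 1 = 0 := by
    intro g hg
    have := key (wey * g * wey⁻¹) (by rw [map_mul, map_mul, map_inv]; exact hom2_normalizes hV hS hR hT hL wey _ hg)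
    rwa [wey_conj_entry, neg_eq_zero] at this
  have hsq : g.1 0 0 ^ 2 = 1 := by
    have h1 : φ (upT (g.1 0 0 ^ 2) * (upT 1)⁻¹) ∈ Wgrp hS hR hT hL := by
      rw [← conj_upT g (key g hg), show g * upT 1 * g⁻¹ * (upT 1)⁻¹ = g * (upT 1 * g⁻¹ * (upT 1)⁻¹) by group,
        map_mul, map_mul, map_mul, map_inv, map_inv]
      exact mul_mem hg (hom2_normalizes hV hS hR hT hL (upT 1) _ (inv_mem hg))
    have h2 := hb _ h1
    rw [upT_inv, upT_mul, upT_val] at h2
    simpa using (eq_neg_of_add_eq_zero_left (by simpa using h2 : g.1 0 0 ^ 2 + -1 = 0))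
  rcases sl_eq_scalar (key g hg) (hb g hg) hsq with h | h
  · exact h
  · rw [h]
    apply Subtype.ext; ext i j
    fin_cases i <;> fin_cases j <;> simp [CharTwo.neg_eq]

include hR hT hL in
/-- Reading off a parameter in `M`. -/
theorem long_line [CharP k 2] (M : Subgroup (GL D.Idx k)) (ha1 : (glSys hS).x T.a 1 ∈ M) {f w : k}
    (h : (glSys hS).x T.ga f * (glSys hS).x T.th w ∈ M) : (glSys hS).x T.th f ∈ M := by
  set S := glSys hS
  obtain ⟨-, ⟨-, n2, -, n4, -⟩, -, -, -, -, -, hterm, -⟩ := id hT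
  have ha := Top.a_lt hT hR
  have hth := Top.th_lt hT
  have e := S.comm T.a ha T.ga (Top.ga_lt hT) n2 n4 1 f
  rw [ChevalleyDatum.commWord, hterm.1] at e
  simp only [List.map_cons, List.map_nil, List.prod_cons, List.prod_nil, mul_one, pow_one] at e
  have hcw : Commute (S.x T.a 1) (S.x T.th w) := Top.commute_th hS hT hR (Top.a_pos hT hR) 1 w
  have hmem : (S.x T.a 1 * (S.x T.ga f * S.x T.th w))⁻¹ * (S.x T.ga f * S.x T.th w * S.x T.a 1) ∈ M :=
    mul_mem (inv_mem (mul_mem ha1 h)) (mul_mem h ha1)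
  rw [mul_assoc (S.x T.ga f) (S.x T.th w), ← hcw.eq, ← mul_assoc (S.x T.ga f), e,
    mul_assoc (S.x T.a 1 * S.x T.ga f), S.x_add _ hth, add_comm, ← S.x_add _ hth,
    show ∀ (X Y Z V : GL D.Idx k), (X * (Y * Z))⁻¹ * (X * Y * (Z * V)) = V from fun X Y Z V => by group] at hmem
  have hc : (T.C : k) = 1 := intCast_unit_two hL.2.2.1
  simpa [hc, CharTwo.neg_eq] using hmem

/-- `x² = x + 1`. -/
def IsCubeRoot (x : k) : Prop := x ^ 2 = x + 1

include hV hR hT hL in
/-- An irrational extreme entry has both ratios in the field with four elements. -/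
theorem long_entry [CharP k 2] (M : Subgroup (GL D.Idx k)) [Finite M] (hMG : M ≤ D.group k)
    (hLM : ∀ r < D.nroots, (glSys hS).x r 1 ∈ M)
    (hA : ∀ t, (glSys hS).x T.th t ∈ M → t = 0 ∨ t = 1) {g : GL D.Idx k} (hg : g ∈ M) {c : k}
    (hc : (g : Matrix D.Idx D.Idx k) (Sum.inr (T.nth hT hR)) (Sum.inr (T.tth hT)) = c) (hc0 : c ≠ 0) (hc1 : c ≠ 1) :
    c ^ 4 = c ∧ IsCubeRoot ((g : Matrix D.Idx D.Idx k) (Sum.inr (T.nga hT hR)) (Sum.inr (T.tth hT)) / c) := by
  classical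
  set S := glSys hS
  obtain ⟨u, hu, hy, hcol⟩ := Top.cell hS hT hR (hMG hg) hc hc0
  have hy' : u * S.x (D.neg T.th) c * u⁻¹ ∈ M := hy ▸ mul_mem (mul_mem hg (hLM _ hT.1.1)) (inv_mem hg)
  obtain ⟨e, herow, -, hconj⟩ := (Top.partner hR hT).conj hS hR hT hu
  have he : (g : Matrix D.Idx D.Idx k) (Sum.inr (T.nga hT hR)) (Sum.inr (T.tth hT)) / c = e := by
    rw [hcol, show (u : Matrix D.Idx D.Idx k) (Sum.inr (T.nga hT hR)) (Sum.inr (T.nth hT hR)) = e by
      have := herow (Sum.inr (T.nth hT hR))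
      rw [Matrix.one_apply_ne (by
        intro h
        exact hT.2.1.2.2.2.2.2.2.2 (congrArg Fin.val (Sum.inr.inj h))), if_pos rfl, zero_add] at this
      exact this, mul_div_cancel_left₀ _ hc0]
  rw [he]
  have hone : ((-((T.C * T.M1 : ℤ) : k))) = 1 := by
    rw [CharTwo.neg_eq, Int.cast_mul, intCast_unit_two hL.2.2.1, intCast_unit_two (hT.2.2.2.2.2.2.1.2), mul_one]
  simp only [hone, one_mul] at hconj
  obtain ⟨-, ⟨n1, n2, n3, n4, n5, n6, n7, n8⟩, -, -, -, -, -, -, hK1, hK2, -, -⟩ := id hT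
  have hth := Top.th_lt hT
  have hga := Top.ga_lt hT
  have ha := Top.a_lt hT hR
  have hna : D.neg T.a < D.nroots := hR.neg_lt _ ha
  set M' := conjSub u M
  have h1 : S.x T.th 1 ∈ M' := (x_th_mem_conjSub hS hR hT hu).2 (hLM _ hth)
  have hth' : ∀ t, S.x T.th t ∈ M' → t = 0 ∨ t = 1 := fun t ht => hA t ((x_th_mem_conjSub hS hR hT hu).1 ht)
  -- back to `M`
  have hback : ∀ f t, S.x T.ga f * S.x T.th t ∈ M' → S.x T.ga f * S.x T.th (e * f + t) ∈ M := by
    intro f t h
    rw [mem_conjSub] at h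
    have hcm := fun w => ((Top.Ubar_props hS hT hR hu).2.2 w).eq
    have e1 : u * S.x T.ga f * u⁻¹ = S.x T.ga f * S.x T.th (e * f) := by
      calc u * S.x T.ga f * u⁻¹
          = u * ((u⁻¹ * S.x T.ga f * u) * (S.x T.th (e * f))⁻¹) * u⁻¹ := by rw [hconj, mul_inv_cancel_right]
        _ = S.x T.ga f * (u * (S.x T.th (e * f))⁻¹ * u⁻¹) := by group
        _ = _ := by rw [S.x_inv hth, hcm, mul_inv_cancel_right, CharTwo.neg_eq]
    rw [← S.x_add _ hth, ← mul_assoc]
    rw [show u * (S.x T.ga f * S.x T.th t) * u⁻¹ = u * S.x T.ga f * u⁻¹ * (u * S.x T.th t * u⁻¹) by group, e1,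
      hcm, mul_inv_cancel_right] at h
    exact h
  have hga1 : S.x T.ga 1 * S.x T.th e ∈ M' := by
    have := hconj 1
    rw [mul_one] at this
    rw [← this, mem_conjSub]
    simpa [mul_assoc] using hLM _ hga
  have hline : ∀ f t, S.x T.ga f * S.x T.th t ∈ M' → f = 0 ∨ f = 1 := fun f t h =>
    hA f (long_line hS hR hT hL M (hLM _ ha) (hback f t h))
  have hrel1 : ∀ v, S.x T.ga v ∈ M' → v = 0 ∨ v = 1 := fun v h =>
    hline v 0 (by rw [S.x_zero hth, mul_one]; exact h)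
  have hcomm2 : ∀ r, (S.x T.th 1 * S.x (D.neg T.a) r)⁻¹ * (S.x (D.neg T.a) r * S.x T.th 1) = S.x T.ga r := by
    intro r
    have h := S.comm T.th hth (D.neg T.a) hna n6 n7 1 r
    rw [ChevalleyDatum.commWord, hK2.1, hL.2.1] at h
    simp only [List.map_cons, List.map_nil, List.prod_cons, List.prod_nil, mul_one, pow_one] at h
    rw [h, inv_mul_cancel_left, intCast_unit_two hK2.2, CharTwo.neg_eq, one_mul, one_mul]
  -- the ratio is irrational
  have heirr : e ≠ 0 ∧ e ≠ 1 := by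
    by_contra hcon
    have hgam : S.x T.ga 1 ∈ M' := by
      rw [not_and_or, not_not, not_not] at hcon
      rcases hcon with h | h
      · rw [h, S.x_zero hth, mul_one] at hga1; exact hga1
      · rw [h] at hga1
        have := mul_mem hga1 (inv_mem h1)
        rwa [mul_inv_cancel_right] at this
    have hnac : S.x (D.neg T.a) c ∈ M' := by
      have h := S.comm (D.neg T.th) (hR.neg_lt _ hth) T.ga hga n5 (by rw [hR.neg_neg_root hth]; exact n1.symm) c 1
      rw [ChevalleyDatum.commWord, hK1.1, hL.1] at h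
      simp only [List.map_cons, List.map_nil, List.prod_cons, List.prod_nil, mul_one, pow_one, one_pow] at h
      have hm : (S.x (D.neg T.th) c * S.x T.ga 1)⁻¹ * (S.x T.ga 1 * S.x (D.neg T.th) c) ∈ M' :=
        mul_mem (inv_mem (mul_mem hy' hgam)) (mul_mem hgam hy')
      rw [h, inv_mul_cancel_left, intCast_unit_two hK1.2, CharTwo.neg_eq, one_mul] at hm
      exact hm
    have : S.x T.ga c ∈ M' := hcomm2 c ▸ mul_mem (inv_mem (mul_mem h1 hnac)) (mul_mem hnac h1)
    rcases hrel1 c this with h | h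
    · exact hc0 h
    · exact hc1 h
  -- the projection
  set φ := hom2 (k := k) hV hth
  set W := Wgrp hS hR hT hL
  let P : Subgroup (Matrix.SpecialLinearGroup (Fin 2) k) :=
    { carrier := {g | ∃ v ∈ W, v * φ g ∈ M'}
      one_mem' := ⟨1, one_mem _, by rw [map_one, mul_one]; exact one_mem _⟩
      mul_mem' := by
        rintro g h ⟨v, hv, hvg⟩ ⟨w, hw, hwh⟩
        refine ⟨v * (φ g * w * (φ g)⁻¹), mul_mem hv (hom2_normalizes hV hS hR hT hL g w hw), ?_⟩
        rw [map_mul, show v * (φ g * w * (φ g)⁻¹) * (φ g * φ h) = v * φ g * (w * φ h) by group]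
        exact mul_mem hvg hwh
      inv_mem' := by
        rintro g ⟨v, hv, hvg⟩
        refine ⟨φ g⁻¹ * v⁻¹ * (φ g⁻¹)⁻¹, hom2_normalizes hV hS hR hT hL g⁻¹ _ (inv_mem hv), ?_⟩
        rw [inv_mul_cancel_right, map_inv, ← mul_inv_rev]
        exact inv_mem hvg }
  have hPfin : Finite P := by
    choose v hv hvm using fun g : P => g.2
    refine Finite.of_injective (fun g : P => (⟨v g * φ g.1, hvm g⟩ : M')) fun g h heq => ?_
    have heq' : v g * φ g.1 = v h * φ h.1 := congrArg Subtype.val heq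
    have h0 : φ (g.1 * h.1⁻¹) = (v g)⁻¹ * v h := by
      rw [map_mul, map_inv, show φ g.1 = (v g)⁻¹ * (v h * φ h.1) by rw [← heq', inv_mul_cancel_left]]
      group
    exact Subtype.ext (mul_inv_eq_one.1 (hom2_mem_W hV hS hR hT hL (h0 ▸ mul_mem (inv_mem (hv g)) (hv h))))
  have hbound : ∀ t, upT t ∈ P → t = 0 ∨ t = 1 ∨ t = e ∨ t = e + 1 := by
    rintro t ⟨_, ⟨r, s, rfl⟩, hm⟩
    rw [show φ (upT t) = S.x T.th t from hom2_upT hV hS hth t, vW] at hm
    have hc1' : Commute (S.x T.th 1) (S.x T.ga s * S.x T.th t) :=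
      (Top.commute_th hS hT hR hT.1.2.2.2.2.2 s 1).symm.mul_right (Top.commute_th hS hT hR hT.1.2.2.2.2.1 t 1).symm
    have hc2' : Commute (S.x T.ga r) (S.x T.ga s * S.x T.th t) := by
      refine Commute.mul_right ?_ (Top.commute_th hS hT hR hT.1.2.2.2.2.2 r t)
      show S.x T.ga r * S.x T.ga s = S.x T.ga s * S.x T.ga r
      rw [S.x_add _ hga, S.x_add _ hga, add_comm]
    have hr : S.x T.ga r ∈ M' := by
      have h := mul_mem (inv_mem (mul_mem h1 hm)) (mul_mem hm h1)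
      have e2 : (S.x T.th 1 * (S.x (D.neg T.a) r * S.x T.ga s * S.x T.th t))⁻¹ *
          (S.x (D.neg T.a) r * S.x T.ga s * S.x T.th t * S.x T.th 1) =
          (S.x T.ga s * S.x T.th t)⁻¹ * ((S.x T.th 1 * S.x (D.neg T.a) r)⁻¹ * (S.x (D.neg T.a) r * S.x T.th 1)) *
            (S.x T.ga s * S.x T.th t) := by
        rw [show S.x (D.neg T.a) r * S.x T.ga s * S.x T.th t * S.x T.th 1 =
          S.x (D.neg T.a) r * ((S.x T.ga s * S.x T.th t) * S.x T.th 1) by simp only [mul_assoc], ← hc1'.eq]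
        group
      rw [e2, hcomm2, mul_assoc, hc2'.eq, inv_mul_cancel_left] at h
      exact h
    obtain rfl : r = 0 := by
      rcases hrel1 r hr with h | h
      · exact h
      · subst h
        have := mul_mem (inv_mem hr) hga1
        rw [inv_mul_cancel_left] at this
        rcases hth' e this with h | h
        · exact absurd h heirr.1
        · exact absurd h heirr.2
    rw [S.x_zero hna, one_mul] at hm
    have hM := hback s t hm
    have hts : ∀ w, S.x T.th w ∈ M → w = 0 ∨ w = 1 := hA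
    rcases hline s t hm with rfl | rfl
    · rw [S.x_zero hga, one_mul, mul_zero, zero_add] at hM
      rcases hA t hM with h | h
      · exact Or.inl h
      · exact Or.inr (Or.inl h)
    · have h2 := mul_mem (inv_mem (hLM _ hga)) hM
      rw [inv_mul_cancel_left, mul_one] at h2
      rcases hA _ h2 with h | h
      · exact Or.inr (Or.inr (Or.inl (CharTwo.add_eq_zero.1 h).symm))
      · refine Or.inr (Or.inr (Or.inr ?_))
        have : t = 1 + e := by rw [← h, add_right_comm, CharTwo.add_self_eq_zero, zero_add]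
        rw [this, add_comm]
  have hP1 : upT (1 : k) ∈ P := ⟨1, one_mem _, by rw [one_mul, show φ (upT 1) = _ from hom2_upT hV hS hth 1]; exact h1⟩
  have hPe : upT e ∈ P := ⟨S.x T.ga 1, ⟨0, 1, by rw [vW, S.x_zero hna, one_mul]⟩, by
    rw [show φ (upT e) = _ from hom2_upT hV hS hth e]; exact hga1⟩
  have hPc : loT c ∈ P := ⟨1, one_mem _, by rw [one_mul, show φ (loT c) = _ from hom2_loT hV hS hth c]; exact hy'⟩
  have hTset : {t : k | upT t ∈ P} = {0, 1, e, e + 1} := by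
    ext t
    refine ⟨fun ht => hbound t ht, fun ht => ?_⟩
    simp only [Set.mem_insert_iff, Set.mem_singleton_iff] at ht
    show upT t ∈ P
    rcases ht with rfl | rfl | rfl | rfl
    · rw [upT_zero]; exact one_mem _
    · exact hP1
    · exact hPe
    · rw [← upT_mul]; exact mul_mem hPe hP1
  have hcard : 4 ≤ Set.ncard {t : k | upT t ∈ P} := by
    rw [hTset, Set.ncard_insert_of_notMem, Set.ncard_insert_of_notMem, Set.ncard_pair]
    · intro h; exact one_ne_zero (left_eq_add.1 h)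
    · simp only [Set.mem_insert_iff, Set.mem_singleton_iff, not_or]
      exact ⟨heirr.2.symm, fun h => heirr.1 (add_eq_right.1 h.symm)⟩
    · simp only [Set.mem_insert_iff, Set.mem_singleton_iff, not_or]
      exact ⟨zero_ne_one, heirr.1.symm, fun h => heirr.2 (CharTwo.add_eq_zero.1 h.symm)⟩
  obtain ⟨hclosed, hcP⟩ := field_of_subgroup P hc0 hPc hP1 hcard
  have hroot : IsCubeRoot e := by
    rcases hbound _ (hclosed e e hPe hPe) with h | h | h | h
    · exact absurd (mul_self_eq_zero.1 h) heirr.1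
    · exact absurd ((mul_self_eq_one_iff.1 h).resolve_right fun h' => heirr.2 (h'.trans (CharTwo.neg_eq 1))) heirr.2
    · exact absurd (mul_left_cancel₀ heirr.1 (h.trans (mul_one e).symm)) heirr.2
    · rw [IsCubeRoot, sq]; exact h
  refine ⟨?_, hroot⟩
  unfold IsCubeRoot at hroot
  have h2 : (2 : k) = 0 := CharTwo.two_eq_zero
  rcases hbound _ hcP with rfl | rfl | rfl | rfl
  · ring
  · ring
  · linear_combination (c ^ 2 + c + 2) * hroot + (c + 1) * h2
  · linear_combination (e ^ 2 + 5 * e + 12) * hroot + (10 * e + 6) * h2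

/-- The facts on a neighbour `b` of `a`. -/
def Top.beta (T : Top D) (jb r2 : ℕ) : Prop :=
  jb < D.rank ∧ r2 < D.nroots ∧ D.reflectRoot jb r2 = D.neg T.ga ∧
    D.reflectRoot jb (D.neg T.th) = D.neg T.th ∧
    D.neg (D.simple jb) ≠ D.neg T.th ∧ D.neg (D.simple jb) ≠ D.neg T.ga ∧
    r2 ≠ D.neg (D.simple jb) ∧ r2 ≠ D.simple jb ∧ r2 ≠ D.neg T.ga ∧
    (∀ e ∈ (D.chain.getD (D.neg (D.simple jb)) #[]).toList, ∀ q ∈ e.2.toList,
      q.1 ≠ D.neg T.th ∧ (q.1 = D.neg T.ga → e.1 = r2)) ∧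
    (D.chainCoeff (D.neg (D.simple jb)) r2 (D.neg T.ga) = [(1, 1)] ∨
      D.chainCoeff (D.neg (D.simple jb)) r2 (D.neg T.ga) = [(1, -1)])

include hR in
/-- Rows of `n_j g` in characteristic two. -/
theorem nI_mul_row [CharP k 2] (j : Fin D.rank) (g : GL D.Idx k) (z z' : Fin D.nroots)
    (hz : D.reflectRoot j z' = z) (c : D.Idx) :
    (((glSys hS).nI j * g : GL D.Idx k) : Matrix D.Idx D.Idx k) (Sum.inr z) c =
      (g : Matrix D.Idx D.Idx k) (Sum.inr z') c := by
  rw [Units.val_mul, Matrix.mul_apply, Finset.sum_eq_single (Sum.inr z' : D.Idx)]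
  · rw [← glSys_mat hS, Sys.nI, (glSys hS).mat_nEl hR (hR.simple_lt j j.2), hS.nMat_col]
    simp only [Sum.elim_inr, hz, if_true]
    rw [intCast_unit_two (hS.eta_sq j z'.2), one_mul]
  · intro i _ hi
    rcases i with i | i
    · have := (glSys hS).mat_nW_inl hS hR [j] z i
      rw [Sys.nW_singleton, glSys_mat] at this
      rw [this, zero_mul]
    · rw [← glSys_mat hS, Sys.nI, (glSys hS).mat_nEl hR (hR.simple_lt j j.2), hS.nMat_col]
      simp only [Sum.elim_inr]
      rw [if_neg, zero_mul]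
      intro h
      apply hi
      congr 1
      apply Fin.ext
      rw [← hR.reflect_reflect j.2 i.2, ← h, ← hz, hR.reflect_reflect j.2 z'.2]
  · simp

include hV hR hT hL in
/-- A second neighbour rules out irrational entries. -/
theorem long_beta [CharP k 2] {jb r2 : ℕ} (hb : T.beta jb r2) (M : Subgroup (GL D.Idx k)) [Finite M]
    (hMG : M ≤ D.group k) (hLM : ∀ r < D.nroots, (glSys hS).x r 1 ∈ M)
    (hA : ∀ t, (glSys hS).x T.th t ∈ M → t = 0 ∨ t = 1) {g : GL D.Idx k} (hg : g ∈ M) :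
    (g : Matrix D.Idx D.Idx k) (Sum.inr (T.nth hT hR)) (Sum.inr (T.tth hT)) = 0 ∨
    (g : Matrix D.Idx D.Idx k) (Sum.inr (T.nth hT hR)) (Sum.inr (T.tth hT)) = 1 := by
  classical
  by_contra hne
  push Not at hne
  obtain ⟨hj, hr2, hrefl, hnth, n1, n2, n3, n4, n5, hchain, hcoef⟩ := hb
  set S := glSys hS
  have hp := hR.simple_lt jb hj
  have hnb := hR.neg_lt _ hp
  have hnI : S.nI ⟨jb, hj⟩ ∈ M := by
    refine mul_mem (mul_mem (hLM _ hp) ?_) (hLM _ hp)
    rw [inv_one]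
    show S.x (D.neg (D.simple jb)) (-1) ∈ M
    rw [← S.x_inv hnb]
    exact inv_mem (hLM _ hnb)
  obtain ⟨hc4, h1⟩ := long_entry hV hS hR hT hL M hMG hLM hA hg rfl hne.1 hne.2
  have e0 : ((S.nI ⟨jb, hj⟩ * g : GL D.Idx k) : Matrix D.Idx D.Idx k) (Sum.inr (T.nth hT hR)) (Sum.inr (T.tth hT)) =
      (g : Matrix D.Idx D.Idx k) (Sum.inr (T.nth hT hR)) (Sum.inr (T.tth hT)) :=
    nI_mul_row hS hR ⟨jb, hj⟩ g _ _ hnth _
  have e1 : ((S.nI ⟨jb, hj⟩ * g : GL D.Idx k) : Matrix D.Idx D.Idx k) (Sum.inr (T.nga hT hR)) (Sum.inr (T.tth hT)) =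
      (g : Matrix D.Idx D.Idx k) (Sum.inr ⟨r2, hr2⟩) (Sum.inr (T.tth hT)) :=
    nI_mul_row hS hR ⟨jb, hj⟩ g (T.nga hT hR) ⟨r2, hr2⟩ hrefl _
  obtain ⟨-, h2⟩ := long_entry hV hS hR hT hL M hMG hLM hA (mul_mem hnI hg) e0 hne.1 hne.2
  rw [e1] at h2
  have hrow0 : S.x (D.neg (D.simple jb)) 1 ∈ rowFix (Sum.inr (T.nth hT hR)) := fun c => by
    rw [← glSys_mat hS, S.mat_x hnb]
    exact x_row hnb 1 _ n1.symm
      (fun _ => chainCoeff_eq_nil fun e he q hq hz _ => (hchain e he q hq).1 hz) c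
  have f0 : ((S.x (D.neg (D.simple jb)) 1 * g : GL D.Idx k) : Matrix D.Idx D.Idx k) (Sum.inr (T.nth hT hR))
      (Sum.inr (T.tth hT)) = (g : Matrix D.Idx D.Idx k) (Sum.inr (T.nth hT hR)) (Sum.inr (T.tth hT)) :=
    rowFix_mul hrow0 g _
  have f1 : ((S.x (D.neg (D.simple jb)) 1 * g : GL D.Idx k) : Matrix D.Idx D.Idx k) (Sum.inr (T.nga hT hR))
      (Sum.inr (T.tth hT)) = (g : Matrix D.Idx D.Idx k) (Sum.inr (T.nga hT hR)) (Sum.inr (T.tth hT)) +
        (g : Matrix D.Idx D.Idx k) (Sum.inr ⟨r2, hr2⟩) (Sum.inr (T.tth hT)) := by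
    have hx : ∀ c, ((S.x (D.neg (D.simple jb)) 1 : GL D.Idx k) : Matrix D.Idx D.Idx k) (Sum.inr (T.nga hT hR)) c =
        (1 : Matrix D.Idx D.Idx k) (Sum.inr (T.nga hT hR)) c + if c = Sum.inr ⟨r2, hr2⟩ then 1 else 0 := by
      intro c
      rw [← glSys_mat hS, S.mat_x hnb, x_row_one hnb 1 (T.nga hT hR) ⟨r2, hr2⟩ n2.symm n3
        (by show r2 ≠ D.neg (D.neg (D.simple jb)); rw [hR.neg_neg_root hp]; exact n4)
        (fun s hs => chainCoeff_eq_nil fun e he q hq hz hes => hs (Fin.ext (hes ▸ (hchain e he q hq).2 hz)))]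
      rcases hcoef with h | h <;> simp [Top.nga, h, CharTwo.neg_eq]
    rw [Units.val_mul, Matrix.mul_apply]
    simp only [hx, add_mul, Finset.sum_add_distrib, Matrix.one_apply, ite_mul, one_mul, zero_mul,
      Finset.sum_ite_eq, Finset.sum_ite_eq', Finset.mem_univ, if_true]
  obtain ⟨-, h3⟩ := long_entry hV hS hR hT hL M hMG hLM hA (mul_mem (hLM _ hnb) hg) f0 hne.1 hne.2
  rw [f1, add_div] at h3
  unfold IsCubeRoot at h1 h2 h3
  rw [CharTwo.add_sq, h1, h2] at h3
  have h4 : (1 : k) = 0 := by linear_combination h3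
  exact one_ne_zero h4

end Cfsg.Agent.Known.SubG
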